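import Mathlib

/-! # Largest abelian subgroups of the symmetric and alternating groups -/

set_option autoImplicit false

namespace Cfsg.Lib.Alt

open Equiv Finset MulAction Subgroup

/-- The largest order of an abelian subgroup of `S_n`. -/
def abS : ℕ → ℕ
  | 0 => 1 | 1 => 1 | 2 => 2 | 3 => 3 | 4 => 4 | n + 5 => 3 * abS (n + 2)

/-- The largest order of an abelian subgroup of `A_n`. -/
def abA : ℕ → ℕ
  | 0 => 1 | 1 => 1 | 2 => 1 | 3 => 3 | 4 => 4 | 5 => 5 | 6 => 9 | 7 => 12 | 8 => 16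
  | n + 9 => 3 * abA (n + 6)

theorem abS_mul (m n : ℕ) : m * abS n ≤ abS (n + m) := by
  have small : ∀ m ≤ 4, ∀ n, m * abS n ≤ abS (n + m) := fun m hm n => by
    induction n using Nat.strong_induction_on with | h n ih => ?_
    obtain h | ⟨n, rfl⟩ : n < 5 ∨ ∃ k, n = k + 5 := (lt_or_ge n 5).imp_right fun h => ⟨n - 5, by omega⟩
    · interval_cases m <;> interval_cases n <;> decide
    rw [add_right_comm n 5, abS, abS, mul_left_comm, add_right_comm n m]
    exact Nat.mul_le_mul_left _ (ih _ (by omega))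
  induction m using Nat.strong_induction_on with | h m ih => ?_
  obtain h | ⟨m, rfl⟩ : m ≤ 4 ∨ ∃ k, m = k + 5 := (le_or_gt m 4).imp_right fun h => ⟨m - 5, by omega⟩
  · exact small m h n
  rw [← add_assoc, abS, add_assoc]
  exact (by nlinarith : _ ≤ 3 * ((m + 2) * abS n)).trans (Nat.mul_le_mul_left _ (ih _ (by omega)))

theorem abA_pos (n : ℕ) : 0 < abA n := by
  induction n using abA.induct <;> simp_all [abA]

theorem abA_mul {m : ℕ} (h2 : m ≠ 2) (n : ℕ) : m * abA n ≤ abA (n + m) ∧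
    (m ≠ 3 → m ≠ 4 → 3 ≤ n + m → n + m ≠ 5 → m * abA n < abA (n + m)) := by
  have small : ∀ m ≤ 5, m ≠ 2 → ∀ n, m * abA n ≤ abA (n + m) ∧
      (m ≠ 3 → m ≠ 4 → 3 ≤ n + m → n + m ≠ 5 → m * abA n < abA (n + m)) := fun m hm h2 n => by
    induction n using Nat.strong_induction_on with | h n ih => ?_
    obtain h | ⟨n, rfl⟩ : n < 9 ∨ ∃ k, n = k + 9 := (lt_or_ge n 9).imp_right fun h => ⟨n - 9, by omega⟩
    · interval_cases m <;> interval_cases n <;> first | decide | omega
    rw [add_right_comm n 9, abA, abA, mul_left_comm, add_right_comm n m]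
    have := ih (n + 6) (by omega)
    exact ⟨Nat.mul_le_mul_left _ this.1, fun a b _ _ =>
      Nat.mul_lt_mul_of_pos_left (this.2 a b (by omega) (by omega)) (by omega)⟩
  induction m using Nat.strong_induction_on with | h m ih => ?_
  obtain h | ⟨m, rfl⟩ : m ≤ 5 ∨ ∃ k, m = k + 6 := (le_or_gt m 5).imp_right fun h => ⟨m - 6, by omega⟩
  · exact small m h h2 n
  have a := (ih (m + 3) (by omega) (by omega)).1
  have b := (small 3 (by omega) (by omega) (n + (m + 3))).1
  have : (m + 6) * abA n < abA (n + (m + 6)) := by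
    rw [add_assoc] at b
    nlinarith [abA_pos n]
  exact ⟨this.le, fun _ _ _ _ => this⟩

theorem abS_le (n : ℕ) : abS n ≤ 2 * abA n ∧ (3 ≤ n → abS n < 2 * abA n) := by
  induction n using abA.induct with
  | case10 n ih => rw [abA, show abS _ = 3 * abS (n + 6) from rfl]; omega
  | _ => decide

theorem prod_le_abS {ι : Type*} (s : Finset ι) (m : ι → ℕ) : ∏ i ∈ s, m i ≤ abS (∑ i ∈ s, m i) := by
  induction s using cons_induction with
  | empty => rfl
  | cons a s ha ih =>
    rw [prod_cons, sum_cons, add_comm]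
    exact (Nat.mul_le_mul_left _ ih).trans (abS_mul _ _)

theorem prod_le_abA {ι : Type*} {s : Finset ι} {m : ι → ℕ} (h : ∀ i ∈ s, m i ≠ 2) :
    ∏ i ∈ s, m i ≤ abA (∑ i ∈ s, m i) := by
  induction s using cons_induction with
  | empty => rfl
  | cons a s ha ih =>
    rw [prod_cons, sum_cons, add_comm]
    exact (Nat.mul_le_mul_left _ (ih fun i hi => h i (mem_cons_of_mem hi))).trans
      (abA_mul (h a (mem_cons_self _ _)) _).1

theorem three_or_four {ι : Type*} {s : Finset ι} {m : ι → ℕ} (h : ∀ i ∈ s, m i ≠ 2)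
    (h3 : 3 ≤ ∑ i ∈ s, m i) (h5 : ∑ i ∈ s, m i ≠ 5) (e : abA (∑ i ∈ s, m i) ≤ ∏ i ∈ s, m i)
    {i : ι} (hi : i ∈ s) : m i = 3 ∨ m i = 4 := by
  classical
  by_contra! k
  rw [← add_sum_erase _ _ hi, add_comm] at h3 h5 e
  rw [← mul_prod_erase _ _ hi] at e
  exact (((Nat.mul_le_mul_left _ (prod_le_abA fun j hj => h j (mem_of_mem_erase hj))).trans_lt
    ((abA_mul (h i hi) _).2 k.1 k.2 h3 h5)).trans_le e).false

variable {α : Type*} [Fintype α] [DecidableEq α]

theorem commute_of_even {β : Type*} [Fintype β] [DecidableEq β]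
    (h : Fintype.card β = 3 ∨ Fintype.card β = 4) {a b : Perm β} (a1 : Perm.sign a = 1)
    (a2 : ∀ x y, a x = x → a y = y) (b1 : Perm.sign b = 1) (b2 : ∀ x y, b x = x → b y = y) :
    a * b = b * a := by
  have key : ∀ k, (∀ a b : Perm (Fin k), Perm.sign a = 1 → (∀ x y, a x = x → a y = y) →
      Perm.sign b = 1 → (∀ x y, b x = x → b y = y) → a * b = b * a) → Fintype.card β = k →
      a * b = b * a := fun k H hk => by
    have e := Fintype.equivFinOfCardEq hk
    have t : ∀ {a : Perm β}, (∀ x y, a x = x → a y = y) →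
        ∀ x y, e.permCongr a x = x → e.permCongr a y = y := fun h x y k => by
      rw [permCongr_apply, ← eq_symm_apply] at k ⊢
      exact h _ _ k
    exact e.permCongrHom.injective (by
      simpa only [map_mul] using! H _ _ (by simpa) (t a2) (by simpa) (t b2))
  exact h.elim (key 3 (by decide)) (key 4 (by decide +kernel))

section
variable (A : Type*) [Group A] [MulAction A α] [IsMulCommutative A]

omit [Fintype α] [DecidableEq α] in
theorem smul_eq_of_orbit {a b : A} {x y : α} (h : a • x = b • x) (hy : y ∈ orbit A x) :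
    a • y = b • y := by
  obtain ⟨c, rfl⟩ := hy
  simp only [← mul_smul, mul_comm' _ c]
  simp only [mul_smul, h]

omit [IsMulCommutative A] [DecidableEq α] in
theorem sum_orbit [Fintype (orbitRel.Quotient A α)] :
    ∑ ω : orbitRel.Quotient A α, (orbit A ω.out).ncard = Fintype.card α := by
  rw [← Nat.card_eq_fintype_card, Nat.card_congr (selfEquivSigmaOrbits A α), Nat.card_sigma]
  rfl

variable [FaithfulSMul A α] [Fintype (orbitRel.Quotient A α)]

omit [DecidableEq α] in
theorem card_abelian : Nat.card A ≤ ∏ ω : orbitRel.Quotient A α, (orbit A ω.out).ncard ∧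
    (2 * Nat.card A ≤ ∏ ω : orbitRel.Quotient A α, (orbit A ω.out).ncard ∨
      Nat.card A = ∏ ω : orbitRel.Quotient A α, (orbit A ω.out).ncard ∧
      ∀ (x : α) (b : A), ∃ a : A, a • x = b • x ∧ ∀ z ∉ orbit A x, a • z = z) := by
  classical
  let θ : A →* ∀ ω : orbitRel.Quotient A α, A ⧸ stabilizer A ω.out :=
    MonoidHom.pi fun ω => QuotientGroup.mk' _
  have out : ∀ x : α, x ∈ orbit A (Quotient.mk (orbitRel A α) x).out := fun x =>
    (orbitRel A α).symm (Quotient.mk_out x)
  have hθ : ∀ {a b} ω, θ a ω = θ b ω → a • ω.out = b • ω.out := fun {a b} ω h => by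
    have : (a⁻¹ * b) • ω.out = ω.out := QuotientGroup.eq.1 h
    rw [mul_smul, inv_smul_eq_iff] at this
    exact this.symm
  have inj : Function.Injective θ := fun a b h =>
    eq_of_smul_eq_smul fun x : α => smul_eq_of_orbit A (hθ _ (congrFun h _)) (out x)
  have e : θ.range.index * Nat.card A = ∏ ω : orbitRel.Quotient A α, (orbit A ω.out).ncard := by
    rw [Nat.card_congr (MonoidHom.ofInjective inj).toEquiv, index_mul_card, Nat.card_pi]
    exact prod_congr rfl fun ω _ => index_stabilizer _ _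
  haveI : Finite A := .of_injective _ (toPerm_injective (α := A) (β := α))
  have := θ.range.index_ne_zero_of_finite
  refine ⟨e ▸ Nat.le_mul_of_pos_left _ (by omega), (le_or_gt 2 θ.range.index).imp
    (fun h => e ▸ Nat.mul_le_mul_right _ h) fun h => ?_⟩
  replace h : θ.range.index = 1 := by omega
  refine ⟨by rw [← e, h, one_mul], fun x b => ?_⟩
  obtain ⟨a, ha⟩ := (index_eq_one.1 h).ge (mem_top (Pi.mulSingle (Quotient.mk _ x) (QuotientGroup.mk b)))
  refine ⟨a, smul_eq_of_orbit A (hθ _ (by rw [ha, Pi.mulSingle_eq_same]; rfl)) (out x), fun z hz =>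
    (smul_eq_of_orbit A (hθ (b := 1) _ ?_) (out z)).trans (one_smul _ _)⟩
  rw [ha, Pi.mulSingle_eq_of_ne fun k => hz (Quotient.exact k), map_one]
  rfl

theorem card_abelian_le : Nat.card A ≤ abS (Fintype.card α) :=
  (card_abelian A).1.trans (sum_orbit (α := α) A ▸ prod_le_abS _ _)

theorem even_on_orbit (hA : ∀ a : A, Perm.sign (toPerm a : Perm α) = 1) :
    2 * Nat.card A ≤ abS (Fintype.card α) ∨
      Nat.card A = ∏ ω : orbitRel.Quotient A α, (orbit A ω.out).ncard ∧
      (∀ x : α, (orbit A x).ncard ≠ 2) ∧ ∀ (x : α) (b : A) (S : Set α) [DecidablePred (· ∈ S)],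
        orbit A x = S → ∀ h, Perm.sign ((toPerm b : Perm α).subtypePerm (p := (· ∈ S)) h) = 1 := by
  refine (card_abelian (α := α) A).2.imp (fun h => h.trans (sum_orbit (α := α) A ▸ prod_le_abS _ _))
    fun ⟨h1, h2⟩ => ⟨h1, fun x hx => ?_, ?_⟩
  · obtain ⟨y, ⟨b, rfl⟩, hb⟩ := Set.exists_ne_of_one_lt_ncard (hx.symm ▸ one_lt_two) x
    obtain ⟨a, a1, a2⟩ := h2 x b
    have : (toPerm a : Perm α).IsSwap := Perm.card_support_eq_two.1 (le_antisymm (by
      rw [← hx, ← Set.ncard_coe_finset]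
      exact Set.ncard_le_ncard fun z hz => by_contra fun k => by simpa [a2 z k] using hz)
      (Perm.two_le_card_support_of_ne_one fun k => hb (a1.symm.trans (DFunLike.congr_fun k x))))
    simpa [hA] using this.sign_eq
  rintro x b _ _ rfl h
  obtain ⟨a, a1, a2⟩ := h2 x b
  rw [← hA a, ← Perm.sign_subtypePerm (toPerm a) (p := (· ∈ orbit A x))
    (fun z => ⟨fun k => by simpa using mem_orbit_of_mem_orbit a⁻¹ k, mem_orbit_of_mem_orbit a⟩)
    fun z hz => by_contra fun k => hz (a2 z k)]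
  exact congrArg _ (Equiv.ext fun y => Subtype.ext (smul_eq_of_orbit A a1.symm y.2))

end

theorem card_abelian_even (A : Type*) [Group A] [MulAction A α] [IsMulCommutative A]
    [FaithfulSMul A α] (hA : ∀ a : A, Perm.sign (toPerm a : Perm α) = 1) :
    Nat.card A ≤ abA (Fintype.card α) := by
  haveI := Fintype.ofFinite (orbitRel.Quotient A α)
  rcases even_on_orbit A hA with h | ⟨h1, h2, -⟩
  · have := (abS_le (Fintype.card α)).1
    omega
  exact h1 ▸ sum_orbit (α := α) A ▸ prod_le_abA fun ω _ => h2 _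

/-- There is an abelian group of permutations of `n` letters of order `c`, even ones if `ε`. -/
def HasAb (ε : Prop) (n c : ℕ) : Prop := ∃ A : Subgroup (Perm (Fin n)),
  IsMulCommutative A ∧ Nat.card A = c ∧ (ε → A ≤ alternatingGroup _)

theorem HasAb.add {ε : Prop} {n m c d : ℕ} (h : HasAb ε n c) (h' : HasAb ε m d) :
    HasAb ε (n + m) (c * d) := by
  obtain ⟨A, a1, rfl, a2⟩ := h
  obtain ⟨B, b1, rfl, b2⟩ := h'
  refine ⟨(A.prod B).map (finSumFinEquiv.permCongrHom.toMonoidHom.comp (Perm.sumCongrHom _ _)), ?_,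
    ?_, ?_⟩
  · haveI : IsMulCommutative (A.prod B) := ⟨⟨fun x y => (A.prodEquiv B).injective (by
      rw [map_mul, map_mul, mul_comm'])⟩⟩
    infer_instance
  · rw [card_map_of_injective (finSumFinEquiv.permCongrHom.injective.comp
      Perm.sumCongrHom_injective), Nat.card_congr (A.prodEquiv B).toEquiv, Nat.card_prod]
  rintro h _ ⟨⟨x, y⟩, ⟨h1, h2⟩, rfl⟩
  simp [Perm.mem_alternatingGroup.1 (a2 h h1), Perm.mem_alternatingGroup.1 (b2 h h2)]

theorem hasAb_rotate {ε : Prop} (n : ℕ) (h : ε → Odd n) : HasAb ε (n + 2) (n + 2) :=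
  ⟨zpowers (finRotate _), inferInstance, by
    rw [Nat.card_zpowers, isCycle_finRotate.orderOf, support_finRotate]; simp,
    fun k => zpowers_le.2 (by simp [Perm.mem_alternatingGroup, (h k).add_one.neg_one_pow])⟩

theorem hasAb_one (ε : Prop) (n : ℕ) : HasAb ε n 1 := ⟨⊥, inferInstance, card_bot, fun _ => bot_le⟩

theorem hasAb_four (ε : Prop) : HasAb ε 4 4 := by
  have h : Nat.card ((alternatingGroup.kleinFour (Fin 4)).map (alternatingGroup _).subtype) = 4 := by
    rw [Subgroup.card_subtype, alternatingGroup.kleinFour_card_of_card_eq_four (by simp)]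
  exact ⟨_, IsPGroup.isMulCommutative_of_card_eq_prime_sq (p := 2) h, h, fun _ => map_subtype_le _⟩

theorem hasAb_abS (n : ℕ) : HasAb False n (abS n) := by
  induction n using abS.induct with
  | case3 => exact hasAb_rotate 0 False.elim
  | case4 => exact hasAb_rotate 1 False.elim
  | case5 => exact hasAb_four _
  | case6 n ih => rw [abS, mul_comm]; exact ih.add (hasAb_rotate 1 False.elim)
  | _ => exact hasAb_one _ _

theorem hasAb_abA (n : ℕ) : HasAb True n (abA n) := by
  have h3 : HasAb True 3 3 := hasAb_rotate 1 fun _ => odd_one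
  induction n using abA.induct with
  | case4 => exact h3
  | case5 => exact hasAb_four _
  | case6 => exact hasAb_rotate 3 fun _ => by decide
  | case7 => exact h3.add h3
  | case8 => exact h3.add (hasAb_four _)
  | case9 => exact (hasAb_four _).add (hasAb_four _)
  | case10 n ih => rw [abA, mul_comm]; exact ih.add h3
  | _ => exact hasAb_one _ _

theorem isGreatest_abS (n : ℕ) : IsGreatest
    {c | ∃ A : Subgroup (Perm (Fin n)), IsMulCommutative A ∧ Nat.card A = c} (abS n) :=
  ⟨(hasAb_abS n).imp fun _ h => ⟨h.1, h.2.1⟩, by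
    rintro _ ⟨A, _, rfl⟩
    haveI := Fintype.ofFinite (orbitRel.Quotient A (Fin n))
    simpa using card_abelian_le (α := Fin n) A⟩

theorem isGreatest_abA (n : ℕ) : IsGreatest
    {c | ∃ A : Subgroup (alternatingGroup (Fin n)), IsMulCommutative A ∧ Nat.card A = c} (abA n) := by
  refine ⟨?_, ?_⟩
  · obtain ⟨A, _, h1, h2⟩ := hasAb_abA n
    exact ⟨A.subgroupOf _, inferInstance,
      (Nat.card_congr (subgroupOfEquivOfLe (h2 trivial)).toEquiv).trans h1⟩
  rintro _ ⟨A, _, rfl⟩
  simpa using card_abelian_even (α := Fin n) A fun a => a.1.2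

theorem abS_eq (k : ℕ) : abS (3 * (k + 1)) = 3 ^ (k + 1) ∧ abS (3 * (k + 1) + 1) = 4 * 3 ^ k ∧
    abS (3 * (k + 1) + 2) = 2 * 3 ^ (k + 1) := by
  induction k with
  | zero => decide
  | succ k ih =>
    refine ⟨(congrArg (3 * ·) ih.1).trans ?_, (congrArg (3 * ·) ih.2.1).trans ?_,
      (congrArg (3 * ·) ih.2.2).trans ?_⟩ <;> ring

theorem abA_eq (k : ℕ) : abA (3 * (k + 2)) = 3 ^ (k + 2) ∧ abA (3 * (k + 2) + 1) = 4 * 3 ^ (k + 1) ∧
    abA (3 * (k + 2) + 2) = 16 * 3 ^ k := by
  induction k with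
  | zero => decide
  | succ k ih =>
    refine ⟨(congrArg (3 * ·) ih.1).trans ?_, (congrArg (3 * ·) ih.2.1).trans ?_,
      (congrArg (3 * ·) ih.2.2).trans ?_⟩ <;> ring

theorem exists_perm_of_fibers {ι κ : Type*} [Finite ι] [Finite κ] (p : α → ι) (q : α → κ)
    (h : ∀ m, Nat.card {i // Nat.card {x // p x = i} = m} =
      Nat.card {i // Nat.card {x // q x = i} = m}) :
    ∃ g : Perm α, ∀ x y, p x = p y ↔ q (g x) = q (g y) := by
  let e : ι ≃ κ := ofFiberEquiv fun m => (Finite.card_eq.1 (h m)).some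
  have he : ∀ i, Nat.card {x // q x = e i} = Nat.card {x // p x = i} :=
    ofFiberEquiv_map (f := fun i => Nat.card {x // p x = i}) (g := fun i => Nat.card {x // q x = i}) _
  let g : α ≃ α := ofFiberEquiv (f := p) (g := fun x => e.symm (q x)) fun i =>
    (Finite.card_eq.1 (by simpa only [symm_apply_eq] using (he i).symm)).some
  have hg : ∀ x, e.symm (q (g x)) = p x := ofFiberEquiv_map (g := fun x => e.symm (q x)) _
  exact ⟨g, fun x y => by rw [← hg, ← hg, e.symm.apply_eq_iff_eq]⟩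

theorem max_struct (h3 : 3 ≤ Fintype.card α) (h5 : Fintype.card α ≠ 5)
    (A : Subgroup (alternatingGroup α)) [IsMulCommutative A] (hA : Nat.card A = abA (Fintype.card α)) :
    (∀ x : α, (orbit A x).ncard = 3 ∨ (orbit A x).ncard = 4) ∧
    (∀ (x : α) (b : A) (S : Set α) [DecidablePred (· ∈ S)],
      orbit A x = S → ∀ h, Perm.sign ((toPerm b : Perm α).subtypePerm (p := (· ∈ S)) h) = 1) ∧
    ∃ a b, 3 ^ a * 4 ^ b = abA (Fintype.card α) ∧ ∀ m, Nat.card {i : orbitRel.Quotient A α //
      Nat.card {x // Quotient.mk _ x = i} = m} = if m = 3 then a else if m = 4 then b else 0 := by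
  haveI := Fintype.ofFinite (orbitRel.Quotient A α)
  rcases even_on_orbit (α := α) A fun a => a.1.2 with h | ⟨h1, h2, h4⟩
  · have := (abS_le _).2 h3
    omega
  have h6 : ∀ ω : orbitRel.Quotient A α, (orbit A ω.out).ncard = 3 ∨ (orbit A ω.out).ncard = 4 :=
    fun ω => three_or_four (fun ω _ => h2 _) (by rwa [sum_orbit]) (by rwa [sum_orbit])
      (by rw [sum_orbit, ← hA, h1]) (mem_univ ω)
  have h7 : ∀ ω : orbitRel.Quotient A α, Nat.card {x // Quotient.mk _ x = ω} = (orbit A ω.out).ncard :=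
    fun ω => Nat.card_congr (subtypeEquivRight fun x => Quotient.mk_eq_iff_out)
  refine ⟨fun x => (orbit_eq_iff.2 (Quotient.mk_out (s := orbitRel A α) x)) ▸ h6 _, h4,
    #{ω : orbitRel.Quotient A α | (orbit A ω.out).ncard = 3},
    #{ω : orbitRel.Quotient A α | (orbit A ω.out).ncard = 4}, ?_, fun m => ?_⟩
  · rw [← hA, h1, ← prod_filter_mul_prod_filter_not _ fun ω => (orbit A ω.out).ncard = 3,
      prod_congr rfl fun _ h => (mem_filter.1 h).2, prod_const,
      filter_congr (p := fun ω : orbitRel.Quotient A α => ¬(orbit A ω.out).ncard = 3)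
        (q := fun ω => (orbit A ω.out).ncard = 4) fun ω _ => by have := h6 ω; omega,
      prod_congr rfl fun _ h => (mem_filter.1 h).2, prod_const]
  simp only [h7, Nat.card_eq_fintype_card, Fintype.card_subtype]
  split_ifs with a b
  · rw [a]
  · rw [b]
  exact card_eq_zero.2 (filter_eq_empty_iff.2 fun ω _ => by have := h6 ω; omega)

theorem max_conj (h3 : 3 ≤ Fintype.card α) (h5 : Fintype.card α ≠ 5)
    (A B : Subgroup (alternatingGroup α)) [IsMulCommutative A] [IsMulCommutative B]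
    (hA : Nat.card A = abA (Fintype.card α)) (hB : Nat.card B = abA (Fintype.card α)) :
    ∃ g, B = A.map (MulAut.conj g).toMonoidHom := by
  classical
  obtain ⟨-, -, a, b, e, h⟩ := max_struct h3 h5 A hA
  obtain ⟨b1, b2, a', b', e', h'⟩ := max_struct h3 h5 B hB
  have le : ∀ {a b a' b' : ℕ}, 3 ^ a * 4 ^ b = 3 ^ a' * 4 ^ b' → a ≤ a' := fun k =>
    (Nat.pow_dvd_pow_iff_le_right (by omega)).1 (Nat.Coprime.dvd_of_dvd_mul_right
      (Nat.Coprime.pow _ _ (by decide)) (Dvd.intro _ k))
  obtain rfl : a = a' := (le (e.trans e'.symm)).antisymm (le (e'.trans e.symm))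
  obtain rfl : b = b' := by simpa using e.trans e'.symm
  obtain ⟨g, hg⟩ : ∃ g : alternatingGroup α, ∀ x y : α, x ∈ orbit A y ↔ g • x ∈ orbit B (g • y) := by
    obtain ⟨g, hg⟩ := exists_perm_of_fibers _ _ fun m => (h m).trans (h' m).symm
    simp only [Quotient.eq, orbitRel_apply] at hg
    rcases Int.units_eq_one_or (Perm.sign g) with k | k
    · exact ⟨⟨g, k⟩, hg⟩
    obtain ⟨u⟩ : Nonempty α := Fintype.card_pos_iff.1 (by omega)
    obtain ⟨v, v1, v2⟩ := Set.exists_ne_of_one_lt_ncard (s := orbit B u) (by have := b1 u; omega) u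
    have : ∀ x, orbit B (swap u v x) = orbit B x := fun x => by
      rw [swap_apply_def]
      split_ifs with a b
      · rw [a, orbit_eq_iff.2 v1]
      · rw [b, orbit_eq_iff.2 v1]
      · rfl
    refine ⟨⟨swap u v * g, by simp [Perm.mem_alternatingGroup, k, v2.symm]⟩, fun x y => ?_⟩
    rw [hg, ← orbit_eq_iff, ← orbit_eq_iff, ← this, ← this (g y)]
    rfl
  refine ⟨g, ?_⟩
  have hC : Nat.card (A.map (MulAut.conj g).toMonoidHom) = _ :=
    (card_map_of_injective (MulAut.conj g).injective).trans hA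
  have ho : ∀ x : α, orbit (A.map (MulAut.conj g).toMonoidHom) x = orbit B x := fun x => by
    ext y
    rw [← smul_inv_smul g x, ← smul_inv_smul g y, ← hg]
    exact ⟨by rintro ⟨⟨_, a, ha, rfl⟩, k⟩; exact ⟨⟨a, ha⟩, by
        simpa [Subgroup.mk_smul (G := alternatingGroup α), mul_smul, eq_inv_smul_iff] using! k⟩,
      fun ⟨a, k⟩ => ⟨⟨_, a, a.2, rfl⟩, by
        simpa [Subgroup.mk_smul (G := alternatingGroup α), mul_smul] using! congrArg (g • ·) k⟩⟩
  haveI : IsMulCommutative (A.map (MulAut.conj g).toMonoidHom) := inferInstance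
  generalize A.map (MulAut.conj g).toMonoidHom = C at *
  obtain ⟨-, c2, -⟩ := max_struct h3 h5 C hC
  have hc : ∀ b ∈ B, ∀ c ∈ C, b * c = c * b := fun b hb c hc => Subtype.ext (Equiv.ext fun x => by
    have i1 : ∀ z, toPerm (⟨b, hb⟩ : B) z ∈ orbit B x ↔ z ∈ orbit B x := fun z =>
      ⟨fun k => inv_smul_smul (⟨b, hb⟩ : B) z ▸ mem_orbit_of_mem_orbit _ k, mem_orbit_of_mem_orbit _⟩
    have i2 : ∀ z, toPerm (⟨c, hc⟩ : C) z ∈ orbit B x ↔ z ∈ orbit B x := fun z => ho x ▸
      ⟨fun k => inv_smul_smul (⟨c, hc⟩ : C) z ▸ mem_orbit_of_mem_orbit _ k, mem_orbit_of_mem_orbit _⟩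
    exact congrArg Subtype.val (DFunLike.congr_fun (commute_of_even
      (by simpa only [← Nat.card_eq_fintype_card] using! b1 x) (b2 x _ _ rfl i1)
      (fun y z k => Subtype.ext ((smul_eq_of_orbit B (b := 1) (by simpa using! congrArg Subtype.val k)
        (by rw [orbit_eq_iff.2 y.2]; exact z.2)).trans (one_smul _ _))) (c2 x _ _ (ho x) i2)
      fun y z k => Subtype.ext ((smul_eq_of_orbit C (b := 1) (by simpa using! congrArg Subtype.val k)
        (by rw [ho, orbit_eq_iff.2 y.2]; exact z.2)).trans (one_smul _ _))) ⟨x, mem_orbit_self x⟩))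
  haveI : IsMulCommutative ↥(B ⊔ C) := sup_eq_closure B C ▸ isMulCommutative_closure (by
    rintro x (hx | hx) y (hy | hy)
    exacts [setLike_mul_comm hx hy, hc x hx y hy, (hc y hy x hx).symm, setLike_mul_comm hx hy])
  have := card_abelian_even (α := α) ↥(B ⊔ C) fun a => a.1.2
  exact (eq_of_le_of_card_ge le_sup_left (hB ▸ this)).trans
    (eq_of_le_of_card_ge le_sup_right (hC ▸ this)).symm

end Cfsg.Lib.Alt
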