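import Mathlib

/-! # Binomial coefficients without small prime factors (a theorem of Ecklund) -/

set_option autoImplicit false

namespace Cfsg.Lib.Alt

open Nat Finset

theorem dvd_choose_of_carry {p j n k : ℕ} (hp : p.Prime) (hj : j ≠ 0)
    (h : p ^ j ≤ k % p ^ j + n % p ^ j) : p ∣ (n + k).choose k := by
  refine hp.dvd_iff_one_le_factorization (choose_pos (Nat.le_add_left k n)).ne' |>.2 ?_
  rw [factorization_choose' hp (b := log p (n + k) + j + 1) (by omega)]
  exact card_pos.2 ⟨j, mem_filter.2 ⟨mem_Ico.2 ⟨by omega, by omega⟩, h⟩⟩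

theorem eq_nine_of_not_dvd_choose {e : ℕ} (he : 5 ≤ e)
    (h : ∀ t, t.Prime → t ≠ 2 → t ≤ e + 1 → ¬t ∣ (e + 1 + e).choose e) : e = 9 := by
  obtain ⟨i, m, hi, h1, h3⟩ : ∃ i m, (i = 0 ∨ i = 2 ∨ i = 4) ∧ e + (e + 1) = 3 * m + i ∧ m % 2 = 1 := by
    refine ⟨2 * ((e + 2) % 3), (2 * e + 1 - 2 * ((e + 2) % 3)) / 3, ?_, ?_, ?_⟩ <;> omega
  have : 3 * m ∣ 15 := (dvd_iff_prime_pow_dvd_dvd _ _).2 fun t j ht hd => by
    obtain rfl | hj := eq_or_ne j 0
    · simp
    have h2 : ¬2 ∣ t ^ j := fun k => by have := k.trans hd; omega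
    have h4 : t ≤ e + 1 := by
      rcases (Nat.Prime.dvd_mul ht).1 ((dvd_pow_self t hj).trans hd) with k | k
      · have := le_of_dvd (by omega) k; omega
      · have := le_of_dvd (by omega) k; omega
    have h5 := not_le.1 (mt (dvd_choose_of_carry ht hj) (h t ht (by
      rintro rfl; exact h2 (dvd_pow_self 2 hj)) h4))
    have h6 := one_lt_pow₀ ht.one_lt hj
    generalize t ^ j = q at *
    have h7 : q ≤ 5 := by
      by_contra! k
      have a : (e % q + (e + 1) % q) % q = i := by
        obtain ⟨c, hc⟩ := hd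
        rw [← add_mod, h1, hc, mul_add_mod, mod_eq_of_lt (by omega)]
      rw [mod_eq_of_lt h5, ← mod_add_mod] at a
      have := mod_lt e (show 0 < q by omega)
      obtain k | k : e % q + 1 < q ∨ e % q + 1 = q := by omega
      · rw [mod_eq_of_lt k] at a; omega
      · rw [k, mod_self] at a; omega
    interval_cases q <;> omega
  have := le_of_dvd (by omega) this
  obtain rfl | rfl | rfl : e = 7 ∨ e = 8 ∨ e = 9 := by
    have : m ≤ 5 := by omega
    interval_cases m <;> omega
  · exact absurd (by decide) (h 3 prime_three (by omega) (by omega))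
  · exact absurd (by decide) (h 5 prime_five (by omega) (by omega))
  · rfl

theorem factorial_eq_odd_mul (n : ℕ) :
    n ! = (∏ i ∈ range ((n + 1) / 2), (2 * i + 1)) * (2 ^ (n / 2) * (n / 2)!) := by
  induction n with
  | zero => simp
  | succ n ih =>
    rw [factorial_succ, ih]
    obtain ⟨k, rfl | rfl⟩ := n.even_or_odd'
    · rw [show (2 * k + 1 + 1) / 2 = k + 1 by omega, show (2 * k + 1) / 2 = k by omega,
        show 2 * k / 2 = k by omega, prod_range_succ]
      ring
    · rw [show (2 * k + 1 + 1 + 1) / 2 = k + 1 by omega, show (2 * k + 1 + 1) / 2 = k + 1 by omega,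
        show (2 * k + 1) / 2 = k by omega, factorial_succ]
      ring

theorem dvd_prod_odd {u k : ℕ} (hu : Odd u) (h : u ∣ k !) (a : ℕ) :
    u ∣ ∏ i ∈ range k, (2 * (a + i) + 1) := by
  obtain ⟨c, rfl⟩ := hu
  have := (h.trans (factorial_dvd_ascFactorial (a + (c + 1)) k)).mul_left (2 ^ k)
  rw [ascFactorial_eq_prod_range, ← card_range k, ← prod_const, card_range, ← prod_mul_distrib] at this
  refine (ModEq.dvd_iff (ModEq.prod fun i _ => ?_) dvd_rfl).1 this
  exact (modEq_iff_dvd' (by omega)).2 ⟨1, by omega⟩ |>.symm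

theorem eq_four_three_of_not_dvd_choose {d e : ℕ} (he : 2 ≤ e) (hd : e < d)
    (h : ∀ t, t.Prime → t ≤ d → ¬t ∣ (d + e).choose e) : d = 4 ∧ e = 3 := by
  obtain ⟨E, hE⟩ : ∃ E, (d + e) / 2 = d / 2 + E := ⟨(d + e) / 2 - d / 2, by omega⟩
  obtain ⟨O, hO⟩ : ∃ O, (d + e + 1) / 2 = (d + 1) / 2 + O := ⟨(d + e + 1) / 2 - (d + 1) / 2, by omega⟩
  obtain rfl : e = O + E := by omega
  have a := factorial_eq_odd_mul (d + (O + E))
  obtain ⟨v, u, hu, hv⟩ := exists_eq_two_pow_mul_odd O.factorial_ne_zero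
  obtain ⟨w, hw⟩ := dvd_prod_odd hu (Dvd.intro_left _ hv.symm) ((d + 1) / 2)
  rw [hE, hO, prod_range_add, hw, ← add_choose_mul_factorial_mul_factorial,
    ← add_choose_mul_factorial_mul_factorial O, ← add_choose_mul_factorial_mul_factorial (d / 2),
    hv, factorial_eq_odd_mul d] at a
  have b : (d + (O + E)).choose (O + E) * (2 ^ v * (O + E).choose E) =
      2 ^ E * (d / 2 + E).choose E * w := by
    refine Nat.eq_of_mul_eq_mul_left (show 0 < (∏ i ∈ range ((d + 1) / 2), (2 * i + 1)) *
      (2 ^ (d / 2) * (d / 2)!) * u * (E !) by have := hu.pos; positivity) ?_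
    linear_combination a
  have c := le_of_dvd (by have := choose_pos (Nat.le_add_left E O); positivity)
    (Coprime.dvd_of_dvd_mul_left (coprime_of_dvd fun t ht k => h t ht (by
      rcases (Nat.Prime.dvd_mul ht).1 k with k | k
      · have := le_of_dvd two_pos (ht.dvd_of_dvd_pow k); omega
      · have := (ht.dvd_factorial.1 (k.trans ⟨_, by
          rw [← add_choose_mul_factorial_mul_factorial, mul_assoc]⟩)); omega)) (Dvd.intro _ b.symm))
  have h1 : v < O := by
    haveI := Fact.mk prime_two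
    have := sub_one_mul_padicValNat_factorial_lt_of_ne_zero 2 (n := O) (by omega)
    have := (padicValNat_dvd_iff_le (p := 2) O.factorial_ne_zero).1 (Dvd.intro _ hv.symm)
    omega
  have h2 : (d / 2 + E).choose E ≤ (O + E).choose E := le_of_mul_le_mul_left
    (c.trans (Nat.mul_le_mul_right _ (Nat.pow_le_pow_right two_pos (show v ≤ E by omega))))
    (by positivity)
  obtain rfl : d = O + E + 1 := by
    by_contra k
    obtain ⟨E, rfl⟩ : ∃ F, E = F + 1 := ⟨E - 1, by omega⟩
    have := choose_le_choose (E + 1) (show O + (E + 1) + 1 ≤ d / 2 + (E + 1) by omega)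
    have := choose_pos (show E ≤ O + (E + 1) by omega)
    rw [choose_succ_succ'] at *
    omega
  generalize O + E = e at *
  by_cases h5 : 5 ≤ e
  · obtain rfl := eq_nine_of_not_dvd_choose h5 fun t ht _ => h t ht
    exact absurd (by decide) (h 2 prime_two (by omega))
  obtain rfl | rfl | rfl : e = 2 ∨ e = 3 ∨ e = 4 := by omega
  · exact absurd (by decide) (h 2 prime_two (by omega))
  · exact ⟨rfl, rfl⟩
  · exact absurd (by decide) (h 2 prime_two (by omega))

end Cfsg.Lib.Alt
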