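import Cfsg.Agent.Lib.Perm.JordanSet
import Cfsg.Agent.Lib.Transfer.SylowIn

/-! # Permutation groups containing a Sylow subgroup of the alternating group -/

set_option autoImplicit false

namespace Cfsg.Lib.Alt

open Equiv Equiv.Perm MulAction Subgroup
open scoped Pointwise

theorem mem_of_sq_mem {G : Type*} [Group G] {H : Subgroup G} {g : G} (ho : Odd (orderOf g))
    (h : g ^ 2 ∈ H) : g ∈ H :=
  zpowers_le.2 h (mem_zpowers_pow_iff.2 (Nat.coprime_two_left.2 ho))

variable {α : Type*} [Fintype α] [DecidableEq α] {K T : Subgroup (Perm α)} {p : ℕ}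

/-- The permutations preserving `L`. -/
def stabS (L : Set α) : Subgroup (Perm α) where
  carrier := {g | ∀ x, g x ∈ L ↔ x ∈ L}
  one_mem' _ := Iff.rfl
  mul_mem' h1 h2 x := (h1 _).trans (h2 x)
  inv_mem' {g} h x := by simpa using (h (g⁻¹ x)).symm

omit [DecidableEq α] in
theorem mem_stabS_of_maps {L : Set α} {g : Perm α} (h : ∀ x ∈ L, g x ∈ L) : g ∈ stabS L :=
  fun x => ⟨fun k => by simpa using perm_symm_on_of_perm_on_finite (p := (· ∈ L)) (fun x => h x) k, h x⟩

omit [DecidableEq α] in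
theorem mem_stabS_of_fix {L : Set α} {g : Perm α} (h : ∀ x ∉ L, g x = x) : g ∈ stabS L :=
  mem_stabS_of_maps fun x hx => by_contra fun k => k (by rwa [g.injective (h _ k)])

/-- `T` contains a Sylow `p`-subgroup of the alternating group. -/
def Full (p : ℕ) (T : Subgroup (Perm α)) : Prop := ¬ p ∣ T.relIndex (alternatingGroup α)

theorem Full.mono (h : Full p T) (hK : T ≤ K) : Full p K :=
  fun k => h (k.trans (relIndex_dvd_of_le_left _ hK))

theorem Full.exists_pgroup [hp : Fact p.Prime] (h : Full p K) :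
    ∃ T ≤ K, IsPGroup p T ∧ Full p T := by
  obtain ⟨U, -, h1, h2, h3⟩ := Transfer.exists_sylowIn_ge (p := p) (H := K ⊓ alternatingGroup α)
    IsPGroup.of_bot bot_le
  refine ⟨U, h1.trans inf_le_left, h2, fun k => ?_⟩
  rw [← relIndex_mul_relIndex U _ _ h1 inf_le_right, inf_relIndex_right, hp.out.dvd_mul] at k
  exact k.elim h3 h

theorem Full.exists_conj [Fact p.Prime] (h : Full p T) {S Q : Subgroup (Perm α)} (hS : T ≤ S)
    (hQ : IsPGroup p Q) (h1 : Q ≤ S) (h2 : Q ≤ alternatingGroup α) :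
    ∃ g ∈ S, ∀ x ∈ Q, g * x * g⁻¹ ∈ T := by
  obtain ⟨g, hg, k⟩ := Transfer.exists_conj_le_of_not_dvd_relIndex' (T := T) (fun k => h (k.trans
    ⟨_, by rw [relIndex_inf_mul_relIndex, inf_eq_left.2 hS]⟩)) hQ (le_inf h1 h2)
  exact ⟨g, hg.1, fun x hx => k ⟨x, hx, rfl⟩⟩

/-- `c` is a cycle of length `p`. -/
def PCyc (p : ℕ) (c : Perm α) : Prop := c.IsCycle ∧ c.support.card = p

theorem PCyc.conj {c : Perm α} (h : PCyc p c) (g : Perm α) : PCyc p (g * c * g⁻¹) :=
  ⟨h.1.conj, by rw [card_support_conj, h.2]⟩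

theorem PCyc.orderOf {c : Perm α} (h : PCyc p c) : orderOf c = p := h.1.orderOf.trans h.2

theorem PCyc.mem_alt {c : Perm α} (h : PCyc p c) (hp : Odd p) : c ∈ alternatingGroup α := by
  simp [mem_alternatingGroup, h.1.sign, h.2, hp.neg_one_pow]

theorem exists_pCyc {L : Set α} (h2 : 2 ≤ p) (h : p ≤ L.ncard) :
    ∃ c, PCyc p c ∧ ∀ x ∉ L, c x = x := by
  obtain ⟨s, h1, h3⟩ := Finset.exists_subset_card_eq (s := L.toFinite.toFinset)
    (h.trans_eq (Set.ncard_eq_toFinset_card _ _))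
  have : s.toList.formPerm.support = s := by
    rw [List.support_formPerm_of_nodup _ s.nodup_toList fun x k => by
      have := congrArg List.length k; simp at this; omega, Finset.toList_toFinset]
  exact ⟨_, ⟨List.isCycle_formPerm s.nodup_toList (by simp; omega), by rw [this, h3]⟩,
    fun x hx => notMem_support.1 fun k => hx (by simpa using h1 (this ▸ k))⟩

theorem Full.exists_pCyc (h : Full p T) (hp : p.Prime) (h2 : p ≠ 2) {L : Set α} (hL : T ≤ stabS L)
    (hc : p ≤ L.ncard) : ∃ c ∈ T, PCyc p c ∧ ∀ x ∉ L, c x = x := by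
  haveI := Fact.mk hp
  obtain ⟨c, c1, c2⟩ := Alt.exists_pCyc hp.two_le hc
  obtain ⟨g, hg, k⟩ := h.exists_conj hL (Q := zpowers c)
    (.of_card (n := 1) (by rw [Nat.card_zpowers, c1.orderOf, pow_one]))
    (zpowers_le.2 (mem_stabS_of_fix c2)) (zpowers_le.2 (c1.mem_alt (hp.odd_of_ne_two h2)))
  exact ⟨_, k c (mem_zpowers c), c1.conj g, fun x hx => by
    rw [mul_apply, mul_apply, c2 _ (mt (inv_mem hg x).1 hx)]; simp⟩

/-- Any two points of `X` are swapped by an element of `K` supported on `X`. -/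
def SwJ (K : Subgroup (Perm α)) (X : Set α) : Prop :=
  ∀ x ∈ X, ∀ y ∈ X, ∃ g ∈ K, (∀ z ∉ X, g z = z) ∧ g x = y ∧ g y = x

omit [Fintype α] [DecidableEq α] in
theorem SwJ.conj {X : Set α} (h : SwJ T X) {g : Perm α} (hg : ∀ x ∈ T, g * x * g⁻¹ ∈ K) :
    SwJ K (g '' X) := by
  rintro _ ⟨x, hx, rfl⟩ _ ⟨y, hy, rfl⟩
  obtain ⟨s, s1, s2, s3, s4⟩ := h x hx y hy
  exact ⟨_, hg s s1, fun z hz => by
    rw [mul_apply, mul_apply, s2 (g⁻¹ z) fun k => hz ⟨_, k, by simp⟩]; simp, by simp [s3],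
    by simp [s4]⟩

theorem Full.exists_swJ (h : Full 2 T) {L : Set α} (hL : T ≤ stabS L) {j : ℕ} (hj : 2 ≤ j)
    (hc : 2 ^ j ≤ L.ncard) : ∃ X ⊆ L, X.ncard = 2 ^ j ∧ SwJ T X := by
  classical
  obtain ⟨ι⟩ : Nonempty ((Fin j → ZMod 2) ↪ L) := Function.Embedding.nonempty_of_card_le (by
    rw [← Nat.card_eq_fintype_card (α := L), Nat.card_coe_set_eq]; simpa using hc)
  let κ := ι.trans (Function.Embedding.subtype _)
  let f := (viaEmbeddingHom κ).comp (toPermHom (Multiplicative (Fin j → ZMod 2)) (Fin j → ZMod 2))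
  have f1 : ∀ v x, f v (κ x) = κ (v.toAdd + x) := fun v x => viaEmbedding_apply _ _ _
  have f2 : ∀ v, ∀ z ∉ Set.range κ, f v z = z := fun v => viaEmbedding_apply_of_notMem _ _
  have f0 : ∀ v : Fin j → ZMod 2, v + v = 0 := fun v => funext fun i => CharTwo.add_self_eq_zero _
  have f3 : ∀ v, v * v = (1 : Multiplicative (Fin j → ZMod 2)) := fun v =>
    congrArg Multiplicative.ofAdd (f0 v.toAdd)
  obtain ⟨g, hg, k⟩ := h.exists_conj hL (Q := f.range)
    (IsPGroup.of_surjective (fun v => ⟨1, by rw [pow_one, sq, f3]⟩) _ f.rangeRestrict_surjective)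
    (by rintro _ ⟨v, rfl⟩; exact mem_stabS_of_fix fun z hz => f2 v z (by rintro ⟨x, rfl⟩; exact hz (ι x).2))
    (by
      rintro _ ⟨v, rfl⟩
      obtain rfl | hv := eq_or_ne v 1
      · simp
      have e : sign (f v) = sign (toPermHom _ (Fin j → ZMod 2) v) := by
        simp only [f, MonoidHom.comp_apply, viaEmbeddingHom_apply, viaEmbedding]
        convert sign_extendDomain _ _
      refine e.trans ((sign_of_pow_two_eq_one (by
        rw [← map_pow, sq, f3, map_one])).trans (Even.neg_one_pow ?_))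
      obtain ⟨j, rfl⟩ : ∃ i, j = i + 2 := ⟨j - 2, by omega⟩
      rw [Fintype.card_eq_zero_iff.2 ⟨fun x : Function.fixedPoints (toPermHom _ _ v) =>
        hv (add_eq_right.1 (show v.toAdd + x.1 = x.1 from x.2))⟩]
      simp only [Fintype.card_pi, ZMod.card, Finset.prod_const, Finset.card_univ, Fintype.card_fin]
      exact ⟨2 ^ j, by rw [pow_add]; omega⟩)
  refine ⟨g '' Set.range κ, ?_, ?_, SwJ.conj ?_ k⟩
  · rintro _ ⟨_, ⟨x, rfl⟩, rfl⟩
    exact (hg _).2 (ι x).2
  · rw [Set.ncard_image_of_injective _ g.injective, ← Set.image_univ,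
      Set.ncard_image_of_injective _ κ.injective, Set.ncard_univ]
    simp
  rintro _ ⟨x, rfl⟩ _ ⟨y, rfl⟩
  exact ⟨_, ⟨.ofAdd (x + y), rfl⟩, f2 _, by rw [f1, toAdd_ofAdd, add_right_comm, f0, zero_add],
    by simp [f1, add_assoc, f0]⟩

/-- `B` is a block of `K`. -/
def Blk (K : Subgroup (Perm α)) (B : Set α) : Prop :=
  ∀ g ∈ K, ∀ x ∈ B, g x ∈ B → ∀ y ∈ B, g y ∈ B

theorem PCyc.mem_stabS (hp : p.Prime) {c : Perm α} (h : PCyc p c) (hc : c ∈ K) {B : Set α}
    (hB : Blk K B) (h2 : B.Nontrivial) : c ∈ stabS B := by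
  by_contra k
  have k' : ∀ x ∈ B, c x ≠ x := fun x hx e => k (mem_stabS_of_maps (hB c hc x hx (e.symm ▸ hx)))
  obtain ⟨x, hx, y, hy, hxy⟩ := h2
  obtain ⟨i, rfl⟩ := h.1.exists_pow_eq (k' x hx) (k' y hy)
  refine k (zpowers_le.2 (mem_stabS_of_maps (hB _ (pow_mem hc i) x hx hy)) (mem_zpowers_pow_iff.2
    (h.orderOf ▸ ((hp.coprime_iff_not_dvd).2 fun e => hxy ?_).symm)))
  rw [orderOf_dvd_iff_pow_eq_one.1 (h.orderOf ▸ e), one_apply]

omit [DecidableEq α] in
theorem IsCycle_mem_of_stabS {c : Perm α} (h : c.IsCycle) {B : Set α} (hc : c ∈ stabS B) {x y : α}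
    (hx : x ∈ B) (h1 : c x ≠ x) (h2 : c y ≠ y) : y ∈ B := by
  obtain ⟨i, rfl⟩ := h.exists_pow_eq h1 h2
  exact (pow_mem hc i x).2 hx

theorem PCyc.le_ncard {c : Perm α} (h : PCyc p c) {B : Set α} (hB : ∀ y, c y ≠ y → y ∈ B) :
    p ≤ B.ncard := by
  rw [← h.2, ← Set.ncard_coe_finset]
  exact Set.ncard_le_ncard fun y hy => hB y (mem_support.1 hy)

/-- The subgroup generated by the `p`-cycles of `K`. -/
def cycGen (K : Subgroup (Perm α)) (p : ℕ) : Subgroup (Perm α) := closure {c | c ∈ K ∧ PCyc p c}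

theorem cycGen_le : cycGen K p ≤ K := (closure_le _).2 fun _ h => h.1

theorem mem_orbit_cycGen {g : Perm α} (hg : g ∈ K) {x y : α} (h : y ∈ orbit (cycGen K p) x) :
    g y ∈ orbit (cycGen K p) (g x) := by
  obtain ⟨⟨m, hm⟩, rfl⟩ := h
  have : cycGen K p ≤ (cycGen K p).comap (MulAut.conj g).toMonoidHom := (closure_le _).2 fun c h =>
    subset_closure ⟨K.mul_mem (K.mul_mem hg h.1) (K.inv_mem hg), h.2.conj g⟩
  exact ⟨⟨_, this hm⟩, by simp [Subgroup.mk_smul]⟩

theorem image_orbit_cycGen {g : Perm α} (hg : g ∈ K) (x : α) :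
    g '' orbit (cycGen K p) x = orbit (cycGen K p) (g x) :=
  Set.Subset.antisymm (by rintro _ ⟨y, hy, rfl⟩; exact mem_orbit_cycGen hg hy) fun y hy =>
    ⟨g⁻¹ y, by simpa using mem_orbit_cycGen (inv_mem hg) hy, by simp⟩

theorem blk_orbit (x : α) : Blk K (orbit (cycGen K p) x) := fun g hg y hy k z hz => by
  rw [← orbit_eq_iff.2 k]
  exact mem_orbit_cycGen hg (orbit_eq_iff.2 hy ▸ hz)

theorem PCyc.mem_orbit {c : Perm α} (h : PCyc p c) (hc : c ∈ K) {x y : α} (h1 : c x ≠ x)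
    (h2 : c y ≠ y) : y ∈ orbit (cycGen K p) x :=
  IsCycle_mem_of_stabS h.1 (mem_stabS_of_maps fun _ =>
    mem_orbit_of_mem_orbit (⟨c, subset_closure ⟨hc, h⟩⟩ : cycGen K p)) (mem_orbit_self x) h1 h2

theorem isPreprimitive_cycGen (hp : p.Prime) (x : α) :
    IsPreprimitive (cycGen K p) (orbit (cycGen K p) x) where
  isTrivialBlock_of_isBlock {B} hB := by
    refine B.subsingleton_or_nontrivial.imp_right fun h => Set.eq_univ_of_forall fun y => ?_
    have : cycGen K p ≤ stabS (Subtype.val '' B) := (closure_le _).2 fun c hc =>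
      hc.2.mem_stabS hp (subset_closure hc) (by
        rintro g hg _ ⟨u, hu, rfl⟩ ⟨v, hv, e⟩ _ ⟨w, hw, rfl⟩
        have := hB.smul_eq_of_mem (g := ⟨g, hg⟩) hu ((Subtype.ext e : v = (⟨g, hg⟩ : cycGen K p) • u) ▸ hv)
        exact ⟨_, this.le ⟨w, hw, rfl⟩, rfl⟩) (h.image Subtype.val_injective)
    obtain ⟨u, hu⟩ := h.nonempty
    obtain ⟨g, rfl⟩ := exists_smul_eq (cycGen K p) u y
    obtain ⟨v, hv, e⟩ := (this g.2 u).2 ⟨u, hu, rfl⟩
    exact (Subtype.ext e : v = g • u) ▸ hv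

theorem two_dvd_of_lt_orbit (hp : p.Prime) {c : Perm α} (h : PCyc p c) (hc : c ∈ K) {x : α}
    (hx : c x ≠ x) (hl : p < (orbit (cycGen K p) x).ncard) : 2 ∣ Nat.card K := by
  classical
  have e : (Finset.univ.filter fun y : orbit (cycGen K p) x => c y ≠ y).card = p := by
    rw [← Finset.card_map (Function.Embedding.subtype _)]
    refine Eq.trans ?_ h.2
    congr 1
    ext y
    simpa using fun k => h.mem_orbit hc hx k
  have := Perm.Jor.two (isPreprimitive_cycGen hp x) (Γ := Finset.univ.filter fun y => c y ≠ y)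
    (fun u hu v hv => by
      obtain ⟨i, hi⟩ := h.1.exists_pow_eq (by simpa using hu) (by simpa using hv : c v ≠ v)
      exact ⟨(⟨c, subset_closure ⟨hc, h⟩⟩ : cycGen K p) ^ i, fun z hz => Subtype.ext
        (pow_apply_eq_self_of_apply_eq_self (by simpa using hz) i), Subtype.ext hi⟩)
    (e ▸ hp.two_le) (by rwa [e, ← Nat.card_eq_fintype_card])
  have k : (⟨x, mem_orbit_self x⟩ : orbit (cycGen K p) x) ≠
      ⟨c x, h.mem_orbit hc hx (c.injective.ne hx)⟩ := fun k => hx (congrArg Subtype.val k).symm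
  obtain ⟨g, g1, g2⟩ := is_two_pretransitive_iff.1 this k k.symm
  refine (Nat.even_or_odd (orderOf g)).elim (fun k => k.two_dvd.trans
    ((orderOf_dvd_natCard g).trans (card_dvd_of_le cycGen_le))) fun k => (hx ?_).elim
  exact congrArg Subtype.val (g1.symm.trans (mem_of_sq_mem (H := stabilizer _ _) k (by
    rw [mem_stabilizer_iff, sq, mul_smul, g1, g2])))

theorem mem_of_fix_compl_orbit {c : Perm α} (h : PCyc 3 c) (hc : c ∈ K) {x : α} (hx : c x ≠ x)
    {g : Perm α} (h1 : g ∈ alternatingGroup α) (h2 : ∀ z ∉ orbit (cycGen K 3) x, g z = z) : g ∈ K := by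
  classical
  haveI := isPreprimitive_cycGen (K := K) Nat.prime_three x
  have e : ∀ m : cycGen K 3, (∀ z ∉ orbit (cycGen K 3) x, m.1 z = z) →
      ofSubtype (toPermHom _ (orbit (cycGen K 3) x) m) = m := fun m hm => Equiv.ext fun z => by
    by_cases hz : z ∈ orbit (cycGen K 3) x
    · exact ofSubtype_apply_of_mem _ hz
    · exact (ofSubtype_apply_of_not_mem _ hz).trans (hm z hz).symm
  have le : ∀ m : cycGen K 3, ofSubtype (toPermHom _ (orbit (cycGen K 3) x) m) ∈ K := by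
    have : (⊤ : Subgroup (cycGen K 3)) ≤
        K.comap (ofSubtype.comp (toPermHom _ (orbit (cycGen K 3) x))) := by
      refine (closure_preimage_eq_top _).ge.trans ((closure_le _).2 ?_)
      rintro ⟨d, hd'⟩ hd
      show ofSubtype (toPermHom _ (orbit (cycGen K 3) x) (⟨d, hd'⟩ : cycGen K 3)) ∈ K
      by_cases k : ∀ z ∈ orbit (cycGen K 3) x, d z = z
      · rw [show toPermHom _ (orbit (cycGen K 3) x) (⟨d, hd'⟩ : cycGen K 3) = 1 from
          Equiv.ext fun z => Subtype.ext (k z z.2), map_one]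
        exact one_mem _
      push Not at k
      obtain ⟨z, z1, z2⟩ := k
      rw [e _ fun y hy => by_contra fun k => hy (orbit_eq_iff.2 z1 ▸ hd.2.mem_orbit hd.1 z2 k)]
      exact hd.1
    exact fun m => this (mem_top m)
  have := alternatingGroup_le_of_isPreprimitive_of_isThreeCycle_mem
    (G := (toPermHom (cycGen K 3) (orbit (cycGen K 3) x)).range)
    (IsPreprimitive.of_surjective (φ := (toPermHom _ _).rangeRestrict) (f := ⟨id, fun _ _ => rfl⟩)
      Function.surjective_id) (g := toPermHom _ _ ⟨c, subset_closure ⟨hc, h⟩⟩) (by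
    rw [IsThreeCycle, ← cycleType_ofSubtype, e _ fun y hy => by_contra fun k => hy (h.mem_orbit hc hx k)]
    exact card_support_eq_three_iff.1 h.2) ⟨_, rfl⟩
  have k : ∀ z, g z ≠ z → z ∈ orbit (cycGen K 3) x := fun z hz => by_contra fun k => hz (h2 z k)
  obtain ⟨m, hm⟩ := this (x := g.subtypePerm (mem_stabS_of_fix h2)) ((sign_subtypePerm _ _ k).trans h1)
  rw [← ofSubtype_subtypePerm (mem_stabS_of_fix h2) k, ← hm]
  exact le m

end Cfsg.Lib.Alt
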