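import Cfsg.Agent.Lib.Char.FrobSchur

/-!
The three small irreducible constituents of a `4`-transitive permutation group, and their zeros.
-/

set_option autoImplicit false

namespace Cfsg.Lib.Alt

open Finset MulAction Cfsg.Lib.Char

theorem sum_card_smul_eq {G X : Type*} [Group G] [Fintype G] [Fintype X] [DecidableEq X] [Nonempty X]
    [MulAction G X] [IsPretransitive G X] (s : X → X) :
    ∑ g : G, #{x | g • x = s x} = Fintype.card G := by
  classical
  have h : ∀ x, #{g : G | g • x = s x} * Fintype.card X = Fintype.card G := by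
    intro x
    obtain ⟨g₀, hg⟩ := exists_smul_eq G x (s x)
    rw [← card_orbit_mul_card_stabilizer_eq_card_group G x, mul_comm]
    congr 1
    · simp [orbit_eq_univ]
    · rw [Fintype.card_subtype]
      refine card_nbij' (fun g => g₀⁻¹ * g) (fun g => g₀ * g) ?_ ?_ ?_ ?_ <;> intro g h <;>
        simp_all [mul_smul, inv_smul_eq_iff]
  apply Nat.eq_of_mul_eq_mul_right (Fintype.card_pos (α := X))
  simp only [card_filter]
  rw [sum_comm, sum_mul]
  simp only [← card_filter, h]
  simp [mul_comm]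

variable {G Ω : Type*} [Group G] [Fintype Ω] [DecidableEq Ω] [MulAction G Ω]

variable (Ω) in
/-- Fixed points. -/
def fixS (g : G) : Finset Ω := {x | g • x = x}

variable (Ω) in
/-- Points in cycles of length two. -/
def twoS (g : G) : Finset Ω := {x | g • x ≠ x ∧ g • g • x = x}

theorem card_fixS_sq (g : G) : #(fixS Ω (g * g)) = #(fixS Ω g) + #(twoS Ω g) := by
  rw [← card_union_of_disjoint (by simp [disjoint_left, fixS, twoS]; tauto)]
  congr 1
  ext x
  simp only [fixS, twoS, mem_filter, mem_univ, true_and, mem_union, mul_smul]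
  by_cases h : g • x = x <;> simp [h]

theorem card_emb_id (g : G) (k : ℕ) :
    #{x : Fin k ↪ Ω | g • x = x} = (#(fixS Ω g)).descFactorial k := by
  have := Fintype.card_embedding_eq (α := Fin k) (β := (fixS Ω g : Set Ω))
  rw [Fintype.card_fin, ← Fintype.card_congr (Equiv.codRestrict (Fin k) _), Fintype.card_subtype] at this
  simp only [coe_sort_coe, Fintype.card_coe] at this
  rw [← this]
  congr 1
  ext x
  simp [fixS, Function.Embedding.ext_iff]

theorem card_emb_two (g : G) :
    #{x : Fin 2 ↪ Ω | g • x = (Equiv.swap 0 1).toEmbedding.trans x} = #(twoS Ω g) := by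
  refine card_bij (fun x _ => x 0) (fun x hx => ?_) (fun x hx y hy e => ?_) fun t ht => ?_
  · simp only [Function.Embedding.ext_iff, Fin.forall_fin_two, mem_filter, mem_univ, true_and] at hx
    simp_all [twoS]
  · simp only [Function.Embedding.ext_iff, Fin.forall_fin_two, mem_filter, mem_univ, true_and]
      at hx hy ⊢
    simp at hx hy
    exact ⟨e, by rw [← hx.1, ← hy.1, e]⟩
  · simp only [twoS, mem_filter, mem_univ, true_and] at ht
    refine ⟨⟨![t, g • t], fun i j => ?_⟩, ?_, rfl⟩
    · fin_cases i <;> fin_cases j <;> simp <;> grind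
    · simp [Function.Embedding.ext_iff, Fin.forall_fin_two]
      exact ⟨rfl, ht.2⟩

theorem card_emb_three (g : G) :
    #{x : Fin 3 ↪ Ω | g • x = (Equiv.swap 0 1).toEmbedding.trans x} = #(twoS Ω g) * #(fixS Ω g) := by
  rw [← card_product]
  have s2 : Equiv.swap (0 : Fin 3) 1 2 = 2 := by decide
  refine card_bij (fun x _ => (x 0, x 2)) (fun x hx => ?_) (fun x hx y hy e => ?_) fun ⟨t, u⟩ ht => ?_
  · simp only [Function.Embedding.ext_iff, Fin.forall_fin_succ, mem_filter, mem_univ, true_and] at hx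
    simp_all [twoS, fixS]
  · simp only [Function.Embedding.ext_iff, Fin.forall_fin_succ, mem_filter, mem_univ, true_and]
      at hx hy ⊢
    simp [s2] at hx hy e ⊢
    exact ⟨e.1, by rw [← hx.1, ← hy.1, e.1], e.2⟩
  · simp only [twoS, fixS, mem_product, mem_filter, mem_univ, true_and] at ht
    refine ⟨⟨![t, g • t, u], fun i j => ?_⟩, ?_, rfl⟩
    · fin_cases i <;> fin_cases j <;> simp <;> grind
    · simp [Function.Embedding.ext_iff, Fin.forall_fin_succ, s2]
      exact ⟨rfl, ht.1.2, ht.2⟩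

theorem card_emb_four (g : G) :
    #{x : Fin 4 ↪ Ω | g • x = (Equiv.swap 0 1).toEmbedding.trans x} =
      #(twoS Ω g) * (#(fixS Ω g) * #(fixS Ω g) - #(fixS Ω g)) := by
  rw [← offDiag_card, ← card_product]
  have s2 : Equiv.swap (0 : Fin 4) 1 2 = 2 := by decide
  have s3 : Equiv.swap (0 : Fin 4) 1 3 = 3 := by decide
  refine card_bij (fun x _ => (x 0, x 2, x 3)) (fun x hx => ?_) (fun x hx y hy e => ?_)
    fun ⟨t, u, v⟩ ht => ?_
  · simp only [Function.Embedding.ext_iff, Fin.forall_fin_succ, mem_filter, mem_univ, true_and] at hx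
    simp_all [twoS, fixS]
  · simp only [Function.Embedding.ext_iff, Fin.forall_fin_succ, mem_filter, mem_univ, true_and]
      at hx hy ⊢
    simp [s2, s3] at hx hy e ⊢
    exact ⟨e.1, by rw [← hx.1, ← hy.1, e.1], e.2⟩
  · simp only [twoS, fixS, mem_product, mem_offDiag, mem_filter, mem_univ, true_and] at ht
    refine ⟨⟨![t, g • t, u, v], fun i j => ?_⟩, ?_, rfl⟩
    · fin_cases i <;> fin_cases j <;> simp <;> grind
    · simp [Function.Embedding.ext_iff, Fin.forall_fin_succ, s2, s3]
      exact ⟨rfl, ht.1.2, ht.2.1, ht.2.2.1⟩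

theorem card_emb_four' (g : G) :
    #{x : Fin 4 ↪ Ω | g • x = (Equiv.swap (0 : Fin 4) 1 * Equiv.swap (2 : Fin 4) 3).toEmbedding.trans x} =
      #(twoS Ω g) * (#(twoS Ω g) - 2) := by
  have : #((twoS Ω g).sigma fun t => ((twoS Ω g).erase t).erase (g • t)) =
      #(twoS Ω g) * (#(twoS Ω g) - 2) := by
    rw [card_sigma, sum_const_nat (m := #(twoS Ω g) - 2)]
    intro t ht
    rw [card_erase_of_mem, card_erase_of_mem ht]
    · omega
    · simp only [twoS, mem_filter, mem_univ, true_and, mem_erase] at ht ⊢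
      grind
  rw [← this]
  have s0 : (Equiv.swap (0 : Fin 4) 1 * Equiv.swap (2 : Fin 4) 3) 0 = 1 := by decide
  have s1 : (Equiv.swap (0 : Fin 4) 1 * Equiv.swap (2 : Fin 4) 3) 1 = 0 := by decide
  have s2 : (Equiv.swap (0 : Fin 4) 1 * Equiv.swap (2 : Fin 4) 3) 2 = 3 := by decide
  have s3 : (Equiv.swap (0 : Fin 4) 1 * Equiv.swap (2 : Fin 4) 3) 3 = 2 := by decide
  generalize Equiv.swap (0 : Fin 4) 1 * Equiv.swap (2 : Fin 4) 3 = σ at s0 s1 s2 s3
  refine card_bij (fun x _ => ⟨x 0, x 2⟩) (fun x hx => ?_) (fun x hx y hy e => ?_)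
    fun ⟨t, u⟩ ht => ?_
  · simp only [Function.Embedding.ext_iff, Fin.forall_fin_succ, mem_filter, mem_univ, true_and] at hx
    simp_all [twoS]
  · simp only [Function.Embedding.ext_iff, Fin.forall_fin_succ, mem_filter, mem_univ, true_and]
      at hx hy ⊢
    simp [s0, s1, s2, s3] at hx hy e ⊢
    exact ⟨e.1, by rw [← hx.1, ← hy.1, e.1], e.2, by rw [← hx.2.2.1, ← hy.2.2.1, e.2]⟩
  · simp only [twoS, mem_sigma, mem_erase, mem_filter, mem_univ, true_and] at ht
    refine ⟨⟨![t, g • t, u, g • u], fun i j => ?_⟩, ?_, rfl⟩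
    · fin_cases i <;> fin_cases j <;> simp <;> grind
    · simp [Function.Embedding.ext_iff, Fin.forall_fin_succ, s0, s1, s2, s3]
      exact ⟨rfl, ht.1.2, rfl, ht.2.2.2.2⟩

variable (Ω) in
/-- The standard character. -/
def chiA (g : G) : ℂ := (#(fixS Ω g) : ℂ) - 1

variable (Ω) in
/-- The exterior square of the standard character. -/
noncomputable def chiL (g : G) : ℂ := ((#(fixS Ω g) : ℂ) ^ 2 - 3 * #(fixS Ω g) + 2 - #(twoS Ω g)) / 2

variable (Ω) in
/-- The character `(n - 2, 2)`. -/
noncomputable def chiM (g : G) : ℂ := ((#(fixS Ω g) : ℂ) ^ 2 - 3 * #(fixS Ω g) + #(twoS Ω g)) / 2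

theorem isCharacter_fixS : IsCharacter G fun g => (#(fixS Ω g) : ℂ) := by
  convert isCharacter_card_fixedBy (G := G) Ω using 3 with g
  rw [Nat.card_eq_fintype_card, Fintype.card_subtype]
  rfl

theorem irr_three [Fintype G] [IsMultiplyPretransitive G Ω 4] (h : 4 ≤ Fintype.card Ω) :
    IsIrrCharacter G (chiA Ω) ∧ IsIrrCharacter G (chiL Ω) ∧ IsIrrCharacter G (chiM Ω) := by
  classical
  have key : ∀ k ≤ 4, ∀ s : (Fin k ↪ Ω) → (Fin k ↪ Ω),
      ∑ g : G, (#{x | g • x = s x} : ℂ) = Fintype.card G := by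
    intro k hk s
    have : IsMultiplyPretransitive G Ω k :=
      isMultiplyPretransitive_of_le hk (by rwa [Nat.card_eq_fintype_card])
    have : Nonempty (Fin k ↪ Ω) := Function.Embedding.nonempty_of_card_le (by simpa using hk.trans h)
    exact_mod_cast sum_card_smul_eq (G := G) s
  have d : ∀ k ≤ 4, ∑ g : G, (descPochhammer ℂ k).eval (#(fixS Ω g) : ℂ) = Fintype.card G := by
    intro k hk
    simp only [descPochhammer_eval_eq_descFactorial, ← card_emb_id]
    exact key k hk fun x => x
  have d1 := d 1 (by omega)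
  have d2 := d 2 (by omega)
  have d3 := d 3 (by omega)
  have d4 := d 4 (by omega)
  simp only [descPochhammer_succ_eval, descPochhammer_zero, Polynomial.eval_one] at d1 d2 d3 d4
  have e2 := key 2 (by omega) fun x => (Equiv.swap 0 1).toEmbedding.trans x
  have e3 := key 3 (by omega) fun x => (Equiv.swap 0 1).toEmbedding.trans x
  have e4 := key 4 (by omega) fun x => (Equiv.swap 0 1).toEmbedding.trans x
  have e5 := key 4 (by omega) fun x => (Equiv.swap (0 : Fin 4) 1 * Equiv.swap (2 : Fin 4) 3).toEmbedding.trans x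
  have c4 : ∀ a : ℕ, ((a * a - a : ℕ) : ℂ) = a * a - a := fun a => by
    rw [Nat.cast_sub (Nat.le_mul_self a)]; simp
  have c5 : ∀ g : G, ((#(twoS Ω g) * (#(twoS Ω g) - 2) : ℕ) : ℂ) = #(twoS Ω g) * (#(twoS Ω g) - 2) := by
    intro g
    rcases (twoS Ω g).eq_empty_or_nonempty with e | ⟨t, ht⟩
    · simp [e]
    rw [Nat.cast_mul, Nat.cast_sub (one_lt_card.2 ⟨t, ht, g • t, ?_, ?_⟩)]
    · simp
    all_goals simp only [twoS, mem_filter, mem_univ, true_and] at ht ⊢; grind
  simp only [card_emb_two, card_emb_three, card_emb_four, card_emb_four', c5, Nat.cast_mul, c4]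
    at e2 e3 e4 e5
  have e0 : ∑ _g : G, (1 : ℂ) = Fintype.card G := by simp
  have hp := isCharacter_fixS (G := G) (Ω := Ω)
  have h1 := isGeneralizedCharacter_one (G := G)
  have f1 : #(fixS Ω (1 : G)) = Fintype.card Ω := by simp [fixS]
  have t1 : #(twoS Ω (1 : G)) = 0 := by simp [twoS]
  have h' : (4 : ℝ) ≤ Fintype.card Ω := by exact_mod_cast h
  have hc : (Fintype.card G : ℂ) ≠ 0 := by simp
  have fin : ∀ θ : G → ℂ, (∀ g, (starRingEnd ℂ) (θ g) = θ g) → ∑ g, θ g * θ g = Fintype.card G →
      classInner θ θ = 1 := fun θ h1 h2 => by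
    simp only [classInner_def, h1, h2, Nat.card_eq_fintype_card]; field_simp
  refine ⟨Char.Cfsg.IsGeneralizedCharacter.isIrrCharacter_of_inner_self ?_ (fin _ ?_ ?_) ?_,
    Char.Cfsg.IsGeneralizedCharacter.isIrrCharacter_of_inner_self ?_ (fin _ ?_ ?_) ?_,
    Char.Cfsg.IsGeneralizedCharacter.isIrrCharacter_of_inner_self ?_ (fin _ ?_ ?_) ?_⟩
  · exact hp.isGeneralizedCharacter.sub h1
  · simp [chiA]
  · have := congr($d2 - $d1 + $e0)
    simp only [← sum_sub_distrib, ← sum_add_distrib] at this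
    exact Eq.trans (sum_congr rfl fun g _ => by simp only [chiA]; push_cast; ring)
      (this.trans (by ring))
  · simp only [chiA, f1]; norm_num; linarith
  · convert (hp.altSq.isGeneralizedCharacter.sub hp.isGeneralizedCharacter).add h1 using 1
    ext g
    simp only [chiL, card_fixS_sq, Pi.add_apply, Pi.sub_apply]; push_cast; ring
  · intro g; simp [chiL, map_ofNat]
  · have := congr(($d4 + 2 * $d2 - 4 * $d1 + 4 * $e0 - 2 * $e4 + 4 * $e3 + $e5 - 2 * $e2) / 4)
    simp only [← sum_sub_distrib, ← sum_add_distrib, mul_sum, sum_div] at this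
    exact Eq.trans (sum_congr rfl fun g _ => by simp only [chiL]; push_cast; ring)
      (this.trans (by ring))
  · simp only [chiL, f1, t1]
    simp [Complex.div_ofNat_re, pow_two]
    nlinarith
  · convert hp.symSq.isGeneralizedCharacter.sub (hp.isGeneralizedCharacter.nsmul 2) using 1
    ext g
    simp only [chiM, card_fixS_sq, Pi.sub_apply, two_nsmul, Pi.add_apply]; push_cast; ring
  · intro g; simp [chiM, map_ofNat]
  · have := congr(($d4 - 2 * $d2 + 4 * $d1 + 2 * $e4 - 4 * $e3 + $e5 + 2 * $e2) / 4)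
    simp only [← sum_sub_distrib, ← sum_add_distrib, mul_sum, sum_div] at this
    exact Eq.trans (sum_congr rfl fun g _ => by simp only [chiM]; push_cast; ring)
      (this.trans (by ring))
  · simp only [chiM, f1, t1]
    simp [Complex.div_ofNat_re, pow_two]
    nlinarith

open Equiv.Perm in
theorem card_support_sq (g : Equiv.Perm Ω) :
    #(g * g).support = (g.cycleType.filter (· ≠ 2)).sum := by
  induction g using cycle_induction_on with
  | base_one => simp
  | base_cycles σ hσ =>
    rw [hσ.cycleType, ← pow_two]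
    by_cases h : #σ.support = 2
    · rw [← h, ← hσ.orderOf, pow_orderOf_eq_one, hσ.orderOf]; simp [Multiset.filter_singleton]
    · rw [hσ.support_pow_eq_iff.2, Multiset.filter_singleton, if_pos h]
      · simp
      · rw [hσ.orderOf, Nat.dvd_prime Nat.prime_two]
        have := hσ.two_le_card_support
        omega
  | induction_disjoint σ τ hd _ h1 h2 =>
    rw [hd.cycleType_mul, Multiset.filter_add, Multiset.sum_add, ← h1, ← h2, ← pow_two,
      hd.commute.mul_pow, (hd.pow_disjoint_pow 2 2).card_support_mul, pow_two, pow_two]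

theorem card_fixS_perm (g : Equiv.Perm Ω) : #(fixS Ω g) + #g.support = Fintype.card Ω := by
  rw [add_comm, ← card_add_card_compl g.support]
  congr 2
  ext x; simp [fixS]

theorem exists_perm_type {n i j l m : ℕ} (h : 2 * i + 4 * j + 8 * l + 3 * m ≤ n) (he : Even (i + j + l)) :
    ∃ g : alternatingGroup (Fin n), #(fixS (Fin n) g) + (2 * i + 4 * j + 8 * l + 3 * m) = n ∧
      #(twoS (Fin n) g) = 2 * i ∧ (m = 0 → g ^ 8 = 1) ∧ (i + j + l = 0 → g ^ 3 = 1) := by
  obtain ⟨g, hg⟩ := (Equiv.Perm.exists_with_cycleType_iff (Fin n) (m := Multiset.replicate i 2 +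
    Multiset.replicate j 4 + Multiset.replicate l 8 + Multiset.replicate m 3)).2 ⟨by simp; omega, by
      simp only [Multiset.mem_add, Multiset.mem_replicate]; omega⟩
  have h1 := card_fixS_perm g
  have h2 := card_fixS_perm (g * g)
  rw [card_support_sq, card_fixS_sq, hg] at h2
  rw [← Equiv.Perm.sum_cycleType, hg] at h1
  have fr : ∀ a c : ℕ, ((Multiset.replicate a c).filter (· ≠ 2)).sum = if c = 2 then 0 else a * c := by
    intro a c
    split_ifs with e
    · rw [Multiset.filter_eq_nil.2 (by simp [Multiset.mem_replicate, e])]; simp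
    · rw [Multiset.filter_eq_self.2 (by simp [Multiset.mem_replicate, e])]; simp
  simp only [Multiset.filter_add, Multiset.sum_add, fr] at h2
  simp at h1 h2
  have key : ∀ k, (∀ c ∈ g.cycleType, c ∣ k) → g ^ k = 1 := fun k hk =>
    orderOf_dvd_iff_pow_eq_one.1 (by rw [← Equiv.Perm.lcm_cycleType]; exact Multiset.lcm_dvd.2 hk)
  refine ⟨⟨g, ?_⟩, ?_, ?_, fun e => Subtype.ext (key 8 ?_), fun e => Subtype.ext (key 3 ?_)⟩
  · rw [Equiv.Perm.mem_alternatingGroup, Equiv.Perm.sign_of_cycleType, hg]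
    refine Even.neg_one_pow ?_
    simp only [Multiset.sum_add, Multiset.sum_replicate, smul_eq_mul, Multiset.card_add,
      Multiset.card_replicate, Nat.even_iff] at he ⊢
    omega
  · change #(fixS (Fin n) g) + _ = n; omega
  · change #(twoS (Fin n) g) = _; omega
  · simp only [hg, Multiset.mem_add, Multiset.mem_replicate]
    rintro c (((⟨_, rfl⟩ | ⟨_, rfl⟩) | ⟨_, rfl⟩) | ⟨_, rfl⟩) <;> omega
  · simp only [hg, Multiset.mem_add, Multiset.mem_replicate]
    rintro c (((⟨_, rfl⟩ | ⟨_, rfl⟩) | ⟨_, rfl⟩) | ⟨_, rfl⟩) <;> omega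

end Cfsg.Lib.Alt
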