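import Cfsg.Agent.Lib.Alt.CycGen
import Cfsg.Agent.Lib.Alt.Choose

/-! # Hall subgroups of symmetric and alternating groups: the classification -/

set_option autoImplicit false

namespace Cfsg.Lib.Alt

open Equiv Equiv.Perm MulAction Subgroup
open scoped Pointwise

variable {α : Type*} [Fintype α] [DecidableEq α] {K T : Subgroup (Perm α)} {p : ℕ} {π : Set ℕ}

theorem exists_even_image {Δ Ω s : Set α} (h1 : Δ ⊆ Ω) (h2 : s ⊆ Ω) (h : s.ncard = Δ.ncard)
    (hΔ : Δ.Nontrivial) : ∃ g ∈ alternatingGroup α, (∀ z ∉ Ω, g z = z) ∧ g '' Δ = s := by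
  obtain ⟨e⟩ : Nonempty (Δ ≃ s) := Finite.card_eq.1 h.symm
  obtain ⟨σ, hσ⟩ := Perm.exists_extending_pair (f := Sum.elim (Subtype.val : Δ → α) (Subtype.val : ↥Ωᶜ → α))
    (g := Sum.elim (Subtype.val ∘ e) Subtype.val)
    (Subtype.val_injective.sumElim Subtype.val_injective fun x y k => y.2 (k ▸ h1 x.2))
    ((Subtype.val_injective.comp e.injective).sumElim Subtype.val_injective
      fun x y k => y.2 (k ▸ h2 (e x).2))
  have s1 : ∀ z ∉ Ω, σ z = z := fun z hz => hσ (.inr ⟨z, hz⟩)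
  have s2 : σ '' Δ = s := Set.eq_of_subset_of_ncard_le (by
    rintro _ ⟨x, hx, rfl⟩
    exact (hσ (.inl ⟨x, hx⟩) : σ x = _) ▸ (e _).2)
    (by rw [Set.ncard_image_of_injective _ σ.injective, h])
  rcases Int.units_eq_one_or (sign σ) with k | k
  · exact ⟨σ, k, s1, s2⟩
  obtain ⟨a, ha, b, hb, hab⟩ := hΔ
  refine ⟨σ * swap a b, by simp [k, hab], fun z hz => ?_, ?_⟩
  · rw [mul_apply, swap_apply_of_ne_of_ne (ne_of_mem_of_not_mem (h1 ha) hz).symm
      (ne_of_mem_of_not_mem (h1 hb) hz).symm, s1 z hz]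
  rw [Perm.coe_mul, Set.image_comp, (swap_bijOn_self (iff_of_true ha hb)).image_eq, s2]

omit [DecidableEq α] in
theorem mem_stabS_iff {L : Set α} {g : Perm α} : g ∈ stabS L ↔ g '' L = L :=
  ⟨fun h => Set.ext fun x => ⟨by rintro ⟨y, hy, rfl⟩; exact (h y).2 hy,
    fun k => ⟨g⁻¹ x, (inv_mem h x).2 k, by simp⟩⟩, fun h => mem_stabS_of_maps fun x hx => h.le ⟨x, hx, rfl⟩⟩

theorem relIndex_stabS {Δ Ω : Set α} (h : Δ ⊆ Ω) (hΔ : Δ.Nontrivial) {H : Subgroup (Perm α)}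
    (h1 : H ≤ stabS Ω) (h2 : ∀ g ∈ alternatingGroup α, (∀ z ∉ Ω, g z = z) → g ∈ H) :
    (stabS Δ).relIndex H = Ω.ncard.choose Δ.ncard := by
  rw [← Set.ncard_powerset_ncard Ω.toFinite, relIndex,
    show (stabS Δ).subgroupOf H = stabilizer H Δ from Subgroup.ext fun g => mem_stabS_iff,
    index_stabilizer]
  congr 1
  ext s
  refine ⟨?_, fun hs => ?_⟩
  · rintro ⟨g, rfl⟩
    exact ⟨by rintro _ ⟨x, hx, rfl⟩; exact (h1 g.2 x).2 (h hx),
      Set.ncard_image_of_injective _ g.1.injective⟩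
  obtain ⟨g, g1, g2, g3⟩ := exists_even_image h hs.1 hs.2 hΔ
  exact ⟨⟨g, h2 g g1 g2⟩, g3⟩

theorem Full.not_dvd_choose (h : Full p T) {Δ Ω : Set α} (hs : Δ ⊆ Ω) (hΔ : Δ.Nontrivial)
    (h1 : T ≤ stabS Δ) (h2 : T ≤ stabS Ω) : ¬ p ∣ Ω.ncard.choose Δ.ncard := fun k => h <| by
  rw [← relIndex_stabS hs hΔ (H := stabS Ω ⊓ alternatingGroup α) inf_le_left
    fun g g1 g2 => ⟨mem_stabS_of_fix g2, g1⟩] at k
  exact (k.trans ⟨_, (relIndex_inf_mul_relIndex _ _ _).symm⟩).trans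
    (relIndex_dvd_of_le_left _ (le_inf h1 h2))

theorem Full.card_fix_lt (h : Full p T) (hp : p.Prime) (h2 : p ≠ 2) :
    {x | ∀ c ∈ T, PCyc p c → c x = x}.ncard < p := by
  by_contra! k
  obtain ⟨c, c1, c2, c3⟩ := h.exists_pCyc hp h2 (L := {x | ∀ c ∈ T, PCyc p c → c x = x})
    (fun g hg => mem_stabS_of_maps fun x hx c hc k => by
    have := hx _ (T.mul_mem (T.mul_mem (T.inv_mem hg) hc) hg) (by simpa using k.conj g⁻¹)
    simpa [Equiv.symm_apply_eq] using this) k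
  refine c2.1.ne_one (Equiv.ext fun x => by_contra fun e => e (c3 x fun k => e (k c c1 c2)))

theorem PCyc.exists_notMem {c : Perm α} (h : PCyc p c) {L : Set α} (hL : L.ncard < p) :
    ∃ x, c x ≠ x ∧ x ∉ L := by
  by_contra! k
  exact hL.not_ge (h.le_ncard k)

theorem two_dvd_of_full {q : ℕ} (hp : p.Prime) (hq : q.Prime) (h2 : p ≠ 2) (hl : p < q)
    (hn : q ≤ Fintype.card α) (h1 : Full p K) (h3 : Full q K) : 2 ∣ Nat.card K := by
  obtain ⟨c, c1, c2, -⟩ := h3.exists_pCyc hq (by have := hp.two_le; omega) (L := Set.univ)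
    (fun _ _ _ => Iff.rfl) (by simpa using hn)
  obtain ⟨x, x1, x2⟩ := c2.exists_notMem ((h1.card_fix_lt hp h2).trans hl)
  simp only [Set.mem_ofPred_eq, not_forall] at x2
  obtain ⟨d, d1, d2, d3⟩ := x2
  exact two_dvd_of_lt_orbit hp d2 d1 d3 (hl.trans_le (c2.le_ncard fun y => IsCycle_mem_of_stabS c2.1
    (c2.mem_stabS hq c1 (blk_orbit x) ⟨_, d2.mem_orbit d1 d3 (d.injective.ne d3), _,
      mem_orbit_self x, d3⟩) (mem_orbit_self x) x1))

theorem three_dvd_of_full (hp : p.Prime) (h5 : 5 ≤ p) (hn : p ≤ Fintype.card α) (h1 : Full p K)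
    (h2 : Full 2 K) : 3 ∣ Nat.card K := by
  obtain ⟨c, c1, c2, -⟩ := h1.exists_pCyc hp (by omega) (L := Set.univ)
    (fun _ _ _ => Iff.rfl) (by simpa using hn)
  have cj : ∀ g ∈ K, ∀ {X}, SwJ K X → SwJ K (g '' X) := fun g hg _ h =>
    h.conj fun x hx => K.mul_mem (K.mul_mem hg hx) (K.inv_mem hg)
  obtain ⟨x, x1, x2⟩ := c2.exists_notMem (L := {x | ∀ X : Set α, X.ncard = 4 → SwJ K X → x ∉ X}) (by
    by_contra! k
    obtain ⟨X, X1, X2, X3⟩ := h2.exists_swJ (j := 2)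
      (L := {x | ∀ X : Set α, X.ncard = 4 → SwJ K X → x ∉ X}) (fun g hg => mem_stabS_of_maps
      fun x hx X X2 X3 k => hx _ ((Set.ncard_image_of_injective _ g⁻¹.injective).trans X2)
        (cj _ (K.inv_mem hg) X3) ⟨_, k, by simp⟩) le_rfl (le_trans (by omega) k)
    obtain ⟨x, hx⟩ := Set.nonempty_of_ncard_ne_zero (s := X) (by omega)
    exact X1 hx X X2 X3 hx)
  simp only [Set.mem_ofPred_eq, not_forall, not_not] at x2
  obtain ⟨X, X1, X2, X3⟩ := x2
  have : ¬ Blk K X := fun k => by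
    have := c2.le_ncard fun y => IsCycle_mem_of_stabS c2.1 (c2.mem_stabS hp c1 k
      (Set.one_lt_ncard_iff_nontrivial.1 (by omega))) X3 x1
    omega
  simp only [Blk, not_forall] at this
  obtain ⟨g, hg, w, w1, w2, u, u1, u2⟩ := this
  obtain ⟨a, a1, a2⟩ : ∃ a ∈ X, a ∉ g '' X := by
    by_contra! k
    exact u2 ((Set.eq_of_subset_of_ncard_le k (Set.ncard_image_of_injective _ g.injective).le).ge
      ⟨u, u1, rfl⟩)
  obtain ⟨s, s1, s2, s3, s4⟩ := X2 a a1 _ w2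
  obtain ⟨t, t1, t2, t3, t4⟩ := cj g hg X2 _ ⟨w, w1, rfl⟩ _ ⟨u, u1, rfl⟩
  refine (by_contra fun k => a2 ?_ : 3 ∣ orderOf (s * t)).trans (K.orderOf_dvd_natCard (mul_mem s1 t1))
  have : s * t ∈ stabilizer (Perm α) a := zpowers_le.2 (show (s * t) ^ 3 ∈ _ by
    simp [pow_succ, t2 a a2, s3, t3, s2 _ u2, t4, s4]) (mem_zpowers_pow_iff.2
      ((Nat.prime_three.coprime_iff_not_dvd).2 k))
  exact ⟨w, w1, by simpa [t2 a a2, s3] using this⟩

/-- The permutations preserving the partition `{L, Lᶜ}`. -/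
def pstab (L : Set α) : Subgroup (Perm α) where
  carrier := {g | (∀ x, g x ∈ L ↔ x ∈ L) ∨ ∀ x, g x ∈ L ↔ x ∉ L}
  one_mem' := .inl fun _ => Iff.rfl
  mul_mem' := by
    rintro a b (h1 | h1) (h2 | h2)
    exacts [.inl fun x => (h1 _).trans (h2 x), .inr fun x => (h1 _).trans (h2 x),
      .inr fun x => (h1 _).trans (h2 x).not, .inl fun x => (h1 _).trans ((h2 x).not.trans not_not)]
  inv_mem' := by
    rintro g (h | h)
    exacts [.inl fun x => by simpa using (h (g⁻¹ x)).symm,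
      .inr fun x => by simpa [iff_not_comm] using h (g⁻¹ x)]

theorem exists_pCyc_of_nontrivial {x : α} (h : (orbit (cycGen K p) x).Nontrivial) :
    ∃ c ∈ K, PCyc p c ∧ c x ≠ x := by
  by_contra! k
  have : cycGen K p ≤ stabilizer _ x := (closure_le _).2 fun c hc => k c hc.1 hc.2
  exact h.not_subsingleton (Set.subsingleton_of_forall_eq x (by rintro _ ⟨g, rfl⟩; exact this g.2))

theorem dvd_card_of_le_orbit {x : α} (h : (orbit (cycGen K 3) x).Nontrivial) (hp : p.Prime)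
    (h2 : p ≠ 2) (hl : p ≤ (orbit (cycGen K 3) x).ncard) : p ∣ Nat.card K := by
  obtain ⟨c, c1, c2, c3⟩ := exists_pCyc_of_nontrivial h
  obtain ⟨d, d1, d2⟩ := exists_pCyc hp.two_le hl
  exact d1.orderOf ▸ K.orderOf_dvd_natCard
    (mem_of_fix_compl_orbit c2 c1 c3 (d1.mem_alt (hp.odd_of_ne_two h2)) d2)

omit [DecidableEq α] in
theorem choose_eight {n : ℕ} (h1 : 8 ≤ n) (h2 : n < 16) (h : ¬ 3 ∣ n.choose 8) : n = 8 := by
  interval_cases n <;> first | rfl | exact absurd (by decide +kernel) h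

theorem hall_two_three (hK : ∀ p, p.Prime → p ∣ Nat.card K → p ∈ π)
    (hF : ∀ p, p.Prime → p ∈ π → Full p K) (h2 : 2 ∈ π) (h3 : 3 ∈ π) {r : ℕ} (hr : r.Prime)
    (hn : r ≤ Fintype.card α) (hπ : r ∉ π) : ∃ Δ : Set α, K ≤ pstab Δ ∧
      (Δ.ncard + 1 = r ∧ Fintype.card α = r ∧ (∀ t, t.Prime → t < r → t ∈ π) ∨
      Δ.ncard = 4 ∧ (Fintype.card α = 7 ∨ Fintype.card α = 8) ∧ 5 ∉ π ∧ 7 ∉ π) := by
  have r5 : 5 ≤ r := hr.five_le_of_ne_two_of_ne_three (by rintro rfl; exact hπ h2)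
    (by rintro rfl; exact hπ h3)
  haveI := Nat.fact_prime_two
  haveI := Nat.fact_prime_three
  obtain ⟨T, T1, T2, T3⟩ := (hF 2 Nat.prime_two h2).exists_pgroup
  obtain ⟨j, j1, j2⟩ : ∃ j, 2 ^ j ≤ Fintype.card α ∧ Fintype.card α < 2 ^ (j + 1) :=
    ⟨_, Nat.pow_log_le_self 2 (by omega), Nat.lt_pow_succ_log_self one_lt_two _⟩
  have j3 : 2 ≤ j := by
    by_contra! k
    interval_cases j <;> omega
  have j4 : 4 ≤ 2 ^ j := Nat.pow_le_pow_right two_pos j3
  obtain ⟨Ω, -, Ω1, Ω2⟩ := T3.exists_swJ (L := Set.univ) (fun _ _ _ => Iff.rfl) j3 (by simpa using j1)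
  have pr : ∀ x, (orbit (cycGen K 3) x).Nontrivial → ∀ t, t.Prime →
      t ≤ (orbit (cycGen K 3) x).ncard → t ∈ π := fun x hx t ht hl =>
    if e : t = 2 then e ▸ h2 else hK t ht (dvd_card_of_le_orbit hx ht e hl)
  by_cases hA : ∃ x, Ω ⊆ orbit (cycGen K 3) x
  · obtain ⟨x, hx⟩ := hA
    have d1 := Set.ncard_le_ncard hx
    have nt : (orbit (cycGen K 3) x).Nontrivial := Set.one_lt_ncard_iff_nontrivial.1 (by omega)
    have st : K ≤ stabS (orbit (cycGen K 3) x) := fun g hg => by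
      obtain ⟨_, ⟨y, y1, rfl⟩, y2⟩ : (g '' orbit (cycGen K 3) x ∩ orbit (cycGen K 3) x).Nonempty := by
        by_contra! k
        have := Set.ncard_union_eq (Set.disjoint_iff_inter_eq_empty.2 k)
        have := Set.ncard_le_card (g '' orbit (cycGen K 3) x ∪ orbit (cycGen K 3) x)
        rw [Set.ncard_image_of_injective _ g.injective] at *
        rw [Nat.card_eq_fintype_card] at this
        omega
      exact mem_stabS_of_maps (blk_orbit x g hg y y1 y2)
    have nd := fun t ht h => (hF t ht h).not_dvd_choose (Set.subset_univ _) nt st fun _ _ _ => Iff.rfl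
    have pr := pr x nt
    refine ⟨_, fun g hg => .inl (st hg), ?_⟩
    obtain ⟨e, he⟩ := Nat.exists_eq_add_of_le (Set.ncard_le_card (orbit (cycGen K 3) x))
    rw [Set.ncard_univ, he] at nd
    rw [Nat.card_eq_fintype_card] at he
    generalize (orbit (cycGen K 3) x).ncard = d at *
    have := mt (pr r hr) hπ
    rcases (by omega : e = 1 ∨ 2 ≤ e) with rfl | h
    · exact .inl ⟨by omega, by omega, fun t ht k => pr t ht (by omega)⟩
    obtain ⟨rfl, rfl⟩ := eq_four_three_of_not_dvd_choose h (d := d) (by omega) fun t ht k => by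
      rw [← Nat.choose_symm_add]; exact nd t ht (pr t ht k)
    exact .inr ⟨rfl, .inl he, fun k => nd 5 Nat.prime_five k (by decide),
      fun k => nd 7 (by norm_num) k (by decide)⟩
  have sub : ∀ x ∈ Ω, orbit (cycGen K 3) x ⊆ Ω := fun x hx z hz => by_contra fun k => hA ⟨x, fun y hy => by
    obtain ⟨s, s1, s2, s3, -⟩ := Ω2 x hx y hy
    exact s3 ▸ blk_orbit x s (T1 s1) z hz ((s2 z k).symm ▸ hz) x (mem_orbit_self x)⟩
  obtain ⟨U, U1, U2, U3⟩ := (hF 3 Nat.prime_three h3).exists_pgroup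
  have L2 := U3.card_fix_lt Nat.prime_three (by decide)
  obtain ⟨x, hx, nt⟩ : ∃ x ∈ Ω, (orbit (cycGen K 3) x).Nontrivial := by
    by_contra! k
    refine (Set.ncard_le_ncard (t := {x | ∀ c ∈ U, PCyc 3 c → c x = x}) fun x hx c c1 c2 =>
      k x hx ⟨⟨c, subset_closure ⟨U1 c1, c2⟩⟩, rfl⟩ (mem_orbit_self x)).not_gt (by omega)
  obtain ⟨i, hi⟩ : ∃ i, (orbit (cycGen K 3) x).ncard = 2 ^ i := by
    rw [show orbit (cycGen K 3) x = orbit ↥(T ⊓ stabS (orbit (cycGen K 3) x)) x from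
      Set.Subset.antisymm (fun y hy => by
        obtain ⟨s, s1, -, s3, -⟩ := Ω2 x hx y (sub x hx hy)
        exact ⟨⟨s, s1, mem_stabS_of_maps
          (blk_orbit x s (T1 s1) x (mem_orbit_self x) (s3 ▸ hy))⟩, s3⟩)
        (by rintro _ ⟨g, rfl⟩; exact (g.2.2 x).2 (mem_orbit_self x))]
    exact (T2.to_inf_left).card_orbit x
  have mt : ∀ g ∈ K, ∃ a ∈ orbit (cycGen K 3) (g x), ∀ c ∈ U, PCyc 3 c → c a = a := fun g hg => by
    letI : MulAction (cycGen U 3) (orbit (cycGen K 3) (g x)) := .compHom _ (inclusion (H := cycGen U 3)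
      (K := cycGen K 3) (closure_mono fun c hc => ⟨U1 hc.1, hc.2⟩))
    obtain ⟨a, ha⟩ := (U2.to_le (cycGen_le (p := 3))).nonempty_fixed_point_of_prime_not_dvd_card
      (orbit (cycGen K 3) (g x)) (by
        rw [Nat.card_coe_set_eq, ← image_orbit_cycGen hg, Set.ncard_image_of_injective _ g.injective, hi]
        exact fun k => by simpa using Nat.prime_three.dvd_of_dvd_pow k)
    exact ⟨a, a.2, fun c c1 c2 => congrArg Subtype.val (ha ⟨c, subset_closure ⟨c1, c2⟩⟩)⟩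
  obtain ⟨y, hy, hxy⟩ : ∃ y ∈ Ω, y ∉ orbit (cycGen K 3) x := by
    by_contra! k
    exact hA ⟨x, k⟩
  obtain ⟨s, s1, -, rfl, -⟩ := Ω2 x hx y hy
  have dj : Disjoint (orbit (cycGen K 3) x) (orbit (cycGen K 3) (s x)) :=
    Set.disjoint_left.2 fun z z1 z2 => hxy (orbit_eq_iff.2 z1 ▸ orbit_eq_iff.2 z2 ▸ mem_orbit_self _)
  have two : ∀ g ∈ K, orbit (cycGen K 3) (g x) = orbit (cycGen K 3) x ∨
      orbit (cycGen K 3) (g x) = orbit (cycGen K 3) (s x) := fun g hg => by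
    obtain ⟨a, a1, a2⟩ := mt 1 K.one_mem
    obtain ⟨b, b1, b2⟩ := mt s (T1 s1)
    obtain ⟨z, z1, z2⟩ := mt g hg
    have : z ∈ ({a, b} : Set α) := (Set.eq_of_subset_of_ncard_le (s := {a, b})
      (t := {x | ∀ c ∈ U, PCyc 3 c → c x = x}) (by rintro _ (rfl | rfl); exacts [a2, b2]) (by
        rw [Set.ncard_pair (dj.ne_of_mem a1 b1)]; omega)).ge z2
    rw [← orbit_eq_iff.2 z1]
    rcases this with rfl | rfl
    exacts [.inl (orbit_eq_iff.2 a1), .inr (orbit_eq_iff.2 b1)]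
  have un : Ω = orbit (cycGen K 3) x ∪ orbit (cycGen K 3) (s x) :=
    Set.Subset.antisymm (fun z hz => by
      obtain ⟨t, t1, -, rfl, -⟩ := Ω2 x hx z hz
      exact (two t (T1 t1)).imp (·.le (mem_orbit_self _)) (·.le (mem_orbit_self _)))
      (Set.union_subset (sub x hx) (sub _ hy))
  have st : K ≤ stabS Ω := fun g hg => mem_stabS_iff.2 (Set.eq_of_subset_of_ncard_le (by
    rw [un, Set.image_union, image_orbit_cycGen hg, image_orbit_cycGen hg]
    refine Set.union_subset ?_ ?_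
    exacts [(two g hg).elim (·.le.trans Set.subset_union_left) (·.le.trans Set.subset_union_right),
      (two _ (K.mul_mem hg (T1 s1))).elim (·.le.trans Set.subset_union_left)
        (·.le.trans Set.subset_union_right)]) (Set.ncard_image_of_injective _ g.injective).ge)
  have cd : Ω.ncard = 2 ^ i + 2 ^ i := by
    rw [un, Set.ncard_union_eq dj, ← image_orbit_cycGen (T1 s1),
      Set.ncard_image_of_injective _ s.injective, hi]
  have nd : ∀ t, t.Prime → t ≠ 2 → t ∈ π → ¬ t ∣ (2 ^ i + 2 ^ i).choose (2 ^ i) := fun t ht t2 h => by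
    haveI := Fact.mk ht
    obtain ⟨V, V1, V2, V3⟩ := (hF t ht h).exists_pgroup
    rw [← cd, ← hi]
    refine V3.not_dvd_choose (sub x hx) nt (fun g hg => mem_of_sq_mem ?_ ?_) (V1.trans st)
    · obtain ⟨k, hk⟩ := IsPGroup.iff_orderOf.1 V2 ⟨g, hg⟩
      exact (orderOf_mk g hg).symm.trans hk ▸ (ht.odd_of_ne_two t2).pow
    rw [mem_stabS_iff, image_orbit_cycGen (K.pow_mem (V1 hg) 2)]
    refine (two _ (K.pow_mem (V1 hg) 2)).resolve_right fun e => ?_
    rcases two g (V1 hg) with k | k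
    · rw [sq, mul_apply, ← image_orbit_cycGen (V1 hg), k, image_orbit_cycGen (V1 hg), k] at e
      exact hxy (e ▸ mem_orbit_self _)
    · rw [sq, mul_apply, ← image_orbit_cycGen (V1 hg), ← k, ← image_orbit_cycGen (V1 hg) x,
        (Set.image_injective.2 g.injective).eq_iff, image_orbit_cycGen (V1 hg), k] at e
      exact hxy (e ▸ mem_orbit_self _)
  obtain ⟨c, c1, c2, c3⟩ := exists_pCyc_of_nontrivial nt
  have := c2.le_ncard fun y => c2.mem_orbit c1 c3
  obtain rfl : i = 2 := by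
    by_contra k
    obtain ⟨i, rfl⟩ : ∃ l, i = l + 3 := ⟨i - 3, by
      rcases (by omega : i = 0 ∨ i = 1 ∨ 3 ≤ i) with rfl | rfl | h <;> omega⟩
    obtain ⟨e, he⟩ : ∃ e, 2 ^ (i + 3) = e + 1 := ⟨_, (Nat.succ_pred_eq_of_pos (by positivity)).symm⟩
    have he' := he
    rw [pow_add] at he'
    have := eq_nine_of_not_dvd_choose (e := e) (by have := Nat.one_le_two_pow (n := i); omega)
      fun t ht t2 h k => nd t ht t2 (pr x nt t ht (by omega)) (by
        rw [he, ← add_assoc, Nat.choose_succ_succ']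
        exact dvd_add k (by rwa [Nat.choose_symm_add]))
    omega
  have n8 : Fintype.card α = 8 := choose_eight (by omega) (by omega) (by
    simpa [cd] using (hF 3 Nat.prime_three h3).not_dvd_choose (Set.subset_univ Ω)
      (nt.mono (sub x hx)) st fun _ _ _ => Iff.rfl)
  have un' : orbit (cycGen K 3) (s x) = (orbit (cycGen K 3) x)ᶜ :=
    (eq_compl_comm.2 (IsCompl.eq_compl ⟨dj, codisjoint_iff.2 (un.symm.trans
      ((Set.eq_univ_iff_ncard _).2 (by rw [cd, Nat.card_eq_fintype_card, n8]; rfl)))⟩))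
  refine ⟨_, fun g hg => (two g hg).imp (fun e => mem_stabS_iff.2 ((image_orbit_cycGen hg x).trans e))
    fun e z => ?_, .inr ⟨hi, .inr n8, fun k => nd 5 Nat.prime_five (by decide) k (by decide),
      fun k => nd 7 (by norm_num) (by decide) k (by decide)⟩⟩
  rw [← not_iff_not, not_not, ← Set.mem_compl_iff, ← un', ← e, ← image_orbit_cycGen hg,
    g.injective.mem_set_image]

end Cfsg.Lib.Alt
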