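import Cfsg.Agent.Lib.Alt.HallSym
import Cfsg.Agent.Lib.Perm.JordanSet2
import Cfsg.Agent.Lib.Perm.Sym3
import Cfsg.Agent.Lib.Perm.TwoGen
import Cfsg.Agent.Lib.Comp.GenFitting
import Cfsg.Agent.Lib.Small.Sieve

/-!
# Permutation groups with quasisimple generalized Fitting subgroup and a small Jordan set
-/

set_option autoImplicit false

namespace Cfsg.Lib.Alt

open Equiv Equiv.Perm MulAction Subgroup Cfsg.Lib.Perm Cfsg.Lib.Comp
open scoped Pointwise

variable {G α : Type*} [Group G] [MulAction G α] {E M : Subgroup G}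

/-- The points moved by `E`. -/
def mv (E : Subgroup G) (α : Type*) [MulAction G α] : Set α := {x | ∃ e ∈ E, e • x ≠ x}

theorem smul_mem_mv [hE : E.Normal] (g : G) {x : α} (h : x ∈ mv E α) : g • x ∈ mv E α := by
  obtain ⟨e, he, h⟩ := h
  exact ⟨_, hE.conj_mem e he g, by simpa [mul_smul] using h⟩

theorem smul_mem_orbit_normal [hM : M.Normal] (g : G) {x y : α} (h : y ∈ orbit M x) :
    g • y ∈ orbit M (g • x) := by
  obtain ⟨⟨m, hm⟩, rfl⟩ := h
  exact ⟨⟨_, hM.conj_mem m hm g⟩, by simp [Subgroup.mk_smul, mul_smul]⟩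

/-- The elements stabilizing every orbit of `M`. -/
def orbKer (M : Subgroup G) (α : Type*) [MulAction G α] : Subgroup G where
  carrier := {k | ∀ z : α, k • z ∈ orbit M z}
  one_mem' z := by simp
  mul_mem' {a b} ha hb z := by
    rw [mul_smul, ← orbit_eq_iff.2 (hb z)]; exact ha _
  inv_mem' {a} ha z := by
    have := ha (a⁻¹ • z)
    rw [smul_inv_smul] at this
    exact mem_orbit_symm.1 this

instance normal_orbKer [M.Normal] : (orbKer M α).Normal :=
  ⟨fun k hk g z => by simpa [mul_smul] using smul_mem_orbit_normal g (hk (g⁻¹ • z))⟩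

theorem smul_ne_of_centralizer {g : G} (hg : g ∈ centralizer (E : Set G)) {x z : α}
    (hx : g • x ≠ x) (hz : z ∈ orbit E x) : g • z ≠ z := by
  obtain ⟨⟨e, he⟩, rfl⟩ := hz
  change g • e • x ≠ e • x
  rwa [← mul_smul, ← hg e he, mul_smul, Ne, smul_left_cancel_iff]

variable [FaithfulSMul G α] [E.Normal]

theorem eq_one_of_fix_mv (hc : centralizer (E : Set G) ≤ E) {g : G}
    (h : ∀ x ∈ mv E α, g • x = x) : g = 1 := by
  have h1 : ∀ e ∈ E, ∀ z ∉ mv E α, e • z = z := fun e he z hz => by_contra fun k => hz ⟨e, he, k⟩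
  have h2 : g ∈ E := hc fun e he => eq_of_smul_eq_smul fun z : α => by
    rw [mul_smul, mul_smul]
    by_cases hz : z ∈ mv E α
    · rw [h z hz, h _ (smul_mem_mv e hz)]
    · rw [h1 e he z hz, h1 e he _ fun k => hz (by simpa using smul_mem_mv g⁻¹ k)]
  exact eq_of_smul_eq_smul fun z : α => by
    rw [one_smul]; exact (em _).elim (h z) (h1 g h2 z)

variable [Finite α] (hq : IsQuasisimple E)
include hq

omit [FaithfulSMul G α] [Finite α] in
theorem qs_dich (hM : E ≤ normalizer (M : Set G)) : E ≤ M ∨ M ≤ centralizer (E : Set G) :=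
  (isComponent_le_or_commutator_eq_bot_of_normalizer ⟨Normal.isSubnormal inferInstance, hq⟩ hM).imp
    id fun h => by rwa [commutator_comm, commutator_eq_bot_iff_le_centralizer] at h

omit [FaithfulSMul G α] [E.Normal] in
theorem five_le_orbit {x : α} (hx : x ∈ mv E α) : 5 ≤ (orbit E x).ncard := by
  by_contra! h
  obtain ⟨e, he, hx⟩ := hx
  let f := toPermHom E (orbit E x)
  haveI : Nontrivial f.range := ⟨⟨⟨_, ⟨e, he⟩, rfl⟩, 1, fun k => hx (congrArg
    (fun σ : f.range => (σ.1 ⟨x, mem_orbit_self x⟩ : α)) k)⟩⟩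
  refine isQuasisimple_not_isSolvable (isQuasisimple_of_surjective hq f.rangeRestrict_surjective)
    (Char.isSolvable_of_card_dvd_pow_mul_pow _ (a := 3) (b := 1) Nat.prime_two Nat.prime_three
      ((card_subgroup_dvd_card _).trans ?_))
  rw [Nat.card_perm, Nat.card_coe_set_eq]
  exact Nat.factorial_dvd_factorial (n := 4) (by omega)

variable {X : Set α} (hX : Jor G X) (h4 : X.ncard ≤ 4)
include hX h4

omit [FaithfulSMul G α] in
theorem jor_subset_orbit {x : α} (hx : x ∈ X) (hx' : x ∈ mv E α) : X ⊆ orbit E x := fun y hy => by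
  obtain ⟨g, h1, rfl⟩ := hX x hx y hy
  by_contra k
  have : orbit E x ⊆ X := fun z hz => by_contra fun hz' => k (by
    have := smul_mem_orbit_normal g hz
    rw [h1 z hz'] at this
    exact orbit_eq_iff.2 hz ▸ mem_orbit_symm.1 this)
  have := (five_le_orbit hq hx').trans (Set.ncard_le_ncard this)
  omega

omit [FaithfulSMul G α] in
theorem not_mem_centralizer {g : G} (h : ∀ z ∉ X, g • z = z) {x : α} (hx : x ∈ mv E α)
    (hg : g • x ≠ x) : g ∉ centralizer (E : Set G) := fun k => by
  have : orbit E x ⊆ X := fun z hz => by_contra fun hz' =>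
    smul_ne_of_centralizer k hg hz (h z hz')
  have := (five_le_orbit hq hx).trans (Set.ncard_le_ncard this)
  omega

variable [Finite G] (h2 : X.Nontrivial) (hs : X ⊆ mv E α)
include h2 hs

omit [FaithfulSMul G α] in
theorem orbit_eq_mv {x : α} (hx : x ∈ mv E α) : orbit E x = mv E α := by
  obtain ⟨y, hy, z, hz, hyz⟩ := h2
  suffices h : mv E α ⊆ orbit E y by
    refine Set.Subset.antisymm ?_ (by rwa [orbit_eq_iff.2 (h hx)])
    rintro _ ⟨e, rfl⟩; exact smul_mem_mv _ hx
  obtain ⟨g, h1, rfl⟩ := hX y hy z hz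
  rcases qs_dich hq (M := fixingSubgroup G (orbit E y)ᶜ) (fun e he => mem_normalizer_fintype
    fun k hk => (mem_fixingSubgroup_iff _).2 fun w hw => by
      rw [mul_smul, mul_smul, (mem_fixingSubgroup_iff _).1 hk, smul_inv_smul]
      exact fun k => hw (by simpa [Subgroup.mk_smul] using mem_orbit_of_mem_orbit (⟨e, he⟩ : E) k))
    with h | h
  · rintro w ⟨e, he, hw⟩
    exact by_contra fun k => hw ((mem_fixingSubgroup_iff _).1 (h he) w k)
  · exact absurd (h ((mem_fixingSubgroup_iff _).2 fun w hw => h1 w fun k =>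
      hw (jor_subset_orbit hq hX h4 hy (hs hy) k))) (not_mem_centralizer hq hX h4 h1 (hs hy) hyz.symm)

theorem le_of_normal (hc : centralizer (E : Set G) ≤ E) [M.Normal] (hM : M ≠ ⊥) : E ≤ M := by
  refine (qs_dich hq le_normalizer_of_normal).resolve_right fun h => ?_
  obtain ⟨⟨m, hm⟩, h1⟩ := ne_bot_iff_exists_ne_one.1 hM
  have h3 : ∀ z ∈ mv E α, m • z ≠ z := fun z hz => by
    obtain ⟨x, hx, k⟩ : ∃ x ∈ mv E α, m • x ≠ x := by
      by_contra! k
      exact h1 (Subtype.ext (eq_one_of_fix_mv hc k))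
    exact smul_ne_of_centralizer (h hm) k ((orbit_eq_mv hq hX h4 h2 hs hx).ge hz)
  have h5 : ∀ z : α, m • z ∈ orbit M z := fun z => ⟨⟨m, hm⟩, rfl⟩
  obtain ⟨x, hx, y, hy, hxy, h6⟩ : ∃ x ∈ X, ∃ y ∈ X, y ≠ x ∧
      ((∃ z, orbit M z ⊆ X) → y = m • x) := by
    by_cases k : ∃ z, orbit M z ⊆ X
    · obtain ⟨z, hz⟩ := k
      exact ⟨z, hz (mem_orbit_self z), _, hz (h5 z), h3 z (hs (hz (mem_orbit_self z))), fun _ => rfl⟩
    · obtain ⟨x, hx, y, hy, hxy⟩ := h2
      exact ⟨x, hx, y, hy, hxy.symm, fun k' => absurd k' k⟩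
  obtain ⟨g, h7, rfl⟩ := hX x hx y hy
  have h8 : g ∈ orbKer M α := fun z => by
    by_cases k : orbit M z ⊆ X
    swap
    · obtain ⟨w, hw, hw'⟩ := Set.not_subset.1 k
      have := smul_mem_orbit_normal g (mem_orbit_symm.1 hw)
      rwa [h7 w hw', orbit_eq_iff.2 hw] at this
    have h9 : orbit M (g • x) = orbit M x := orbit_eq_iff.2 (h6 ⟨z, k⟩ ▸ h5 x)
    by_cases k' : z ∈ orbit M x
    · rw [orbit_eq_iff.2 k', ← h9]; exact smul_mem_orbit_normal g k'
    have hz := k (mem_orbit_self z)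
    have h10 : m • z ∉ orbit M x := fun e => k' (orbit_eq_iff.2 e ▸ mem_orbit_symm.1 (h5 z))
    have a1 : x ∈ orbit M x := mem_orbit_self x
    have a2 : g • x ∈ orbit M x := by rw [← h9]; exact mem_orbit_self _
    have : ({x, g • x, z, m • z} : Set α) = X := Set.eq_of_subset_of_ncard_le
      (by simp [Set.insert_subset_iff, hx, hy, hz, k (h5 z)]) (h4.trans_eq (Set.ncard_eq_four.2
        ⟨_, _, _, _, hxy.symm, ne_of_mem_of_not_mem a1 k', ne_of_mem_of_not_mem a1 h10,
          ne_of_mem_of_not_mem a2 k', ne_of_mem_of_not_mem a2 h10, (h3 z (hs hz)).symm, rfl⟩).symm)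
    have h11 : g • z ∉ orbit M x := fun e => k' (by
      simpa using smul_mem_orbit_normal g⁻¹ (h9.ge e))
    rcases this.ge (smul_mem_of_fix h7 hz) with e | e | e | e
    · exact absurd (e.symm ▸ a1) h11
    · exact absurd (e.symm ▸ a2) h11
    · rw [e]; exact mem_orbit_self z
    · rw [e]; exact h5 z
  rcases qs_dich hq (M := orbKer M α) le_normalizer_of_normal with k | k
  swap
  · exact not_mem_centralizer hq hX h4 h7 (hs hx) hxy (k h8)
  refine qs_not_le_centralizer hq fun e he => ?_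
  obtain ⟨⟨n, hn⟩, h9⟩ := k he x
  rw [mul_inv_eq_one.1 (eq_one_of_fix_mv (α := α) hc (g := e * n⁻¹) fun z hz => ?_)]
  · exact h hn
  obtain ⟨⟨e', he'⟩, rfl⟩ := (orbit_eq_mv hq hX h4 h2 hs (smul_mem_mv n (hs hx))).ge hz
  obtain ⟨⟨n', hn'⟩, h10⟩ := k he' (n • x)
  simp only [Subgroup.mk_smul] at h9 h10 ⊢
  rw [← h10, ← mul_smul, mul_assoc, ← h (inv_mem hn) n' (hc (h hn')), ← mul_assoc, h hn' e he,
    mul_smul, mul_smul, inv_smul_smul, ← h9]

omit hq hX h4 h2 hs in
theorem nonempty_equiv_alt {β : Type*} [Fintype β] [DecidableEq β] [MulAction G β]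
    [FaithfulSMul G β] (hq : IsQuasisimple E) (h5 : 5 ≤ Nat.card β)
    (h : alternatingGroup β ≤ (toPermHom G β).range) :
    Nonempty (E ≃* alternatingGroup (Fin (Nat.card β))) := by
  have hi : Function.Injective (toPermHom G β) := toPerm_injective
  have h1 : E.map (toPermHom G β) ≤ alternatingGroup β := by
    rw [← qs_commutator_self hq, map_commutator]
    exact (commutator_mono le_top le_top).trans alternatingGroup.commutator_perm_le
  haveI : ((E.map (toPermHom G β)).subgroupOf (alternatingGroup β)).Normal :=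
    (normal_subgroupOf_iff h1).2 (by
      rintro _ a ⟨e, he, rfl⟩ ha
      obtain ⟨g, rfl⟩ := h ha
      exact ⟨_, Normal.conj_mem inferInstance e he g, by simp only [map_mul, map_inv]⟩)
  have h3 : E.map (toPermHom G β) = alternatingGroup β := h1.antisymm (subgroupOf_eq_top.1
    ((alternatingGroup.normal_subgroup_eq_bot_or_eq_top h5).resolve_left fun k => qs_ne_bot hq
      ((map_eq_bot_iff_of_injective _ hi).1 ((subgroupOf_eq_bot.1 k).eq_bot_of_le h1))))
  exact ⟨((E.equivMapOfInjective _ hi).trans (MulEquiv.subgroupCongr h3)).trans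
    (Finite.equivFin β).altCongrHom⟩

omit hq hX h4 h2 hs in
theorem alt_le_of_eight {β : Type*} [Fintype β] [DecidableEq β] [MulAction G β]
    [FaithfulSMul G β] (hq : IsQuasisimple E) (h8 : Nat.card β = 8) [IsPretransitive E β]
    (hE : ∀ M : Subgroup G, M.Normal → M ≠ ⊥ → E ≤ M) {Γ : Finset β} (hΓ : Jor G (Γ : Set β))
    (h4 : Γ.card = 4) (h : 64 ∣ Nat.card G) : alternatingGroup β ≤ (toPermHom G β).range := by
  have hi : Function.Injective (toPermHom G β) := toPerm_injective
  have hqp : ∀ M : Subgroup G, M.Normal → M ≠ ⊥ → IsPretransitive M β := fun M h1 h2 =>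
    ⟨fun a b => (exists_smul_eq E a b).elim fun e he => ⟨⟨e, hE M h1 h2 e.2⟩, he⟩⟩
  haveI : IsPretransitive G β := ⟨fun a b => (exists_smul_eq E a b).elim fun e he => ⟨e, he⟩⟩
  have hp : IsPreprimitive G β := by
    by_contra k
    obtain ⟨B, f, h1, h2, h3, _⟩ := exists_quot_of_not_prim k
    haveI := quasi_faithful hqp h1 h2
    haveI := Finite.of_surjective f h2
    have h5 : Nat.card (orbit G B) ≤ 7 := by
      by_contra! k
      exact h3 ((h2.bijective_of_nat_card_le (by omega)).1)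
    exact absurd (h.trans ((Perm.card_dvd_factorial G (orbit G B)).trans
      (Nat.factorial_dvd_factorial h5))) (by decide)
  have hns := isQuasisimple_not_isSolvable hq
  obtain ⟨x⟩ : Nonempty β := (Nat.card_pos_iff.1 (by omega)).1
  have h7 : 7 ∣ Nat.card E := by
    haveI := is_one_pretransitive_iff.1 ((SubMulAction.ofStabilizer.isMultiplyPretransitive
      (a := x)).1 (hΓ.two hp (by omega) (by rw [← Nat.card_eq_fintype_card]; omega)))
    have h1 : Nat.card (SubMulAction.ofStabilizer G x) = 7 := by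
      have := SubMulAction.nat_card_ofStabilizer_add_one_eq G x; omega
    haveI := IsPreprimitive.of_prime_card (G := stabilizer G x) (h1 ▸ Nat.prime_seven)
    have h2 : Nat.card (E.subgroupOf (stabilizer G x)) * 8 = Nat.card E := by
      rw [← h8, ← index_stabilizer_of_transitive E x, ← card_mul_index (stabilizer E x)]
      exact congrArg (· * _) (Nat.card_congr ⟨fun a => ⟨⟨a.1.1, a.2⟩, a.1.2⟩,
        fun a => ⟨⟨a.1.1, a.2⟩, a.1.2⟩, fun _ => rfl, fun _ => rfl⟩)
    by_cases k : fixedPoints (E.subgroupOf (stabilizer G x)) (SubMulAction.ofStabilizer G x) = .univ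
    · refine absurd (Char.isSolvable_of_card_dvd_pow_mul_pow E (a := 3) (b := 0) Nat.prime_two
        Nat.prime_three ?_) hns
      suffices h : Subsingleton (E.subgroupOf (stabilizer G x)) by
        rw [← h2, Nat.card_eq_one_iff_unique.2 ⟨h, inferInstance⟩]; rfl
      refine ⟨fun a b => Subtype.ext (Subtype.ext (eq_of_smul_eq_smul fun z : β => ?_))⟩
      by_cases hz : z = x
      · rw [hz, a.1.2, b.1.2]
      · exact (congrArg Subtype.val (k.ge (Set.mem_univ ⟨z, hz⟩) a)).trans
          (congrArg Subtype.val (k.ge (Set.mem_univ ⟨z, hz⟩) b)).symm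
    haveI := IsQuasiPreprimitive.isPretransitive_of_normal k
    obtain ⟨y⟩ : Nonempty (SubMulAction.ofStabilizer G x) := (Nat.card_pos_iff.1 (by omega)).1
    rw [← h2, ← h1, ← index_stabilizer_of_transitive (E.subgroupOf (stabilizer G x)) y]
    exact (index_dvd_card _).mul_right _
  have hd : Nat.card G ∣ 40320 := by have := Perm.card_dvd_factorial G β; rwa [h8] at this
  haveI := Fact.mk Nat.prime_seven
  obtain ⟨⟨g, hg⟩, hg7⟩ := exists_prime_orderOf_dvd_card' 7 h7
  rw [orderOf_mk] at hg7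
  have h49 : ¬ 7 ^ 2 ∣ Nat.card G := fun k => absurd (k.trans hd) (by decide)
  obtain ⟨j, -, hj, -, h1, -⟩ := sylow_count hg7 h49
  have h2 : Nat.card (centralizer ({g} : Set G)) ∣ 7 := by
    obtain ⟨i, h0, h2, h3⟩ := exists_card_support_eq Nat.prime_seven
      ((orderOf_injective _ hi g).trans hg7)
    have h5 := (toPermHom G β g).support.card_le_univ
    rw [← Nat.card_eq_fintype_card] at h5
    obtain rfl : i = 1 := by omega
    have h6 := nat_card_centralizer (toPermHom G β g)
    rw [h2, ← Nat.card_eq_fintype_card, h8] at h6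
    rw [← card_map_of_injective hi]
    refine (card_dvd_of_le ?_).trans (h6.trans (by simp)).dvd
    rintro _ ⟨c, hc, rfl⟩
    exact mem_centralizer_singleton_iff.2 ((show Commute c g from
      mem_centralizer_singleton_iff.1 hc).map _)
  have h3 : E.index ∣ 7 * 6 := by
    have := Sylow.normalizer_sup_eq_top' ((isPGroup_zpowers_of_orderOf hg7).toSylow
      (not_dvd_index_zpowers hg7 h49)) (zpowers_le.2 hg)
    rw [← relIndex_top_right, ← this, relIndex_sup_right]
    exact (relIndex_dvd_card _ _).trans (h1 ▸ mul_dvd_mul h2 hj)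
  obtain ⟨k, hk⟩ : 32 ∣ Nat.card E := by
    rw [← E.card_mul_index] at h
    have := h.trans (Nat.mul_dvd_mul_left _ h3)
    omega
  have h5 : Nat.card (E.map (toPermHom G β)) = 32 * k := (card_map_of_injective hi).trans hk
  refine (alternatingGroup_le_of_index_le_two (G := E.map (toPermHom G β)) ?_).trans
    (map_le_range _ _)
  by_contra! h6
  have h9 := card_le_index (by omega) h6
  have h10 := (E.map (toPermHom G β)).card_mul_index
  rw [h5, Nat.card_perm, h8] at h10
  haveI := isSimpleGroup_of_isQuasisimple hq (by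
    by_contra k
    haveI : ((center E).map E.subtype).Normal := ConjAct.normal_of_characteristic_of_normal
    refine qs_not_le_centralizer hq ((hE _ this ?_).trans ((map_center_subtype E).le.trans
      inf_le_right))
    rwa [Ne, map_eq_bot_iff_of_injective _ E.subtype_injective])
  have h11 := Small.not_excl (B := 71) (isQuasisimple_not_isMulCommutative hq) ⟨16 * k, by omega⟩
  have h12 := List.all_eq_true.1 (show (List.range 158).all (fun k => 40320 % (32 * k) != 0 ||
    Small.excl 71 (32 * k)) = true by decide +kernel) k (List.mem_range.2 (by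
      have : 32 * k * 8 ≤ 40320 := (Nat.mul_le_mul_left _ (h8 ▸ h9)).trans h10.le
      omega))
  rw [← hk, h11, hk, Nat.mod_eq_zero_of_dvd (Dvd.intro _ h10 : _ ∣ 40320)] at h12
  simp at h12

theorem nonempty_equiv_alt_mv (hc : centralizer (E : Set G) ≤ E) {x : α} (hx : x ∈ mv E α)
    [Fintype (orbit G x)] [DecidableEq (orbit G x)]
    (H : orbit G x = mv E α → FaithfulSMul G (orbit G x) → IsPretransitive E (orbit G x) →
      alternatingGroup (orbit G x) ≤ (toPermHom G (orbit G x)).range) :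
    Nonempty (E ≃* alternatingGroup (Fin (mv E α).ncard)) := by
  have h1 := orbit_eq_mv hq hX h4 h2 hs hx
  have h3 : orbit G x = mv E α := Set.Subset.antisymm
    (by rintro _ ⟨g, rfl⟩; exact smul_mem_mv g hx) (h1.ge.trans (orbit_subgroup_subset E x))
  haveI : FaithfulSMul G (orbit G x) := ⟨fun {a b} h => inv_mul_eq_one.1
    (eq_one_of_fix_mv (α := α) hc fun z hz => by
      rw [mul_smul, inv_smul_eq_iff]; exact (congrArg Subtype.val (h ⟨z, h3.ge hz⟩)).symm)⟩
  rw [← h3, ← Nat.card_coe_set_eq]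
  refine nonempty_equiv_alt hq ?_ (H h3 this ⟨fun a b => ?_⟩)
  · rw [Nat.card_coe_set_eq, h3, ← h1]; exact five_le_orbit hq hx
  · obtain ⟨e, he⟩ := (orbit_eq_mv hq hX h4 h2 hs (h3.le a.2)).ge (h3.le b.2)
    exact ⟨e, Subtype.ext he⟩

omit [Finite α] hX h4 h2 hs [E.Normal] [Finite G] in
theorem mv_nonempty : (mv E α).Nonempty := by
  obtain ⟨⟨e, he⟩, h⟩ := ne_bot_iff_exists_ne_one.1 (qs_ne_bot hq)
  obtain ⟨x, hx⟩ := exists_smul_ne (α := α) (g := e) fun k => h (Subtype.ext k)
  exact ⟨x, e, he, hx⟩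

omit [FaithfulSMul G α] hX h4 h2 hs [Finite G] in
theorem five_le_mv (h : (mv E α).Nonempty) : 5 ≤ (mv E α).ncard := by
  obtain ⟨x, hx⟩ := h
  refine (five_le_orbit hq hx).trans (Set.ncard_le_ncard ?_)
  rintro _ ⟨e, rfl⟩; exact smul_mem_mv _ hx

end Cfsg.Lib.Alt
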