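import Cfsg.Agent.Lib.Alt.QsOver

/-!
# Overgroups of Sylow 2- and 3-subgroups of alternating groups with quasisimple `F*`
-/

set_option autoImplicit false

namespace Cfsg.Lib.Alt

open Equiv Equiv.Perm MulAction Subgroup Cfsg.Lib.Perm Cfsg.Lib.Comp

variable {α : Type*} [Fintype α] [DecidableEq α] {K : Subgroup (Perm α)} {E : Subgroup K}
  [E.Normal] {p : ℕ}

omit [DecidableEq α] in
theorem le_stabS_mv : K ≤ stabS (mv E α) := fun g hg =>
  mem_stabS_of_maps fun _ hx => smul_mem_mv (⟨g, hg⟩ : K) hx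

omit [DecidableEq α] in
theorem le_stabS_mv_compl : K ≤ stabS (mv E α)ᶜ := fun g hg x => (le_stabS_mv hg x).not

theorem full_of_sylow_perm [Fact p.Prime] (P : Sylow p (Perm α)) : Full p (P : Subgroup (Perm α)) :=
  fun h => P.not_dvd_index (h.trans (by
    have h1 := relIndex_inf_mul_relIndex (P : Subgroup (Perm α)) (alternatingGroup α)
      (P ⊔ alternatingGroup α)
    have h2 := relIndex_inf_mul_relIndex (alternatingGroup α) (P : Subgroup (Perm α))
      (P ⊔ alternatingGroup α)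
    rw [inf_eq_left.2 le_sup_right, relIndex_sup_right] at h1
    rw [inf_eq_left.2 le_sup_left, inf_comm, ← h1, mul_comm] at h2
    rw [← Nat.eq_of_mul_eq_mul_right (Nat.pos_of_ne_zero FiniteIndex.index_ne_zero) h2]
    exact Dvd.intro _ (relIndex_mul_index le_sup_left)))

theorem full_of_sylow_alt [Fact p.Prime] (P : Sylow p (alternatingGroup α)) :
    Full p ((P : Subgroup (alternatingGroup α)).map (alternatingGroup α).subtype) := by
  rw [Full, relIndex, ← comap_subtype, comap_map_eq_self_of_injective (subtype_injective _)]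
  exact P.not_dvd_index

theorem PCyc.ncard {c : Perm α} (h : PCyc p c) : {y | c y ≠ y}.ncard = p := by
  rw [← h.2, ← Set.ncard_coe_finset]; congr 1; ext; simp

theorem PCyc.jor {c : Perm α} (h : PCyc p c) (hc : c ∈ K) : Jor K {y | c y ≠ y} := fun x hx y hy => by
  obtain ⟨i, hi⟩ := h.1.exists_pow_eq hx hy
  exact ⟨⟨c ^ i, pow_mem hc i⟩, fun z hz => pow_apply_eq_self_of_apply_eq_self (not_not.1 hz) i, hi⟩

theorem qs_of_full_three (hq : IsQuasisimple E) (hc : centralizer (E : Set K) ≤ E) (h : Full 3 K) :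
    (mv E α)ᶜ.ncard < 3 ∧ Nonempty (E ≃* alternatingGroup (Fin (mv E α).ncard)) := by
  classical
  refine ⟨?_, ?_⟩
  · by_contra! k
    obtain ⟨c, h1, h2, h3⟩ := h.exists_pCyc Nat.prime_three (by decide) le_stabS_mv_compl k
    exact h2.1.ne_one (congrArg Subtype.val (eq_one_of_fix_mv hc (g := ⟨c, h1⟩)
      fun x hx => h3 x (not_not.2 hx)))
  obtain ⟨c, h1, h2, h3⟩ := h.exists_pCyc Nat.prime_three (by decide) (le_stabS_mv (E := E))
    (le_trans (by decide) (five_le_mv hq (mv_nonempty hq)))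
  have h4 := h2.ncard
  have h5 : {y | c y ≠ y}.Nontrivial := Set.one_lt_ncard_iff_nontrivial.1 (by omega)
  have h6 : {y | c y ≠ y} ⊆ mv E α := fun y hy => by_contra fun k => hy (h3 y k)
  obtain ⟨x, hx⟩ := h5.nonempty
  refine nonempty_equiv_alt_mv hq (h2.jor h1) (by omega) h5 h6 hc (h6 hx) fun e _ _ a ha => ?_
  haveI : ((cycGen K 3).subgroupOf K).Normal := (normal_subgroupOf_iff cycGen_le).2 fun m g hm hg =>
    (show cycGen K 3 ≤ (cycGen K 3).comap (MulAut.conj g).toMonoidHom from (closure_le _).2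
      fun c h => subset_closure ⟨K.mul_mem (K.mul_mem hg h.1) (K.inv_mem hg), h.2.conj g⟩) hm
  have h7 := le_of_normal hq (h2.jor h1) (by omega) h5 h6 hc (M := (cycGen K 3).subgroupOf K)
    (ne_bot_iff_exists_ne_one.2 ⟨⟨⟨c, h1⟩, subset_closure ⟨h1, h2⟩⟩, fun k =>
      h2.1.ne_one (congrArg (·.1.1) k)⟩)
  refine ⟨⟨ofSubtype a, mem_of_fix_compl_orbit h2 h1 hx ((sign_ofSubtype a).trans ha) fun z hz =>
    ofSubtype_apply_of_not_mem a fun k => hz ?_⟩,
    Equiv.ext fun z => Subtype.ext (ofSubtype_apply_of_mem a z.2)⟩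
  obtain ⟨m, rfl⟩ := (orbit_eq_mv hq (h2.jor h1) (by omega) h5 h6 (h6 hx)).ge (e.le k)
  exact ⟨⟨m.1.1, h7 m.2⟩, rfl⟩

omit [Fintype α] [DecidableEq α] in
theorem SwJ.jor {X : Set α} (h : SwJ K X) : Jor K X := fun x hx y hy =>
  (h x hx y hy).elim fun g hg => ⟨⟨g, hg.1⟩, hg.2.1, hg.2.2.1⟩

theorem qs_of_full_two (hq : IsQuasisimple E) (hc : centralizer (E : Set K) ≤ E) (h : Full 2 K)
    (h8 : 8 ≤ Nat.card α) (h64 : 64 ∣ Nat.card K) :
    (mv E α)ᶜ.ncard < 4 ∧ Nonempty (E ≃* alternatingGroup (Fin (mv E α).ncard)) := by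
  classical
  have h0 : (mv E α)ᶜ.ncard < 4 := by
    by_contra! k
    obtain ⟨X, h1, h2, h3⟩ := h.exists_swJ le_stabS_mv_compl le_rfl k
    obtain ⟨x, hx, y, hy, hxy⟩ := (Set.one_lt_ncard_iff_nontrivial (s := X)).1 (by omega)
    obtain ⟨g, h4, h5, rfl, -⟩ := h3 x hx y hy
    exact hxy (congrArg (fun g : K => g.1 x) (eq_one_of_fix_mv hc (g := ⟨g, h4⟩)
      fun x hx => h5 x fun k => h1 k hx)).symm
  refine ⟨h0, ?_⟩
  have h5 := five_le_mv hq (mv_nonempty (α := α) hq)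
  obtain ⟨X, h1, h2, h3⟩ := h.exists_swJ (le_stabS_mv (E := E)) le_rfl (le_trans (by decide) h5)
  have h4 : X.Nontrivial := Set.one_lt_ncard_iff_nontrivial.1 (by omega)
  obtain ⟨x, hx⟩ := h4.nonempty
  have hE : ∀ M : Subgroup K, M.Normal → M ≠ ⊥ → E ≤ M := fun M _ =>
    le_of_normal (M := M) hq h3.jor h2.le h4 h1 hc
  refine nonempty_equiv_alt_mv hq h3.jor h2.le h4 h1 hc (h1 hx) fun e _ _ => ?_
  let Γ : Finset (orbit K x) := Finset.univ.filter (·.1 ∈ X)
  have h6 : Jor K (Γ : Set (orbit K x)) := fun a ha b hb => by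
    obtain ⟨g, h7, h9⟩ := h3.jor a (by simpa [Γ] using ha) b (by simpa [Γ] using hb)
    exact ⟨g, fun z hz => Subtype.ext (h7 z (by simpa [Γ] using hz)), Subtype.ext h9⟩
  have h7 : Γ.card = 4 := by
    rw [← Set.ncard_coe_finset, ← Set.ncard_image_of_injective _ Subtype.val_injective]
    refine Eq.trans (congrArg _ (Set.ext fun z => ⟨?_, fun hz => ?_⟩)) h2
    · rintro ⟨a, ha, rfl⟩; simpa [Γ] using ha
    · exact ⟨⟨z, e.ge (h1 hz)⟩, by simpa [Γ] using hz, rfl⟩
  have h9 : Nat.card (orbit K x) = (mv E α).ncard := by rw [Nat.card_coe_set_eq, e]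
  by_cases h10 : 8 < (mv E α).ncard
  · exact marggraf_quasi _ rfl (fun M h1 h2 => ⟨fun a b => (exists_smul_eq E a b).elim
      fun e he => ⟨⟨e, hE M h1 h2 e.2⟩, he⟩⟩) h6 (by omega)
      (by rw [← Nat.card_eq_fintype_card]; omega)
  refine alt_le_of_eight hq (h9.trans ?_) hE h6 h7 h64
  have h11 := h.not_dvd_choose (Set.subset_univ _) (h4.mono h1) le_stabS_mv fun _ _ _ => Iff.rfl
  have h12 := Set.ncard_add_ncard_compl (mv E α)
  rw [Set.ncard_univ, ← h12] at h11
  rw [← h12] at h8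
  generalize (mv E α).ncard = m at *
  generalize (mv E α)ᶜ.ncard = k at *
  by_contra h13
  have : m ≤ 7 := by omega
  interval_cases m <;> interval_cases k <;> first | omega | exact h11 (by decide)

end Cfsg.Lib.Alt
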