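import Cfsg.Agent.Lib.Alt.SylNorm
import Cfsg.Agent.Lib.Alt.RealSylow

/-! Structure of Sylow 2-subgroups of symmetric groups: pairs, orbits, restrictions. -/

set_option autoImplicit false
set_option linter.unusedSectionVars false

namespace Cfsg.Lib.Alt.SylDec

open Equiv Equiv.Perm Subgroup MulAction Finset

variable {Ω : Type} [Fintype Ω] [DecidableEq Ω]

/-- The transposition of the pair through `y`. -/
def tau (z : Perm Ω) (y : Ω) : Perm Ω := swap y (z y)

/-- `x` lies in the pair of `y`. -/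
def Pr (z : Perm Ω) (x y : Ω) : Prop := x = y ∨ x = z y

/-- `x` lies in the orbit of `y`. -/
def Ob (T : Sylow 2 (Perm Ω)) (x y : Ω) : Prop := ∃ t ∈ (T : Subgroup (Perm Ω)), t y = x

/-- The orbit of `y` is inside its pair. -/
def Small (T : Sylow 2 (Perm Ω)) (z : Perm Ω) (y : Ω) : Prop :=
  ∀ t ∈ (T : Subgroup (Perm Ω)), Pr z (t y) y

/-- The even part. -/
def ev (T : Sylow 2 (Perm Ω)) : Subgroup (Perm Ω) := (T : Subgroup (Perm Ω)) ⊓ alternatingGroup Ω

/-- `σ` is the restriction of `g` to `D`. -/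
def Res (D : Ω → Prop) (g σ : Perm Ω) : Prop := (∀ x, D x → σ x = g x) ∧ ∀ x, ¬ D x → σ x = x

/-- The pairing attached to a Sylow 2-subgroup. -/
structure St (T : Sylow 2 (Perm Ω)) (z : Perm Ω) : Prop where
  hz : ∀ w, z (z w) = w
  hu : ∀ a b, z a = a → z b = b → a = b
  hc : ∀ t ∈ (T : Subgroup (Perm Ω)), ∀ w, z (t w) = t (z w)
  hb : ∀ σ : Perm Ω, (∀ x, Pr z (σ x) x) → σ ∈ (T : Subgroup (Perm Ω))

theorem exists_st (T : Sylow 2 (Perm Ω)) : ∃ z, St T z := by
  obtain ⟨z, hz, h1, h2, h3⟩ := SylNorm.exists_pairing T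
  exact ⟨z, hz, h1, h2, fun σ h => h3 h⟩

variable {T : Sylow 2 (Perm Ω)} {z : Perm Ω} {x y u w : Ω} {t c g : Perm Ω}

theorem Pr.rfl : Pr z x x := Or.inl (Eq.refl _)

theorem Ob.rfl : Ob T x x := ⟨1, one_mem _, Eq.refl _⟩

theorem Ob.symm (h : Ob T x y) : Ob T y x := by
  obtain ⟨t, ht, rfl⟩ := h
  exact ⟨t⁻¹, inv_mem ht, by simp⟩

theorem Ob.trans (h : Ob T x y) (h' : Ob T y w) : Ob T x w := by
  obtain ⟨t, ht, rfl⟩ := h
  obtain ⟨s, hs, rfl⟩ := h'
  exact ⟨t * s, mul_mem ht hs, Eq.refl _⟩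

theorem ob_apply (ht : t ∈ (T : Subgroup (Perm Ω))) : Ob T (t x) y ↔ Ob T x y :=
  ⟨fun h => (Ob.symm ⟨t, ht, rfl⟩).trans h, fun h => Ob.trans ⟨t, ht, rfl⟩ h⟩

theorem tau_self : tau z y y = z y := swap_apply_left _ _

theorem tau_of_not (h : ¬ Pr z x y) : tau z y x = x :=
  swap_apply_of_ne_of_ne (fun e => h (Or.inl e)) fun e => h (Or.inr e)

theorem tau_mul_self : tau z y * tau z y = 1 := swap_mul_self _ _

theorem sign_tau (h : z y ≠ y) : sign (tau z y) = -1 := sign_swap h.symm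

theorem mem_ev : g ∈ ev T ↔ g ∈ (T : Subgroup (Perm Ω)) ∧ sign g = 1 := by
  simp [ev, mem_alternatingGroup]

theorem Res.unique {D : Ω → Prop} {σ σ' : Perm Ω} (h : Res D g σ) (h' : Res D g σ') : σ = σ' := by
  ext x
  by_cases hx : D x
  · rw [h.1 x hx, h'.1 x hx]
  · rw [h.2 x hx, h'.2 x hx]

theorem Res.mul {D : Ω → Prop} {a b σ σ' : Perm Ω} (hD : ∀ x, D x → D (b x)) (h : Res D a σ)
    (h' : Res D b σ') : Res D (a * b) (σ * σ') :=
  ⟨fun x hx => by rw [Perm.mul_apply, Perm.mul_apply, h'.1 x hx, h.1 _ (hD x hx)],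
    fun x hx => by rw [Perm.mul_apply, h'.2 x hx, h.2 x hx]⟩

theorem mem_of_normalizes (hg : g * g = 1) (h : ∀ t ∈ (T : Subgroup (Perm Ω)),
    g * t * g ∈ (T : Subgroup (Perm Ω))) : g ∈ (T : Subgroup (Perm Ω)) := by
  have hi : g⁻¹ = g := inv_eq_of_mul_eq_one_left hg
  have h1 : IsPGroup 2 (zpowers g) := by
    rintro ⟨_, n, rfl⟩
    refine ⟨1, Subtype.ext ?_⟩
    change (g ^ n) ^ (2 ^ 1) = 1
    rw [← zpow_natCast, ← zpow_mul, mul_comm, zpow_mul, zpow_natCast, pow_one, sq, hg, one_zpow]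
  have h2 : zpowers g ≤ normalizer ((T : Subgroup (Perm Ω)) : Set (Perm Ω)) := by
    rw [zpowers_le, mem_normalizer_iff]
    refine fun t => ⟨fun ht => hi.symm ▸ h t ht, fun ht => ?_⟩
    have := h _ ht
    rwa [hi, ← mul_assoc, ← mul_assoc, hg, one_mul, mul_assoc, hg, mul_one] at this
  have h3 := T.is_maximal' (IsPGroup.to_sup_of_normal_right' h1 T.isPGroup' h2) le_sup_right
  exact h3 ▸ mem_sup_left (mem_zpowers g)

theorem exists_res {D : Ω → Prop} (hD : ∀ t ∈ (T : Subgroup (Perm Ω)), ∀ x, D (t x) ↔ D x)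
    (ht : t ∈ (T : Subgroup (Perm Ω))) : ∃ σ ∈ (T : Subgroup (Perm Ω)), Res D t σ := by
  classical
  let R : Subgroup (Perm Ω) :=
    { carrier := {σ | ∃ a ∈ (T : Subgroup (Perm Ω)), ∃ b ∈ (T : Subgroup (Perm Ω)),
        (∀ x, D x → σ x = a x) ∧ ∀ x, ¬ D x → σ x = b x}
      one_mem' := ⟨1, one_mem _, 1, one_mem _, fun _ _ => rfl, fun _ _ => rfl⟩
      mul_mem' := by
        rintro σ σ' ⟨a, ha, b, hb, h1, h2⟩ ⟨a', ha', b', hb', h1', h2'⟩
        refine ⟨a * a', mul_mem ha ha', b * b', mul_mem hb hb', fun x hx => ?_, fun x hx => ?_⟩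
        · rw [Perm.mul_apply, h1' x hx, h1 _ ((hD a' ha' x).2 hx), Perm.mul_apply]
        · rw [Perm.mul_apply, h2' x hx, h2 _ (mt (hD b' hb' x).1 hx), Perm.mul_apply]
      inv_mem' := by
        rintro σ ⟨a, ha, b, hb, h1, h2⟩
        refine ⟨a⁻¹, inv_mem ha, b⁻¹, inv_mem hb, fun x hx => ?_, fun x hx => ?_⟩
        · rw [Perm.inv_eq_iff_eq, h1 _ ((hD _ (inv_mem ha) x).2 hx)]; simp
        · rw [Perm.inv_eq_iff_eq, h2 _ (mt (hD _ (inv_mem hb) x).1 hx)]; simp }
  have hR : IsPGroup 2 R := by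
    rintro ⟨σ, a, ha, b, hb, h1, h2⟩
    obtain ⟨k, hk⟩ := T.isPGroup'.exists_card_eq
    have e : ∀ m : ℕ, (∀ x, D x → (σ ^ m) x = (a ^ m) x) ∧ ∀ x, ¬ D x → (σ ^ m) x = (b ^ m) x := by
      intro m
      induction m with
      | zero => exact ⟨fun _ _ => rfl, fun _ _ => rfl⟩
      | succ m ih =>
        refine ⟨fun x hx => ?_, fun x hx => ?_⟩
        · rw [pow_succ, pow_succ, Perm.mul_apply, Perm.mul_apply, h1 x hx, ih.1 _ ((hD a ha x).2 hx)]
        · rw [pow_succ, pow_succ, Perm.mul_apply, Perm.mul_apply, h2 x hx,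
            ih.2 _ (mt (hD b hb x).1 hx)]
    have e1 : ∀ a ∈ (T : Subgroup (Perm Ω)), a ^ 2 ^ k = 1 := fun a ha =>
      congrArg Subtype.val (hk ▸ pow_card_eq_one' (x := (⟨a, ha⟩ : (T : Subgroup (Perm Ω)))))
    refine ⟨k, Subtype.ext (Equiv.ext fun x => ?_)⟩
    change (σ ^ 2 ^ k) x = x
    by_cases hx : D x
    · rw [(e _).1 x hx, e1 a ha]; rfl
    · rw [(e _).2 x hx, e1 b hb]; rfl
  have h3 := T.is_maximal' hR fun a ha => ⟨a, ha, a, ha, fun _ _ => rfl, fun _ _ => rfl⟩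
  have h4 : Res D t (ofSubtype (t.subtypePerm (hD t ht))) :=
    ⟨fun x hx => ofSubtype_subtypePerm_of_mem _ hx, fun x hx =>
      ofSubtype_subtypePerm_of_not_mem _ hx⟩
  exact ⟨_, h3 ▸ ⟨t, ht, 1, one_mem _, h4.1, h4.2⟩, h4⟩

theorem filter_sdiff_distrib_aux (s F : Finset Ω) (p : Ω → Prop) [DecidablePred p] :
    (s \ F).filter p = s.filter p \ F := by
  ext x; simp only [mem_filter, mem_sdiff]; tauto

namespace St
variable (h : St T z)
include h

theorem pr_symm (e : Pr z x y) : Pr z y x := by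
  rcases e with rfl | rfl
  · exact Pr.rfl
  · exact Or.inr (h.hz y).symm

theorem pr_trans (e : Pr z x y) (e' : Pr z y w) : Pr z x w := by
  rcases e with rfl | rfl
  · exact e'
  · rcases e' with rfl | rfl
    · exact Or.inr rfl
    · exact Or.inl (h.hz w)

theorem pr_z : Pr z (z x) y ↔ Pr z x y :=
  ⟨h.pr_trans (Or.inr (h.hz x).symm), h.pr_trans (Or.inr rfl)⟩

theorem pr_apply (ht : t ∈ (T : Subgroup (Perm Ω))) : Pr z (t x) (t y) ↔ Pr z x y := by
  simp only [Pr, h.hc t ht, EmbeddingLike.apply_eq_iff_eq]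

theorem ne_apply (ht : t ∈ (T : Subgroup (Perm Ω))) : z (t x) ≠ t x ↔ z x ≠ x := by
  simp only [h.hc t ht, ne_eq, EmbeddingLike.apply_eq_iff_eq]

theorem tau_of_pr (e : Pr z x y) : tau z y x = z x := by
  rcases e with rfl | rfl
  · exact tau_self
  · rw [h.hz]; exact swap_apply_right _ _

theorem pr_tau : Pr z (tau z y x) x := by
  by_cases e : Pr z x y
  · exact Or.inr (h.tau_of_pr e)
  · exact Or.inl (tau_of_not e)

theorem tau_mem : tau z y ∈ (T : Subgroup (Perm Ω)) := h.hb _ fun _ => h.pr_tau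

theorem tau_congr (e : Pr z x y) : tau z x = tau z y := by
  rcases e with rfl | rfl
  · rfl
  · rw [tau, h.hz, swap_comm]; rfl

theorem conj_tau (ht : t ∈ (T : Subgroup (Perm Ω))) : t * tau z y * t⁻¹ = tau z (t y) := by
  rw [tau, tau, h.hc t ht, swap_apply_apply]

theorem ob_of_pr (e : Pr z x y) : Ob T x y := by
  rcases e with rfl | rfl
  · exact Ob.rfl
  · exact ⟨_, h.tau_mem, tau_self⟩

theorem base_comm {a b : Perm Ω} (ha : ∀ x, Pr z (a x) x) (hb : ∀ x, Pr z (b x) x) :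
    a * b = b * a := by
  ext x
  simp only [Perm.mul_apply]
  rcases ha x with e | e <;> rcases hb x with e' | e' <;>
    simp only [e, e', ← h.hc a (h.hb a ha), ← h.hc b (h.hb b hb)]

theorem tau_comm : tau z y * tau z u = tau z u * tau z y :=
  h.base_comm (fun _ => h.pr_tau) fun _ => h.pr_tau

theorem tt_mem (hy : z y ≠ y) (hu : z u ≠ u) : tau z y * tau z u ∈ ev T :=
  mem_ev.2 ⟨mul_mem h.tau_mem h.tau_mem, by rw [Perm.sign_mul, sign_tau hy, sign_tau hu]; simp⟩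

theorem adj (ht : t ∈ (T : Subgroup (Perm Ω))) (hu : z u ≠ u) :
    ∃ g ∈ ev T, g = t ∨ g = t * tau z u := by
  rcases Int.units_eq_one_or (sign t) with e | e
  · exact ⟨t, mem_ev.2 ⟨ht, e⟩, Or.inl rfl⟩
  · exact ⟨_, mem_ev.2 ⟨mul_mem ht h.tau_mem, by rw [Perm.sign_mul, sign_tau hu, e]; simp⟩, Or.inr rfl⟩

theorem exists_ev (e : Ob T x y) (hu : z u ≠ u) (hy : ¬ Pr z y u) : ∃ g ∈ ev T, g y = x := by
  obtain ⟨t, ht, rfl⟩ := e
  obtain ⟨g, hg, rfl | rfl⟩ := h.adj ht hu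
  · exact ⟨g, hg, rfl⟩
  · exact ⟨_, hg, by rw [Perm.mul_apply, tau_of_not hy]⟩

theorem fix (hy : z y = y) (ht : t ∈ (T : Subgroup (Perm Ω))) : t y = y :=
  h.hu _ _ (by rw [h.hc t ht, hy]) hy

theorem small_of_fix (hy : z y = y) : Small T z y := fun _ ht => Or.inl (h.fix hy ht)

theorem ne_of_big (hy : ¬ Small T z y) : z y ≠ y := fun e => hy (h.small_of_fix e)

theorem small_of_ob (hy : Small T z y) (e : Ob T x y) : Small T z x := by
  obtain ⟨s, hs, rfl⟩ := e
  exact fun t ht => h.pr_trans (hy _ (mul_mem ht hs)) (h.pr_symm (hy s hs))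

theorem small_pr (hy : Small T z y) (ht : t ∈ (T : Subgroup (Perm Ω))) :
    Pr z (t x) y ↔ Pr z x y :=
  ⟨fun e => (h.pr_apply ht).1 (h.pr_trans e (h.pr_symm (hy t ht))),
    fun e => h.pr_trans ((h.pr_apply ht).2 e) (hy t ht)⟩

theorem exists_pair (s : Finset Ω) (hs : s.card + 1 < Fintype.card Ω) : ∃ u ∉ s, z u ≠ u := by
  by_contra hc
  push Not at hc
  have h1 : sᶜ.card ≤ 1 := card_le_one.2 fun a ha b hb =>
    h.hu a b (hc a (mem_compl.1 ha)) (hc b (mem_compl.1 hb))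
  have := card_add_card_compl s
  omega

theorem small_unique {a b : Ω} (ha : Small T z a) (hb : Small T z b) (h1 : z a ≠ a)
    (h2 : z b ≠ b) : Pr z b a := by
  by_contra hn
  have n1 : b ≠ a := fun e => hn (Or.inl e)
  have n2 : b ≠ z a := fun e => hn (Or.inr e)
  have n3 : z b ≠ a := fun e => n2 (by rw [← e, h.hz])
  have n4 : z b ≠ z a := fun e => n1 (z.injective e)
  let g := swap a b * swap (z a) (z b)
  have ga : g a = b := by simp [g, swap_apply_of_ne_of_ne, h1.symm, n3.symm]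
  have gb : g b = a := by simp [g, swap_apply_of_ne_of_ne, h2.symm, n2]
  have gza : g (z a) = z b := by simp [g, swap_apply_of_ne_of_ne, h2, n3]
  have gzb : g (z b) = z a := by simp [g, swap_apply_of_ne_of_ne, h1, n2.symm]
  have g1 : ∀ x, Pr z x a → Pr z (g x) b := by
    rintro x (rfl | rfl)
    exacts [Or.inl ga, Or.inr gza]
  have g2 : ∀ x, Pr z x b → Pr z (g x) a := by
    rintro x (rfl | rfl)
    exacts [Or.inl gb, Or.inr gzb]
  have g3 : ∀ x, ¬ Pr z x a → ¬ Pr z x b → g x = x := fun x e e' => by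
    simp only [Pr, not_or] at e e'
    simp [g, swap_apply_of_ne_of_ne, e.1, e.2, e'.1, e'.2]
  have gg : g * g = 1 := by
    ext x
    rw [Perm.mul_apply, Perm.one_apply]
    by_cases e : Pr z x a
    · rcases e with rfl | rfl
      · rw [ga, gb]
      · rw [gza, gzb]
    · by_cases e' : Pr z x b
      · rcases e' with rfl | rfl
        · rw [gb, ga]
        · rw [gzb, gza]
      · rw [g3 x e e', g3 x e e']
  have hg := mem_of_normalizes (T := T) gg fun t ht => by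
    have : g * t * g * t⁻¹ ∈ (T : Subgroup (Perm Ω)) := h.hb _ fun x => by
      simp only [Perm.mul_apply]
      by_cases e : Pr z x a
      · exact h.pr_trans (g2 _ ((h.small_pr hb ht).2 (g1 _ ((h.small_pr ha (inv_mem ht)).2 e))))
          (h.pr_symm e)
      · by_cases e' : Pr z x b
        · exact h.pr_trans (g1 _ ((h.small_pr ha ht).2 (g2 _ ((h.small_pr hb (inv_mem ht)).2 e'))))
            (h.pr_symm e')
        · rw [g3 _ (mt (h.small_pr ha (inv_mem ht)).1 e) (mt (h.small_pr hb (inv_mem ht)).1 e')]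
          exact Or.inl (by simpa using g3 x e e')
    simpa using mul_mem this ht
  exact hn (ga ▸ ha g hg)

open Classical in
theorem exists_card_ob (y : Ω) : ∃ k, (univ.filter (Ob T · y)).card = 2 ^ k := by
  obtain ⟨k, hk⟩ := T.isPGroup'.card_orbit y
  refine ⟨k, ?_⟩
  rw [← hk, ← Fintype.card_subtype, ← Nat.card_eq_fintype_card]
  exact Nat.card_congr (Equiv.subtypeEquivRight fun x =>
    ⟨fun ⟨t, ht, e⟩ => ⟨⟨t, ht⟩, e⟩, fun ⟨t, e⟩ => ⟨t, t.2, e⟩⟩)

open Classical in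
theorem big_of_card (e : 2 < (univ.filter (Ob T · y)).card) : ¬ Small T z y := fun hs => by
  have : univ.filter (Ob T · y) ⊆ {y, z y} := fun x hx => by
    obtain ⟨t, ht, rfl⟩ := (mem_filter.1 hx).2
    simpa [Pr] using hs t ht
  have := (card_le_card this).trans card_le_two
  omega

open Classical in
theorem four_dvd (hy : ¬ Small T z y) : 4 ∣ (univ.filter (Ob T · y)).card := by
  obtain ⟨k, hk⟩ := h.exists_card_ob y
  simp only [Small, not_forall] at hy
  obtain ⟨t, ht, hn⟩ := hy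
  have h1 : ({y, z y, t y} : Finset Ω) ⊆ univ.filter (Ob T · y) := fun x hx => by
    simp only [Finset.mem_insert, Finset.mem_singleton] at hx
    rcases hx with rfl | rfl | rfl
    exacts [mem_filter.2 ⟨mem_univ _, Ob.rfl⟩, mem_filter.2 ⟨mem_univ _, h.ob_of_pr (Or.inr rfl)⟩,
      mem_filter.2 ⟨mem_univ _, t, ht, rfl⟩]
  have h2 : ({y, z y, t y} : Finset Ω).card = 3 := card_eq_three.2 ⟨_, _, _,
    fun e => hn (Or.inl (h.fix e.symm ht)), fun e => hn (Or.inl e.symm),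
    fun e => hn (Or.inr e.symm), rfl⟩
  have h3 := card_le_card h1
  rw [hk] at h3 ⊢
  rcases k with _ | _ | k
  · omega
  · omega
  · exact ⟨2 ^ k, by ring⟩

open Classical in
theorem mem_of_even (H : Subgroup (Perm Ω)) (hH : ∀ y y', z y ≠ y → Ob T y' y → ¬ Pr z y' y →
    tau z y * tau z y' ∈ H) : ∀ (n : ℕ) (c : Perm Ω), c.support.card = n → (∀ x, Pr z (c x) x) →
      (∀ y, 4 ∣ (c.support.filter (Ob T · y)).card) → c ∈ H := by
  intro n
  induction n using Nat.strong_induction_on with | _ n ih => ?_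
  intro c hn h1 h2
  by_cases hc : c = 1
  · exact hc ▸ one_mem H
  obtain ⟨y, hy⟩ := nonempty_iff_ne_empty.2 (mt support_eq_empty_iff.1 hc)
  have h3 := Nat.le_of_dvd (card_pos.2 ⟨y, (mem_filter (p := (Ob T · y))).2 ⟨hy, Ob.rfl⟩⟩) (h2 y)
  obtain ⟨y', hy', hn'⟩ := exists_mem_notMem_of_card_lt_card
    (lt_of_le_of_lt (card_le_two (a := y) (b := z y)) (lt_of_lt_of_le (by norm_num) h3))
  have hn1 : ¬ Pr z y' y := by simpa [Pr] using hn'
  obtain ⟨hy1, hy2⟩ := mem_filter.1 hy'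
  have hcz := h.hc c (h.hb c h1)
  have mv : ∀ x ∈ c.support, c x = z x ∧ z x ≠ x ∧ z x ∈ c.support := fun x hx => by
    have e := (h1 x).resolve_left (mem_support.1 hx)
    have e' : z x ≠ x := e ▸ mem_support.1 hx
    exact ⟨e, e', mem_support.2 (by rw [← hcz, e, h.hz]; exact e'.symm)⟩
  have mv' : ∀ x w, Pr z x w → w ∈ c.support → x ∈ c.support := by
    rintro x w (rfl | rfl) hw
    exacts [hw, (mv w hw).2.2]
  let F : Finset Ω := {y, z y, y', z y'}
  have hF : ∀ x, x ∈ F ↔ Pr z x y ∨ Pr z x y' := fun x => by simp [F, Pr, or_assoc]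
  have hF4 : F.card = 4 := by
    have n1 : y ≠ y' := fun e => hn1 (Or.inl e.symm)
    have n2 : z y ≠ y' := fun e => hn1 (Or.inr e.symm)
    have n3 : y ≠ z y' := fun e => n2 (by rw [e, h.hz])
    have n4 : z y ≠ z y' := fun e => n1 (z.injective e)
    rw [card_insert_of_notMem (by simp [n1, n3, (mv y hy).2.1.symm]),
      card_insert_of_notMem (by simp [n2, n4]), card_pair (mv y' hy1).2.1.symm]
  have hFs : F ⊆ c.support := fun x hx => ((hF x).1 hx).elim (mv' x y · hy) (mv' x y' · hy1)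
  have hδ1 : ∀ x ∈ F, (tau z y * tau z y') x = z x := fun x hx => by
    rw [Perm.mul_apply]
    rcases (hF x).1 hx with e | e
    · rw [tau_of_not fun e' => hn1 (h.pr_trans (h.pr_symm e') e), h.tau_of_pr e]
    · rw [h.tau_of_pr e, tau_of_not fun e' => hn1 (h.pr_trans (h.pr_symm e) (h.pr_z.1 e'))]
  have hδ2 : ∀ x ∉ F, (tau z y * tau z y') x = x := fun x hx => by
    rw [hF, not_or] at hx
    rw [Perm.mul_apply, tau_of_not hx.2, tau_of_not hx.1]
  have hs : (c * (tau z y * tau z y')).support = c.support \ F := by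
    ext x
    rw [mem_support, mem_sdiff, Perm.mul_apply]
    by_cases hx : x ∈ F
    · simp only [hx, not_true, and_false, iff_false, not_not]
      rw [hδ1 x hx, ← hcz, (mv x (hFs hx)).1, h.hz]
    · rw [hδ2 x hx, mem_support]; simp [hx]
  have := ih (c * (tau z y * tau z y')).support.card
    (by rw [hs, card_sdiff_of_subset hFs, ← hn]; have := card_le_card hFs; omega)
    (c * (tau z y * tau z y')) rfl
    (fun x => h.pr_trans (h1 (tau z y (tau z y' x))) (h.pr_trans h.pr_tau h.pr_tau)) fun w => by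
      rw [hs, filter_sdiff_distrib_aux]
      by_cases e : Ob T y w
      · rw [card_sdiff_of_subset fun x hx => mem_filter.2 ⟨hFs hx, ((hF x).1 hx).elim
          (fun e' => (h.ob_of_pr e').trans e) fun e' => ((h.ob_of_pr e').trans hy2).trans e⟩, hF4]
        exact Nat.dvd_sub (h2 w) dvd_rfl
      · rw [sdiff_eq_self_of_disjoint (disjoint_left.2 fun x hx hx' => e (((hF x).1 hx').elim
          (fun e' => (h.ob_of_pr e').symm.trans (mem_filter.1 hx).2)
          fun e' => ((h.ob_of_pr e').trans hy2).symm.trans (mem_filter.1 hx).2))]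
        exact h2 w
  have h9 := mul_mem this (inv_mem (hH y y' (mv y hy).2.1 hy2 hn1))
  rwa [mul_inv_cancel_right] at h9

/-- Elements acting on each orbit trivially or as the pairing. -/
theorem mem_of_ow (H : Subgroup (Perm Ω)) (hH : ∀ y y', z y ≠ y → Ob T y' y → ¬ Pr z y' y →
    tau z y * tau z y' ∈ H) (h1 : ∀ x, Pr z (c x) x)
    (h2 : ∀ y, c y ≠ y → ¬ Small T z y ∧ ∀ x, Ob T x y → c x ≠ x) : c ∈ H := by
  classical
  refine h.mem_of_even H hH _ c rfl h1 fun w => ?_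
  rcases (c.support.filter (Ob T · w)).eq_empty_or_nonempty with e | ⟨y, hy⟩
  · rw [e]; exact dvd_zero 4
  · obtain ⟨h3, h4⟩ := mem_filter.1 hy
    have h5 := h2 y (mem_support.1 h3)
    have : c.support.filter (Ob T · w) = univ.filter (Ob T · y) := by
      ext x
      simp only [mem_filter, mem_support, mem_univ, true_and]
      exact ⟨fun e => e.2.trans h4.symm, fun e => ⟨h5.2 x e, e.trans h4⟩⟩
    rw [this]; exact h.four_dvd h5.1

theorem sign_of_ow (h1 : ∀ x, Pr z (c x) x)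
    (h2 : ∀ y, c y ≠ y → ¬ Small T z y ∧ ∀ x, Ob T x y → c x ≠ x) : sign c = 1 :=
  (mem_ev.1 (h.mem_of_ow (ev T) (fun _ _ hy ⟨_, ht, e⟩ _ =>
    h.tt_mem hy (e ▸ (h.ne_apply ht).2 hy)) h1 h2)).2

end St

end Cfsg.Lib.Alt.SylDec
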