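import Cfsg.Agent.Lib.Alt.SylDec
import Cfsg.Prelude.Def_TwoFusion

/-! Direct decompositions of Sylow 2-subgroups of alternating groups. -/

set_option autoImplicit false
set_option linter.unusedSectionVars false

namespace Cfsg.Lib.Alt.SylDec

open Equiv Equiv.Perm Subgroup MulAction Finset

/-- `P` is directly decomposable. -/
def Dec {G : Type*} [Group G] (P : Subgroup G) : Prop :=
  ∃ A B : Subgroup G, A ≠ ⊥ ∧ B ≠ ⊥ ∧ IsInternalDirectProduct A B P

section idp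
variable {G : Type*} [Group G] {A B P : Subgroup G}

theorem idp_symm (h : IsInternalDirectProduct A B P) : IsInternalDirectProduct B A P :=
  ⟨h.2.1, h.1, fun b hb a ha => (h.2.2.1 a ha b hb).symm, by rw [inf_comm, h.2.2.2.1],
    by rw [sup_comm, h.2.2.2.2]⟩

theorem idp_dec (h : IsInternalDirectProduct A B P) {g : G} (hg : g ∈ P) :
    ∃ a ∈ A, ∃ b ∈ B, g = a * b := by
  let S : Subgroup G :=
    { carrier := {g | ∃ a ∈ A, ∃ b ∈ B, g = a * b}
      one_mem' := ⟨1, one_mem _, 1, one_mem _, by simp⟩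
      mul_mem' := by
        rintro _ _ ⟨a, ha, b, hb, rfl⟩ ⟨a', ha', b', hb', rfl⟩
        refine ⟨_, mul_mem ha ha', _, mul_mem hb hb', ?_⟩
        rw [mul_assoc, ← mul_assoc b, ← h.2.2.1 a' ha' b hb]; group
      inv_mem' := by
        rintro _ ⟨a, ha, b, hb, rfl⟩
        exact ⟨_, inv_mem ha, _, inv_mem hb, by rw [h.2.2.1 a ha b hb, mul_inv_rev]⟩ }
  have : A ⊔ B ≤ S := sup_le (fun a ha => ⟨a, ha, 1, one_mem _, by simp⟩)
    fun b hb => ⟨1, one_mem _, b, hb, by simp⟩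
  exact this (h.2.2.2.2 ▸ hg)

theorem idp_conj (h : IsInternalDirectProduct A B P) {g a : G} (hg : g ∈ P) (ha : a ∈ A) :
    g * a * g⁻¹ ∈ A := by
  obtain ⟨x, hx, y, hy, rfl⟩ := idp_dec h hg
  have : x * y * a * (x * y)⁻¹ = x * a * x⁻¹ := by
    rw [mul_assoc x y a, ← h.2.2.1 a ha y hy]; group
  rw [this]; exact mul_mem (mul_mem hx ha) (inv_mem hx)

theorem idp_central [Finite G] (h : IsInternalDirectProduct A B P) (hP : IsPGroup 2 P)
    (hA : A ≠ ⊥) : ∃ c ∈ A, c ≠ 1 ∧ ∀ g ∈ P, c * g = g * c := by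
  have : Nontrivial A := (nontrivial_iff_ne_bot A).2 hA
  have := (hP.to_le h.1).center_nontrivial
  obtain ⟨c, hc⟩ := exists_ne (1 : center A)
  refine ⟨c.1, c.1.2, fun e => hc (Subtype.ext (Subtype.ext e)), fun g hg => ?_⟩
  obtain ⟨x, hx, y, hy, rfl⟩ := idp_dec h hg
  have h1 : x * c.1 = c.1 * x := congrArg Subtype.val (mem_center_iff.1 c.2 ⟨x, hx⟩)
  rw [← mul_assoc, ← h1, mul_assoc, h.2.2.1 _ c.1.2 y hy, mul_assoc]

theorem dec_map_iff {H : Type*} [Group H] (f : G →* H) (hf : Function.Injective f) :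
    Dec (P.map f) ↔ Dec P := by
  constructor
  · rintro ⟨A, B, hA, hB, h⟩
    have e : ∀ {A : Subgroup H}, A ≤ P.map f → (A.comap f).map f = A := fun hA =>
      map_comap_eq_self (hA.trans (map_le_range _ _))
    refine ⟨A.comap f, B.comap f, fun x => hA (by rw [← e h.1, x, Subgroup.map_bot]),
      fun x => hB (by rw [← e h.2.1, x, Subgroup.map_bot]), ?_, ?_, fun a ha b hb => hf ?_, ?_, ?_⟩
    · exact (comap_mono h.1).trans (comap_map_eq_self_of_injective hf P).le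
    · exact (comap_mono h.2.1).trans (comap_map_eq_self_of_injective hf P).le
    · rw [map_mul, map_mul]; exact h.2.2.1 _ ha _ hb
    · rw [← comap_inf, h.2.2.2.1]; exact (MonoidHom.ker_eq_bot_iff f).2 hf
    · exact map_injective hf (by rw [Subgroup.map_sup, e h.1, e h.2.1, h.2.2.2.2])
  · rintro ⟨A, B, hA, hB, h⟩
    refine ⟨A.map f, B.map f, fun x => hA ((map_eq_bot_iff_of_injective _ hf).1 x),
      fun x => hB ((map_eq_bot_iff_of_injective _ hf).1 x), map_mono h.1, map_mono h.2.1, ?_, ?_, ?_⟩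
    · rintro _ ⟨a, ha, rfl⟩ _ ⟨b, hb, rfl⟩
      rw [← map_mul, ← map_mul, h.2.2.1 a ha b hb]
    · rw [← Subgroup.map_inf _ _ _ hf, h.2.2.2.1, Subgroup.map_bot]
    · rw [← Subgroup.map_sup, h.2.2.2.2]

theorem dec_of_four [Finite G] (h4 : Nat.card P = 4) (h2 : ∀ g ∈ P, g * g = 1) : Dec P := by
  have ho : ∀ g ∈ P, g ≠ 1 → Nat.card (zpowers g) = 2 := fun g hg h1 => by
    rw [Nat.card_zpowers]; exact orderOf_eq_prime (by rw [sq, h2 g hg]) h1
  obtain ⟨a, ha, h1⟩ : ∃ a ∈ P, a ≠ 1 := by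
    by_contra hc
    push Not at hc
    rw [eq_bot_iff_forall P |>.2 hc] at h4
    simp at h4
  obtain ⟨b, hb, h3⟩ : ∃ b ∈ P, b ∉ zpowers a := by
    by_contra hc
    push Not at hc
    have := card_le_of_le (show P ≤ zpowers a from hc)
    rw [h4, ho a ha h1] at this; omega
  have h5 : b ≠ 1 := fun e => h3 (e ▸ one_mem _)
  have hi : ∀ g ∈ P, g⁻¹ = g := fun g hg => inv_eq_of_mul_eq_one_left (h2 g hg)
  have hA := zpowers_le.2 ha
  have hB := zpowers_le.2 hb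
  have h6 : zpowers a ⊓ zpowers b = ⊥ := by
    rcases (Nat.dvd_prime Nat.prime_two).1 (ho b hb h5 ▸ card_dvd_of_le
      (inf_le_right (a := zpowers a) (b := zpowers b))) with e | e
    · exact card_eq_one.1 e
    · have := eq_of_le_of_card_ge (inf_le_right (a := zpowers a) (b := zpowers b))
        (by rw [e, ho b hb h5])
      exact absurd (this.ge (mem_zpowers b)).1 h3
  refine ⟨zpowers a, zpowers b, by simpa, by simpa, hA, hB, fun x hx y hy => ?_, h6, ?_⟩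
  · rw [← hi _ (mul_mem (hA hx) (hB hy)), mul_inv_rev, hi _ (hA hx), hi _ (hB hy)]
  · refine eq_of_le_of_card_ge (sup_le hA hB) ?_
    have h7 := card_dvd_of_le (sup_le hA hB)
    have h8 := card_dvd_of_le (le_sup_left (a := zpowers a) (b := zpowers b))
    rw [h4] at h7 ⊢
    rw [ho a ha h1] at h8
    have h9 : Nat.card ↥(zpowers a ⊔ zpowers b) ≠ 2 := fun e => h3 ((eq_of_le_of_card_ge
      (le_sup_left (a := zpowers a) (b := zpowers b)) (by rw [e, ho a ha h1])).ge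
      (mem_sup_right (mem_zpowers b)))
    have := Nat.le_of_dvd (by norm_num) h7
    obtain ⟨k, hk⟩ := h8
    have : 0 < Nat.card ↥(zpowers a ⊔ zpowers b) := Nat.card_pos
    omega

end idp

variable {Ω : Type} [Fintype Ω] [DecidableEq Ω] {T : Sylow 2 (Perm Ω)} {z : Perm Ω}
  {x y u w : Ω} {t c g : Perm Ω} {A B : Subgroup (Perm Ω)}

theorem ev_le : ev T ≤ (T : Subgroup (Perm Ω)) := inf_le_left

namespace St
variable (h : St T z)
include h

theorem tt_apply (e : ¬ Pr z x u) (e' : Pr z x y) : (tau z y * tau z u) x = z x := by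
  rw [Perm.mul_apply, tau_of_not e, h.tau_of_pr e']

theorem exists_pair2 (h4 : 4 ≤ Fintype.card Ω) (y : Ω) : ∃ u, z u ≠ u ∧ ¬ Pr z y u := by
  obtain ⟨u, h1, h2⟩ := h.exists_pair {y, z y} (by have := card_le_two (a := y) (b := z y); omega)
  exact ⟨u, h2, fun e => h1 (by simpa [Pr] using h.pr_symm e)⟩

theorem central_base (h6 : 6 ≤ Fintype.card Ω) (hc : c ∈ ev T) (hz : ∀ g ∈ ev T, c * g = g * c)
    (y : Ω) : Pr z (c y) y := by
  by_cases hy : z y = y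
  · exact Or.inl (h.fix hy (ev_le hc))
  have key : ∀ u, z u ≠ u → ¬ Pr z y u → ¬ Pr z (c y) y → Pr z (c y) u := fun u h1 h2 h3 => by
    by_contra h4
    have := congrArg (· y) (hz _ (h.tt_mem hy h1))
    simp only [Perm.mul_apply] at this
    rw [tau_of_not h2, tau_self, tau_of_not h4, tau_of_not h3, ← h.hc c (ev_le hc)] at this
    exact (h.ne_apply (ev_le hc)).2 hy this
  by_contra hn
  obtain ⟨u, h1, h2⟩ := h.exists_pair2 (by omega) y
  obtain ⟨v, h3, h4⟩ := h.exists_pair {y, z y, u, z u} (by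
    have := card_le_four (a := y) (b := z y) (c := u) (d := z u); omega)
  simp only [Finset.mem_insert, Finset.mem_singleton, not_or] at h3
  have := h.pr_trans (h.pr_symm (key v h4 (fun e => (h.pr_symm e).elim h3.1 h3.2.1) hn))
    (key u h1 h2 hn)
  exact this.elim h3.2.2.1 h3.2.2.2

theorem eq_one_of_small (hc : c ∈ ev T) (h1 : ∀ y, ¬ Small T z y → c y = y) : c = 1 := by
  by_contra hn
  obtain ⟨x, hx⟩ : ∃ x, c x ≠ x := by
    by_contra e
    push Not at e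
    exact hn (Equiv.ext e)
  have h2 : Small T z x := by_contra fun e => hx (h1 x e)
  have h3 := (h2 c (ev_le hc)).resolve_left hx
  have h4 : z x ≠ x := h3 ▸ hx
  have : c = tau z x := Equiv.ext fun w => by
    by_cases e : Pr z w x
    · rw [h.tau_of_pr e]
      rcases e with rfl | rfl
      · exact h3
      · rw [← h.hc c (ev_le hc), h3]
    · rw [tau_of_not e]
      by_contra e1
      have e2 : Small T z w := by_contra fun e => e1 (h1 w e)
      exact e (h.small_unique h2 e2 h4 fun e3 => e1 (h.fix e3 (ev_le hc)))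
  have h5 := (mem_ev.1 hc).2
  rw [this, sign_tau h4] at h5
  exact absurd h5 (by decide)

theorem not_dec_single (h6 : 6 ≤ Fintype.card Ω)
    (h1 : ∀ x y, ¬ Small T z x → ¬ Small T z y → Ob T x y) : ¬ Dec (ev T) := by
  rintro ⟨A, B, hA, hB, hd⟩
  have key : ∀ c ∈ ev T, (∀ g ∈ ev T, c * g = g * c) → c ≠ 1 → ∀ y, ¬ Small T z y → c y = z y :=
    fun c hc hz hn y hy => (h.central_base h6 hc hz y).resolve_left fun e =>
      hn (h.eq_one_of_small hc fun x hx => by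
        obtain ⟨u, h2, h3⟩ := h.exists_pair2 (by omega) y
        obtain ⟨g, hg, rfl⟩ := h.exists_ev (h1 x y hx hy) h2 h3
        rw [← Perm.mul_apply, hz g hg, Perm.mul_apply, e])
  have hP : IsPGroup 2 (ev T) := T.isPGroup'.to_le ev_le
  obtain ⟨a, ha, a1, a2⟩ := idp_central hd hP hA
  obtain ⟨b, hb, b1, b2⟩ := idp_central (idp_symm hd) hP hB
  have : b⁻¹ * a = 1 := h.eq_one_of_small (mul_mem (inv_mem (hd.2.1 hb)) (hd.1 ha)) fun y hy => by
    rw [Perm.mul_apply, key a (hd.1 ha) a2 a1 y hy, ← key b (hd.2.1 hb) b2 b1 y hy]; simp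
  exact a1 (mem_bot.1 (hd.2.2.2.1 ▸ mem_inf.2 ⟨ha, inv_mul_eq_one.1 this ▸ hb⟩))

theorem far (e : ¬ Ob T u y) (e' : Ob T x y) : ¬ Pr z x u :=
  fun k => e ((h.ob_of_pr k).symm.trans e')

theorem ci (hd : IsInternalDirectProduct A B (ev T)) (hy : z y ≠ y) (hu : z u ≠ u)
    (e : ¬ Ob T u y) : (∀ a ∈ A, Pr z (a y) y) ∨ ∀ b ∈ B, Pr z (b y) y := by
  by_contra hc
  push Not at hc
  obtain ⟨⟨a, ha, a1⟩, b, hb, b1⟩ := hc
  have haT := ev_le (hd.1 ha)
  have hbT := ev_le (hd.2.1 hb)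
  have hδ := h.tt_mem hy hu
  have o : ∀ {t : Perm Ω}, t ∈ (T : Subgroup (Perm Ω)) → Ob T (t y) y := fun ht => ⟨_, ht, rfl⟩
  have e2 : ¬ Ob T (a u) y := mt (ob_apply haT).1 e
  have fx : ∀ {c : Perm Ω} {x x' : Ω}, c ∈ (T : Subgroup (Perm Ω)) → Pr z x x' → c x' = x' →
      c x = x := by
    rintro c x x' hc (rfl | rfl) e
    · exact e
    · rw [← h.hc c hc, e]
  have K : Pr z (b y) (a y) := by
    by_contra hn
    have h1 := hd.2.2.1 _ (mul_mem (idp_conj hd hδ ha) (inv_mem ha)) b hb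
    have h2 : (tau z y * tau z u)⁻¹ = tau z y * tau z u := by
      rw [mul_inv_rev, inv_eq_of_mul_eq_one_left tau_mul_self,
        inv_eq_of_mul_eq_one_left tau_mul_self, h.tau_comm]
    have h3 : tau z y * tau z u * a * (tau z y * tau z u)⁻¹ * a⁻¹ =
        tau z y * tau z u * (tau z (a y) * tau z (a u)) := by
      rw [h2, ← h.conj_tau haT, ← h.conj_tau haT]; group
    have h4 := congrArg (· y) h1
    simp only [h3, Perm.mul_apply] at h4
    rw [tau_of_not (h.far e2 (o hbT)), tau_of_not hn, tau_of_not (h.far e (o hbT)), tau_of_not b1,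
      tau_of_not (h.far e2 Ob.rfl), tau_of_not (mt h.pr_symm a1), tau_of_not (h.far e Ob.rfl),
      tau_self, ← h.hc b hbT] at h4
    exact (h.ne_apply hbT).2 hy h4.symm
  obtain ⟨a₁, ha₁, b₁, hb₁, e1⟩ := idp_dec hd hδ
  have ha₁T := ev_le (hd.1 ha₁)
  have hb₁T := ev_le (hd.2.1 hb₁)
  have d1 : a₁ (b₁ y) = z y := by
    rw [← Perm.mul_apply, ← e1, h.tt_apply (h.far e Ob.rfl) Pr.rfl]
  have d2 : ∀ x, Ob T x y → ¬ Pr z x y → a₁ (b₁ x) = x := fun x h1 h2 => by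
    rw [← Perm.mul_apply, ← e1, Perm.mul_apply, tau_of_not (h.far e h1), tau_of_not h2]
  have cm : ∀ a ∈ A, ∀ b ∈ B, ∀ x, a (b x) = b (a x) := fun a ha b hb x =>
    congrArg (· x) (hd.2.2.1 a ha b hb)
  have p1 : Pr z (b₁ y) y := by
    by_contra hn
    have := d2 _ (o hb₁T) hn
    rw [cm _ ha₁ _ hb₁, d1, ← h.hc _ hb₁T] at this
    exact (h.ne_apply hb₁T).2 hy this
  rcases p1 with p1 | p1
  · rw [p1] at d1
    have := d2 _ (o hbT) b1
    rw [fx hb₁T K (by rw [← cm a ha _ hb₁, p1]), cm _ ha₁ b hb, d1, ← h.hc b hbT] at this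
    exact (h.ne_apply hbT).2 hy this
  · rw [p1, ← h.hc _ ha₁T] at d1
    have d3 := z.injective d1
    have := d2 _ (o haT) a1
    rw [← cm a ha _ hb₁, p1, ← h.hc a haT, ← h.hc _ ha₁T,
      fx ha₁T (h.pr_symm K) (by rw [cm _ ha₁ b hb, d3])] at this
    exact (h.ne_apply haT).2 hy this

theorem all_of_one (hd : IsInternalDirectProduct A B (ev T)) (hu : z u ≠ u) (e : ¬ Ob T u y)
    (h1 : ∀ a ∈ A, Pr z (a y) y) (hx : Ob T x y) : ∀ a ∈ A, Pr z (a x) x := fun a ha => by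
  obtain ⟨g, hg, rfl⟩ := h.exists_ev hx hu (h.far e Ob.rfl)
  have := (h.pr_apply (ev_le hg)).2 (h1 _ (idp_conj hd (inv_mem hg) ha))
  simpa using this

theorem fix_all (hd : IsInternalDirectProduct A B (ev T)) (hu : z u ≠ u) (e : ¬ Ob T u y)
    (h1 : ∀ a ∈ A, Pr z (a y) y) (hc : c ∈ A) (hy : c y = y) (hx : Ob T x y) : c x = x := by
  obtain ⟨g, hg, rfl⟩ := h.exists_ev hx hu (h.far e Ob.rfl)
  obtain ⟨b, hb, a, ha, rfl⟩ := idp_dec (idp_symm hd) hg
  have h2 : c (a y) = a y := by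
    rcases h1 a ha with e | e <;> rw [e]
    · exact hy
    · rw [← h.hc c (ev_le (hd.1 hc)), hy]
  rw [Perm.mul_apply, ← Perm.mul_apply c, hd.2.2.1 c hc b hb, Perm.mul_apply, h2]

section multi
variable (hs : ∀ a, Small T z a → z a = a)
  (ho : ∀ y, ∃ u, z u ≠ u ∧ ¬ Ob T u y) (hd : IsInternalDirectProduct A B (ev T))
include hs ho hd

theorem sign_res {D : Ω → Prop} (hD : ∀ x y, Ob T x y → D y → D x)
    (h1 : ∀ y, D y → ∀ a ∈ A, Pr z (a y) y) (hc : c ∈ A) {σ : Perm Ω} (hσ : Res D c σ) :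
    (∀ x, Pr z (σ x) x) ∧ ∀ y, σ y ≠ y → ¬ Small T z y ∧ ∀ x, Ob T x y → σ x ≠ x := by
  refine ⟨fun x => ?_, fun y hy => ?_⟩
  · by_cases e : D x
    · rw [hσ.1 x e]; exact h1 x e c hc
    · exact Or.inl (hσ.2 x e)
  · have e : D y := by_contra fun e => hy (hσ.2 y e)
    rw [hσ.1 y e] at hy
    refine ⟨fun k => hy (h.fix (hs y k) (ev_le (hd.1 hc))), fun x hx k => hy ?_⟩
    rw [hσ.1 x (hD x y hx e)] at k
    obtain ⟨u, h2, h3⟩ := ho x
    exact h.fix_all hd h2 h3 (h1 x (hD x y hx e)) hc k hx.symm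

theorem eq_bot_of_all (h1 : ∀ y, ∀ a ∈ A, Pr z (a y) y) : A = ⊥ := by
  refine eq_bot_iff.2 (hd.2.2.2.1 ▸ le_inf le_rfl fun c hc => ?_)
  obtain ⟨h2, h3⟩ := h.sign_res hs ho hd (D := fun _ => True) (fun _ _ _ _ => trivial)
    (fun y _ => h1 y) hc (σ := c) ⟨fun _ _ => rfl, fun _ e => (e trivial).elim⟩
  refine h.mem_of_ow B (fun y y' hy ⟨t, ht, e⟩ _ => ?_) h2 h3
  obtain ⟨u, h4, h5⟩ := ho y
  obtain ⟨σ, hσ, r⟩ := exists_res (D := (Ob T · y)) (fun t ht x => ob_apply ht) ht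
  obtain ⟨g, hg, g1, g2⟩ : ∃ g ∈ ev T, g y = y' ∧ Pr z (g u) u := by
    obtain ⟨g, hg, rfl | rfl⟩ := h.adj hσ h4
    · exact ⟨g, hg, (r.1 y Ob.rfl).trans e, Or.inl (r.2 u h5)⟩
    · refine ⟨_, hg, ?_, Or.inr ?_⟩
      · rw [Perm.mul_apply, tau_of_not (h.far h5 Ob.rfl), r.1 y Ob.rfl, e]
      · rw [Perm.mul_apply, tau_self, ← h.hc σ hσ, r.2 u h5]
  have h6 : g * (tau z y * tau z u) * g⁻¹ = tau z y' * tau z u :=
    calc _ = (g * tau z y * g⁻¹) * (g * tau z u * g⁻¹) := by group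
      _ = _ := by rw [h.conj_tau (ev_le hg), h.conj_tau (ev_le hg), g1, h.tau_congr g2]
  have h7 : tau z y * tau z y' = (tau z y * tau z u) * (g * (tau z y * tau z u) * g⁻¹) := by
    rw [h6, h.tau_comm (y := y'), mul_assoc, ← mul_assoc (tau z u), tau_mul_self, one_mul]
  obtain ⟨b, hb, a, ha, e1⟩ := idp_dec (idp_symm hd) (h.tt_mem hy h4)
  have zc : ∀ g ∈ ev T, g * a = a * g := fun g hg => by
    obtain ⟨b', hb', a', ha', rfl⟩ := idp_dec (idp_symm hd) hg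
    rw [mul_assoc, h.base_comm (h1 · a' ha') (h1 · a ha), ← mul_assoc, ← hd.2.2.1 a ha b' hb',
      mul_assoc]
  have h8 : a * a = 1 := SylNorm.base_sq (hz := h.hz) (h1 · a ha)
  have h9 : b * a * (g * (b * a) * g⁻¹) = b * (g * b * g⁻¹) * (a * a) := by
    have k1 : g * (b * a) * g⁻¹ = g * b * g⁻¹ * a := by
      rw [mul_assoc (g * b), zc _ (inv_mem hg)]; group
    rw [k1, mul_assoc b a, ← mul_assoc a, ← zc _ (hd.2.1 (idp_conj (idp_symm hd) hg hb))]; group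
  rw [h7, e1, h9, h8, mul_one]
  exact mul_mem hb (idp_conj (idp_symm hd) hg hb)

end multi

theorem not_dec_multi (hs : ∀ a, Small T z a → z a = a)
    (ho : ∀ y, ∃ u, z u ≠ u ∧ ¬ Ob T u y) : ¬ Dec (ev T) := by
  rintro ⟨A, B, hA, hB, hd⟩
  let U : Ω → Prop := fun y => ∀ a ∈ A, Pr z (a y) y
  have hU : ∀ x y, Ob T x y → U y → U x := fun x y e k => by
    obtain ⟨u, h2, h3⟩ := ho y
    exact h.all_of_one hd h2 h3 k e
  have hU' : ∀ t ∈ (T : Subgroup (Perm Ω)), ∀ x, U (t x) ↔ U x := fun t ht x =>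
    ⟨hU _ _ (Ob.symm ⟨t, ht, rfl⟩), hU _ _ ⟨t, ht, rfl⟩⟩
  have hf : ∀ y, z y = y → ∀ g ∈ ev T, Pr z (g y) y := fun y e g hg => Or.inl (h.fix e (ev_le hg))
  have hV : ∀ y, ¬ U y → ∀ b ∈ B, Pr z (b y) y := fun y k => by
    obtain ⟨u, h2, h3⟩ := ho y
    exact (h.ci hd (fun e => k fun a ha => hf y e a (hd.1 ha)) h2 h3).resolve_left k
  obtain ⟨x', hx'⟩ : ∃ x', ¬ U x' := by
    by_contra e
    push Not at e
    exact hA (h.eq_bot_of_all hs ho hd e)
  obtain ⟨x, hx, hxz⟩ : ∃ x, U x ∧ z x ≠ x := by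
    by_contra e
    push Not at e
    refine hB (h.eq_bot_of_all hs ho (idp_symm hd) fun y => ?_)
    by_cases k : U y
    · exact fun b hb => hf y (e y k) b (hd.2.1 hb)
    · exact hV y k
  have hx'z : z x' ≠ x' := fun e => hx' fun a ha => hf x' e a (hd.1 ha)
  obtain ⟨a, ha, b, hb, e⟩ := idp_dec hd (h.tt_mem hxz hx'z)
  have hbT := ev_le (hd.2.1 hb)
  obtain ⟨σ, -, r⟩ := exists_res hU' (ev_le (hd.1 ha))
  obtain ⟨σ', hσ', r'⟩ := exists_res hU' hbT
  have r'' : Res (fun x => ¬ U x) b (σ'⁻¹ * b) :=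
    ⟨fun x k => by rw [Perm.mul_apply, Perm.inv_eq_iff_eq, r'.2 _ (mt (hU' b hbT x).1 k)],
      fun x k => by rw [Perm.mul_apply, Perm.inv_eq_iff_eq, r'.1 x (not_not.1 k)]⟩
  obtain ⟨s1, s2⟩ := h.sign_res hs ho hd hU (fun _ k => k) ha r
  obtain ⟨s3, s4⟩ := h.sign_res hs ho (idp_symm hd) (fun x y e k k' => k (hU y x e.symm k')) hV hb r''
  have s5 := h.sign_of_ow s3 s4
  rw [Perm.sign_mul, (mem_ev.1 (hd.2.1 hb)).2, mul_one, sign_inv] at s5
  have r3 : Res U (a * b) (tau z x) := by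
    rw [← e]
    refine ⟨fun y k => ?_, fun y k => tau_of_not fun k' => k (hU y x (h.ob_of_pr k') hx)⟩
    rw [Perm.mul_apply, tau_of_not fun k' => hx' (hU x' y (h.ob_of_pr k').symm k)]
  have s6 := sign_tau hxz
  rw [r3.unique (Res.mul (fun x => (hU' b hbT x).2) r r'), Perm.sign_mul, h.sign_of_ow s1 s2,
    s5] at s6
  exact absurd s6 (by decide)

theorem dec_of_small {a : Ω} (ha : Small T z a) (haz : z a ≠ a) (hx : ¬ Small T z x)
    (hy : ¬ Small T z y) (e : ¬ Ob T x y) : Dec (ev T) := by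
  have na : ∀ w, ¬ Small T z w → ¬ Pr z w a := fun w hw k => hw (h.small_of_ob ha (h.ob_of_pr k))
  have nb : ∀ w, Ob T w y → ¬ Pr z w a := fun w hw => na w fun k => hy (h.small_of_ob k hw.symm)
  have ne : ∀ w, ¬ Small T z w → tau z w * tau z a ≠ 1 := fun w hw k => by
    have := h.tt_apply (na w hw) (Pr.rfl (x := w))
    rw [k] at this
    exact h.ne_of_big hw this.symm
  let S₁ := ev T ⊓ fixingSubgroup (Perm Ω) {w | ¬ Ob T w y ∧ ¬ Pr z w a}
  let S₂ := ev T ⊓ fixingSubgroup (Perm Ω) {w | Ob T w y}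
  have m1 : ∀ g, g ∈ S₁ ↔ g ∈ ev T ∧ ∀ w, ¬ Ob T w y → ¬ Pr z w a → g w = w := fun g => by
    simp [S₁, mem_fixingSubgroup_iff]
  have m2 : ∀ g, g ∈ S₂ ↔ g ∈ ev T ∧ ∀ w, Ob T w y → g w = w := fun g => by
    simp [S₂, mem_fixingSubgroup_iff]
  refine ⟨S₁, S₂, fun k => ne y hy (mem_bot.1 (k ▸ (m1 _).2 ⟨h.tt_mem (h.ne_of_big hy) haz,
    fun w h1 h2 => ?_⟩)), fun k => ne x hx (mem_bot.1 (k ▸ (m2 _).2 ⟨h.tt_mem (h.ne_of_big hx) haz,
    fun w h1 => ?_⟩)), inf_le_left, inf_le_left, fun s hs s' hs' => Equiv.ext fun w => ?_,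
    eq_bot_iff.2 fun c hc => ?_, le_antisymm (sup_le inf_le_left inf_le_left) fun g hg => ?_⟩
  · rw [Perm.mul_apply, tau_of_not h2, tau_of_not fun k => h1 (h.ob_of_pr k)]
  · rw [Perm.mul_apply, tau_of_not (nb w h1), tau_of_not (h.far e h1)]
  · obtain ⟨s1, s2⟩ := (m1 s).1 hs
    obtain ⟨s3, s4⟩ := (m2 s').1 hs'
    simp only [Perm.mul_apply]
    by_cases k : Ob T w y
    · rw [s4 w k, s4 _ ((ob_apply (ev_le s1)).2 k)]
    · by_cases k' : Pr z w a
      · have hw := h.small_of_ob ha (h.ob_of_pr k')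
        rcases hw s (ev_le s1) with e1 | e1 <;> rcases hw s' (ev_le s3) with e2 | e2 <;>
          simp only [e1, e2, ← h.hc s (ev_le s1), ← h.hc s' (ev_le s3)]
      · rw [s2 w k k', s2 _ (mt (ob_apply (ev_le s3)).1 k) (mt (h.small_pr ha (ev_le s3)).1 k')]
  · obtain ⟨s1, s2⟩ := (m1 c).1 hc.1
    refine h.eq_one_of_small s1 fun w hw => ?_
    by_cases k : Ob T w y
    · exact ((m2 c).1 hc.2).2 w k
    · exact s2 w k (na w hw)
  · obtain ⟨σ, hσ, r⟩ := exists_res (D := (Ob T · y)) (fun t ht x => ob_apply ht) (ev_le hg)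
    obtain ⟨s, hs, s1, s2⟩ : ∃ s ∈ ev T, (∀ w, Ob T w y → s w = g w) ∧
        ∀ w, ¬ Ob T w y → ¬ Pr z w a → s w = w := by
      obtain ⟨s, hs, rfl | rfl⟩ := h.adj hσ haz
      · exact ⟨s, hs, r.1, fun w k _ => r.2 w k⟩
      · exact ⟨_, hs, fun w k => by rw [Perm.mul_apply, tau_of_not (nb w k), r.1 w k],
          fun w k k' => by rw [Perm.mul_apply, tau_of_not k', r.2 w k]⟩
    rw [← mul_inv_cancel_left s g]
    exact mul_mem (mem_sup_left ((m1 s).2 ⟨hs, s2⟩)) (mem_sup_right ((m2 _).2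
      ⟨mul_mem (inv_mem hs) hg, fun w k => by rw [Perm.mul_apply, Perm.inv_eq_iff_eq, s1 w k]⟩))

end St

end Cfsg.Lib.Alt.SylDec
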