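import Cfsg.Agent.Lib.Alt.SylDec2
import Cfsg.Agent.Lib.Alt.NilMax

/-! Counting orbits of a Sylow 2-subgroup of a symmetric group. -/

set_option autoImplicit false
set_option linter.unusedSectionVars false

namespace Cfsg.Lib.Alt.SylDec

open Equiv Equiv.Perm Subgroup MulAction Finset

variable {Ω : Type} [Fintype Ω] [DecidableEq Ω] {T : Sylow 2 (Perm Ω)} {z : Perm Ω}

theorem sq_four : ∀ g : Perm (Fin 4), sign g = 1 → g ^ 4 = 1 → g * g = 1 := by decide +kernel

theorem sq_five : ∀ g : Perm (Fin 5), sign g = 1 → g ^ 4 = 1 → g * g = 1 := by decide +kernel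

namespace St
variable (h : St T z)
include h

theorem four_dvd_closed : ∀ (n : ℕ) (s : Finset Ω), s.card = n →
    (∀ x ∈ s, ¬ Small T z x ∧ ∀ y, Ob T y x → y ∈ s) → 4 ∣ s.card := by
  classical
  intro n
  induction n using Nat.strong_induction_on with | _ n ih => ?_
  intro s hn hs
  rcases s.eq_empty_or_nonempty with rfl | ⟨x, hx⟩
  · exact dvd_zero 4
  have h1 : univ.filter (Ob T · x) ⊆ s := fun y hy => (hs x hx).2 y (mem_filter.1 hy).2
  have h2 := card_sdiff_add_card_eq_card h1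
  have h3 : 0 < (univ.filter (Ob T · x)).card :=
    card_pos.2 ⟨x, mem_filter.2 ⟨mem_univ _, Ob.rfl⟩⟩
  rw [← h2]
  refine dvd_add (ih _ (by omega) _ rfl fun y hy => ?_) (h.four_dvd (hs x hx).1)
  obtain ⟨h4, h5⟩ := mem_sdiff.1 hy
  exact ⟨(hs y h4).1, fun w hw => mem_sdiff.2 ⟨(hs y h4).2 w hw, fun k =>
    h5 (mem_filter.2 ⟨mem_univ _, hw.symm.trans (mem_filter.1 k).2⟩)⟩⟩

open Classical in
theorem count : (univ.filter (¬ Small T z ·)).card = 4 * (Fintype.card Ω / 4) ∧
    ((∀ a, Small T z a → z a = a) ↔ Fintype.card Ω % 4 ≤ 1) := by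
  have h1 := h.four_dvd_closed _ (univ.filter (¬ Small T z ·)) rfl fun x hx =>
    ⟨(mem_filter.1 hx).2, fun y hy => mem_filter.2 ⟨mem_univ _, fun k =>
      (mem_filter.1 hx).2 (h.small_of_ob k hy.symm)⟩⟩
  have h2 := card_filter_add_card_filter_not (s := univ) (Small T z)
  rw [card_univ] at h2
  by_cases hs : ∀ a, Small T z a → z a = a
  · have h3 : (univ.filter (Small T z)).card ≤ 1 := card_le_one.2 fun a ha b hb =>
      h.hu a b (hs a (mem_filter.1 ha).2) (hs b (mem_filter.1 hb).2)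
    exact ⟨by omega, iff_of_true hs (by omega)⟩
  · push Not at hs
    obtain ⟨a, ha, haz⟩ := hs
    have h3 : 1 < (univ.filter (Small T z)).card := one_lt_card.2 ⟨z a, mem_filter.2 ⟨mem_univ _,
      h.small_of_ob ha (h.ob_of_pr (Or.inr rfl))⟩, a, mem_filter.2 ⟨mem_univ _, ha⟩, haz⟩
    have h4 : univ.filter (Small T z) ⊆ {a, z a} ∪ univ.filter (fun b => z b = b) := fun b hb => by
      by_cases e : z b = b
      · exact mem_union_right _ (mem_filter.2 ⟨mem_univ _, e⟩)
      · exact mem_union_left _ (by simpa [Pr] using h.small_unique ha (mem_filter.1 hb).2 haz e)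
    have h5 : (univ.filter (fun b => z b = b)).card ≤ 1 := card_le_one.2 fun a ha b hb =>
      h.hu a b (mem_filter.1 ha).2 (mem_filter.1 hb).2
    have h6 := (card_le_card h4).trans (card_union_le _ _)
    have h7 := card_le_two (a := a) (b := z a)
    exact ⟨by omega, iff_of_false (fun k => haz (k a ha)) (by omega)⟩

theorem exists_big (h4 : 4 ≤ Fintype.card Ω) : ∃ y, ¬ Small T z y := by
  classical
  obtain ⟨y, hy⟩ := card_pos.1 (show 0 < (univ.filter (¬ Small T z ·)).card by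
    rw [h.count.1]; omega)
  exact ⟨y, (mem_filter.1 hy).2⟩

theorem single_iff (h4 : 4 ≤ Fintype.card Ω) :
    (∀ x y, ¬ Small T z x → ¬ Small T z y → Ob T x y) ↔
      ∃ r, 4 * (Fintype.card Ω / 4) = 2 ^ r := by
  classical
  have hc := h.count.1
  have sub : ∀ y, ¬ Small T z y → univ.filter (Ob T · y) ⊆ univ.filter (¬ Small T z ·) :=
    fun y hy x hx => mem_filter.2 ⟨mem_univ _, fun k =>
      hy (h.small_of_ob k (mem_filter.1 hx).2.symm)⟩
  constructor
  · intro h1
    obtain ⟨y, hy⟩ := h.exists_big h4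
    obtain ⟨k, hk⟩ := h.exists_card_ob y
    refine ⟨k, ?_⟩
    rw [← hc, ← hk]
    exact congrArg card (Subset.antisymm (fun x hx =>
      mem_filter.2 ⟨mem_univ _, h1 x y (mem_filter.1 hx).2 hy⟩) (sub y hy))
  · rintro ⟨r, hr⟩
    obtain ⟨c, hc1⟩ := (Equiv.Perm.exists_with_cycleType_iff Ω (m := {2 ^ r})).2
      ⟨by rw [Multiset.sum_singleton]; omega, fun a ha => by
        rw [Multiset.mem_singleton.1 ha]; omega⟩
    have hc2 : c.IsCycle := card_cycleType_eq_one.1 (by rw [hc1]; rfl)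
    have hc3 : c.support.card = 2 ^ r := by rw [← sum_cycleType, hc1, Multiset.sum_singleton]
    obtain ⟨g, hg⟩ := exists_conj_mem_sylow T (x := c) (k := r)
      (by rw [← hc3, ← hc2.orderOf, pow_orderOf_eq_one])
    have hd := hc2.conj (g := g)
    have hd3 : (g * c * g⁻¹).support.card = 2 ^ r := by rw [card_support_conj, hc3]
    obtain ⟨w, hw⟩ := card_pos.1 (show 0 < (g * c * g⁻¹).support.card by omega)
    have h5 : (g * c * g⁻¹).support ⊆ univ.filter (Ob T · w) := fun x hx => by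
      obtain ⟨i, hi⟩ := hd.exists_pow_eq (mem_support.1 hw) (mem_support.1 hx)
      exact mem_filter.2 ⟨mem_univ _, _, pow_mem hg i, hi⟩
    have h6 := card_le_card h5
    have h7 := eq_of_subset_of_card_le (sub w (h.big_of_card (by omega))) (by omega)
    have h8 : ∀ x, ¬ Small T z x → Ob T x w := fun x hx =>
      (mem_filter.1 (h7 ▸ mem_filter.2 ⟨mem_univ _, hx⟩ : x ∈ univ.filter (Ob T · w))).2
    exact fun x y hx hy => (h8 x hx).trans (h8 y hy).symm

theorem dec_iff (h6 : 6 ≤ Fintype.card Ω) : Dec (ev T) ↔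
    2 ≤ Fintype.card Ω % 4 ∧ ∀ r, 4 * (Fintype.card Ω / 4) ≠ 2 ^ r := by
  by_cases h1 : ∀ x y, ¬ Small T z x → ¬ Small T z y → Ob T x y
  · obtain ⟨r, hr⟩ := (h.single_iff (by omega)).1 h1
    exact iff_of_false (h.not_dec_single h6 h1) fun k => k.2 r hr
  have h2 := mt (h.single_iff (by omega)).2 h1
  push Not at h1 h2
  obtain ⟨x, y, hx, hy, e⟩ := h1
  by_cases hs : ∀ a, Small T z a → z a = a
  · have h3 := h.count.2.1 hs
    refine iff_of_false (h.not_dec_multi hs fun w => ?_) fun k => by omega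
    by_cases e' : Ob T x w
    · exact ⟨y, h.ne_of_big hy, fun k => e (e'.trans k.symm)⟩
    · exact ⟨x, h.ne_of_big hx, e'⟩
  · have h3 := mt h.count.2.2 hs
    push Not at hs
    obtain ⟨a, ha, haz⟩ := hs
    exact iff_of_true (h.dec_of_small ha haz hx hy e) ⟨by omega, h2⟩

end St

end Cfsg.Lib.Alt.SylDec
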