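import Cfsg.Agent.Lib.Alt.QsOver2
import Cfsg.Agent.Lib.PGroup.Basic
import Cfsg.Prelude.Def_LocalEven

/-!
# 3-minimal alternating groups
-/

set_option autoImplicit false

namespace Cfsg.Lib.Alt

open Equiv Equiv.Perm MulAction Subgroup Cfsg.Lib.Perm Cfsg.Lib.Comp
open scoped Pointwise

variable {α : Type*} [Fintype α] [DecidableEq α] {T M : Subgroup (Perm α)}

/-- The permutations preserving a relation. -/
def presRel (r : α → α → Prop) : Subgroup (Perm α) := stabilizer _ {p : α × α | r p.1 p.2}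

omit [DecidableEq α] in
theorem mem_presRel {r : α → α → Prop} {g : Perm α} :
    g ∈ presRel r ↔ ∀ y z, r y z → r (g y) (g z) := by
  rw [presRel, mem_stabilizer_set_iff_smul_set_subset (Set.toFinite _)]
  exact ⟨fun h y z k => h ⟨(y, z), k, rfl⟩, by rintro h _ ⟨p, k, rfl⟩; exact h _ _ k⟩

theorem exists_alt_two (h4 : 4 ≤ Nat.card α) {a b c d : α} (h1 : a ≠ b) (h2 : c ≠ d) :
    ∃ g ∈ alternatingGroup α, g a = c ∧ g b = d := by
  haveI := alternatingGroup.isMultiplyPretransitive α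
  obtain ⟨g, hg⟩ := is_two_pretransitive_iff.1 (isMultiplyPretransitive_of_le
    (G := alternatingGroup α) (α := α) (n := Nat.card α - 2) (m := 2) (by omega) (by omega)) h1 h2
  exact ⟨g, g.2, hg⟩

theorem subset_orbit_cycGen {L : Set α} (h3 : 3 ≤ L.ncard)
    (h : ∀ g ∈ alternatingGroup α, (∀ z ∉ L, g z = z) → g ∈ M) {x : α} (hx : x ∈ L) :
    L ⊆ orbit (cycGen M 3) x := fun y hy => by
  obtain ⟨u, h1, h2, h4⟩ := Set.exists_subsuperset_card_eq (s := {x, y}) (n := 3)
    (Set.pair_subset hx hy) ((Set.ncard_insert_le _ _).trans (by simp)) h3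
  obtain ⟨c, h5, h6⟩ := exists_pCyc (p := 3) (by decide) h4.ge
  have h7 : {y | c y ≠ y} = u := Set.eq_of_subset_of_ncard_le
    (fun z hz => by_contra fun k => hz (h6 z k)) (by rw [h4, h5.ncard])
  exact h5.mem_orbit (h c (h5.mem_alt (by decide)) fun z hz => h6 z fun k => hz (h2 k))
    (h7.ge (h1 (by simp))) (h7.ge (h1 (by simp)))

theorem three_minimal_aux (h5 : 5 ≤ Nat.card α) (hT : IsPGroup 3 T) (hF : Full 3 T) (hTM : T ≤ M)
    (hM : ¬ alternatingGroup α ≤ M)
    (H : ∀ W, T ≤ W → ¬ alternatingGroup α ≤ W → ∀ g ∈ alternatingGroup α, g ∈ W → g ∈ M) :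
    Nat.card α = 6 ∨ Nat.card α = 9 ∨ ∃ a, 2 ≤ a ∧ Nat.card α = 3 ^ a + 1 := by
  haveI := Fact.mk Nat.prime_three
  haveI : Nontrivial α := Finite.one_lt_card_iff_nontrivial.1 (by omega)
  have h1 : ∀ x, orbit (cycGen M 3) x ≠ .univ := fun x hx => by
    obtain ⟨c, h1, h2, h3⟩ := exists_pCyc_of_nontrivial (hx ▸ Set.nontrivial_univ :
      (orbit (cycGen M 3) x).Nontrivial)
    exact hM fun g hg => mem_of_fix_compl_orbit h2 h1 h3 hg fun z hz => absurd (hx ▸ trivial) hz
  have h2 : ∀ L : Set α, T ≤ stabS L → L ≠ .univ → 3 ≤ L.ncard → ∀ x ∈ L,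
      L ⊆ orbit (cycGen M 3) x := fun L h2 h3 h4 x hx => by
    refine subset_orbit_cycGen h4 (fun g hg k => H _ h2 (fun k => ?_) g hg (mem_stabS_of_fix k)) hx
    obtain ⟨w, hw⟩ := (Set.ne_univ_iff_exists_notMem _).1 h3
    obtain ⟨g, h6, h7, -⟩ := exists_alt_two (by omega) (ne_of_mem_of_not_mem hx hw)
      (ne_of_mem_of_not_mem hx hw).symm
    exact hw (h7 ▸ (k h6 x).2 hx)
  have h3 : ∀ x, T ≤ stabS (orbit T x) := fun x g hg =>
    mem_stabS_of_maps fun y hy => mem_orbit_of_mem_orbit (⟨g, hg⟩ : T) hy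
  have h4 : ∀ x : α, ∃ a, (orbit T x).ncard = 3 ^ a := fun x => hT.card_orbit x
  have h6 : ∀ x, (∃ g ∈ T, g x ≠ x) → 3 ≤ (orbit T x).ncard := fun x ⟨g, hg, k⟩ => by
    obtain ⟨a, ha⟩ := h4 x
    have : 1 < (orbit T x).ncard := Set.one_lt_ncard_iff_nontrivial.2
      ⟨_, ⟨⟨g, hg⟩, rfl⟩, x, mem_orbit_self x, k⟩
    rw [ha] at this ⊢
    exact Nat.le_self_pow (by rintro rfl; simp at this) 3
  have h7 := hF.card_fix_lt Nat.prime_three (by decide)
  by_cases hu : ∃ u, ∀ g ∈ T, g u = u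
  · obtain ⟨u, hu⟩ := hu
    obtain ⟨x, hx⟩ := (Set.ne_univ_iff_exists_notMem _).1 (show {x | ∀ c ∈ T, PCyc 3 c → c x = x} ≠
      .univ from fun k => by rw [k, Set.ncard_univ] at h7; omega)
    simp only [Set.mem_ofPred_eq, not_forall] at hx
    obtain ⟨c, c1, -, c3⟩ := hx
    have hxu : x ≠ u := by rintro rfl; exact c3 (hu c c1)
    have h8 := Set.ncard_add_ncard_compl ({u} : Set α)
    rw [Set.ncard_singleton] at h8
    have h9 : T ≤ stabS {u}ᶜ := fun g hg y => by
      simp only [Set.mem_compl_iff, Set.mem_singleton_iff]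
      exact not_congr ⟨fun k => g.injective (k.trans (hu g hg).symm), fun k => k ▸ hu g hg⟩
    by_cases k : insert u (orbit T x) = .univ
    · obtain ⟨a, ha⟩ := h4 x
      have : u ∉ orbit T x := fun e => by
        obtain ⟨g, rfl⟩ := mem_orbit_symm.1 e
        exact hxu (hu g g.2)
      have h10 := Set.ncard_insert_of_notMem this
      rw [k, Set.ncard_univ, ha] at h10
      refine .inr (.inr ⟨a, ?_, h10⟩)
      by_contra! k
      interval_cases a <;> omega
    refine absurd (Set.eq_univ_of_forall fun y => ?_) (h1 x)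
    by_cases e : y = u
    · refine h2 _ (fun g hg => mem_stabS_of_maps ?_) k ((h6 x ⟨c, c1, c3⟩).trans
        (Set.ncard_le_ncard (Set.subset_insert _ _))) x (.inr (mem_orbit_self x)) (.inl e)
      rintro y (rfl | hy)
      exacts [.inl (hu g hg), .inr ((h3 x hg y).2 hy)]
    · exact h2 _ h9 (fun k => (k.ge trivial : u ∈ ({u}ᶜ : Set α)) rfl) (by omega) x hxu e
  push Not at hu
  have h8 : ∀ x, ∃ c ∈ T, PCyc 3 c ∧ c x ≠ x := fun x => by
    by_contra! k
    refine absurd ((h6 x (hu x)).trans (Set.ncard_le_ncard ?_)) h7.not_ge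
    rintro _ ⟨g, rfl⟩ c hc hc'
    have := k _ (T.mul_mem (T.mul_mem (T.inv_mem g.2) hc) g.2) (by simpa using hc'.conj g.1⁻¹)
    exact (by simpa [Equiv.symm_apply_eq] using this : c (g.1 x) = g.1 x)
  have h9 : ∀ x : α, (orbit (cycGen T 3) x).ncard = 3 := fun x => by
    obtain ⟨c, c1, c2, c3⟩ := h8 x
    refine le_antisymm (not_lt.1 fun k => ?_) (c2.le_ncard fun y => c2.mem_orbit c1 c3)
    obtain ⟨a, ha⟩ := IsPGroup.iff_card.1 hT
    have := two_dvd_of_lt_orbit Nat.prime_three c2 c1 c3 k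
    exact absurd (Nat.prime_two.dvd_of_dvd_pow (ha ▸ this)) (by decide)
  have h10 : ∀ r : α → α → Prop, T ≤ presRel r → ∀ x, 1 < {y | r x y}.ncard →
      insert x {y | r x y} ≠ .univ → ∀ g ∈ alternatingGroup α, g ∈ presRel r → g ∈ M := by
    intro r hr x h10 h11
    refine H _ hr fun k => ?_
    obtain ⟨z, hz, hz'⟩ := Set.exists_ne_of_one_lt_ncard h10 x
    obtain ⟨w, hw⟩ := (Set.ne_univ_iff_exists_notMem _).1 h11
    obtain ⟨g, g1, g2, g3⟩ := exists_alt_two (by omega) hz'.symm (b := z) (c := x) (d := w)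
      fun e => hw (.inl e.symm)
    exact hw (.inr (show r x w from g2 ▸ g3 ▸ mem_presRel.1 (k g1) x z hz))
  have h11 : ∀ x : α, orbit (cycGen T 3) x ⊆ orbit (cycGen M 3) x := fun x => by
    rintro _ ⟨⟨g, hg⟩, rfl⟩
    have : cycGen T 3 ≤ cycGen M 3 := Subgroup.closure_mono fun c hc => ⟨hTM hc.1, hc.2⟩
    exact ⟨⟨g, this hg⟩, rfl⟩
  have h12 : ∀ x : α, (orbit (cycGen M 3) x).ncard ≤ 3 := fun x => by
    refine (Set.ncard_le_ncard fun y hy => by_contra fun k => ?_).trans (h9 x).le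
    obtain ⟨w, hw⟩ := (Set.ne_univ_iff_exists_notMem _).1 (h1 x)
    have a1 : ∀ z ∈ orbit (cycGen T 3) w, z ∉ orbit (cycGen M 3) x := fun z hz e =>
      hw (orbit_eq_iff.2 e ▸ mem_orbit_symm.1 (h11 w hz))
    have a2 : ∀ z ∈ orbit (cycGen T 3) y, z ∈ orbit (cycGen M 3) x := fun z hz =>
      orbit_eq_iff.2 hy ▸ h11 y hz
    obtain ⟨g, g1, g2, g3⟩ := exists_even_image
      (Set.subset_union_left (t := orbit (cycGen T 3) w)) Set.subset_union_right
      ((h9 w).trans (h9 y).symm) (Set.one_lt_ncard_iff_nontrivial.1 (by rw [h9]; decide))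
    have a3 : ∀ z ∈ orbit (cycGen T 3) y, g z ∈ orbit (cycGen T 3) w := fun z hz =>
      g3.le ⟨z, hz, rfl⟩
    have a4 : ∀ z ∈ orbit (cycGen T 3) w, g z ∈ orbit (cycGen T 3) y := fun z hz =>
      ((mem_stabS_of_fix g2 z).2 (.inr hz)).resolve_right fun e => by
        obtain ⟨v, hv, e⟩ := g3.ge e
        exact a1 z hz (g.injective e ▸ a2 v hv)
    have a5 : g ∈ M := h10 (fun a b => b ∈ orbit (cycGen T 3) a)
      (fun t ht => mem_presRel.2 fun _ _ => mem_orbit_cycGen ht) x ((h9 x).symm ▸ by decide)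
      (fun e => by
        have := Set.ncard_insert_le x (orbit (cycGen T 3) x)
        rw [show insert x (orbit (cycGen T 3) x) = .univ from e, Set.ncard_univ, h9] at this
        omega) g g1 (mem_presRel.2 fun a b hb => by
      by_cases e1 : a ∈ orbit (cycGen T 3) y
      · rw [orbit_eq_iff.2 (a3 a e1)]; exact a3 b (orbit_eq_iff.2 e1 ▸ hb)
      by_cases e2 : a ∈ orbit (cycGen T 3) w
      · rw [orbit_eq_iff.2 (a4 a e2)]; exact a4 b (orbit_eq_iff.2 e2 ▸ hb)
      rwa [g2 a (not_or.2 ⟨e1, e2⟩), g2 b (not_or.2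
        ⟨fun e => e1 (orbit_eq_iff.2 e ▸ mem_orbit_symm.1 hb),
          fun e => e2 (orbit_eq_iff.2 e ▸ mem_orbit_symm.1 hb)⟩)])
    refine a1 _ (a3 y (mem_orbit_self y)) (blk_orbit x g a5 x (mem_orbit_self x) ?_ y hy)
    rw [g2 x (not_or.2 ⟨fun e => k (mem_orbit_symm.1 e), fun e => a1 x e (mem_orbit_self x)⟩)]
    exact mem_orbit_self x
  obtain ⟨x⟩ : Nonempty α := inferInstance
  by_cases k : orbit T x = .univ
  swap
  · obtain ⟨w, hw⟩ := (Set.ne_univ_iff_exists_notMem _).1 k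
    have a1 := (Set.ncard_le_ncard (h2 _ (h3 x) k (h6 x (hu x)) x (mem_orbit_self x))).trans (h12 x)
    have a2 : 3 ≤ (orbit T x)ᶜ.ncard := (h6 w (hu w)).trans (Set.ncard_le_ncard fun z hz e =>
      hw (orbit_eq_iff.2 e ▸ mem_orbit_symm.1 hz))
    have a3 := (Set.ncard_le_ncard (h2 _ (fun g hg y => (h3 x hg y).not) (fun e =>
      (e.ge trivial : x ∈ (orbit T x)ᶜ) (mem_orbit_self x)) a2 w hw)).trans (h12 w)
    have a4 := Set.ncard_add_ncard_compl (orbit T x)
    have := h6 x (hu x)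
    omega
  obtain ⟨a, ha⟩ := h4 x
  have a0 : (stabilizer T x).index = Nat.card α := by rw [index_stabilizer, k, Set.ncard_univ]
  rw [k, Set.ncard_univ] at ha
  obtain ⟨U, u1, u2, u3⟩ := PGroup.exists_normal_index_eq_of_ne_top hT (H := stabilizer T x)
    fun e => by rw [e, index_top] at a0; omega
  have a1 : (orbit U x).ncard * 3 = Nat.card α := by
    rw [← a0, ← relIndex_mul_index u1, u3, ← index_stabilizer]; rfl
  by_cases a2 : (orbit U x).ncard ≤ 3
  · have : a ≤ 2 := (Nat.pow_le_pow_iff_right (by decide : 1 < 3)).1 (by omega)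
    interval_cases a <;> omega
  refine absurd ((Set.ncard_le_ncard (subset_orbit_cycGen (by omega) (fun g g1 g2 => h10
    (fun a b => b ∈ orbit U a) (fun t ht => mem_presRel.2 fun _ _ =>
      smul_mem_orbit_normal (⟨t, ht⟩ : T)) x (by change 1 < (orbit U x).ncard; omega) (fun e => ?_) g g1
    (mem_presRel.2 fun a b hb => ?_)) (mem_orbit_self x))).trans (h12 x)) a2
  · have := Set.ncard_insert_le x (orbit U x)
    rw [show insert x (orbit U x) = .univ from e, Set.ncard_univ] at this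
    omega
  by_cases e1 : a ∈ orbit U x
  · rw [orbit_eq_iff.2 ((mem_stabS_of_fix g2 a).2 e1)]
    exact (mem_stabS_of_fix g2 b).2 (orbit_eq_iff.2 e1 ▸ hb)
  · rwa [g2 a e1, g2 b fun e => e1 (orbit_eq_iff.2 e ▸ mem_orbit_symm.1 hb)]

theorem three_minimal {X : Type*} [Group X] [Finite X] (hX : IsPMinimal 3 X) (h5 : 5 ≤ Nat.card α)
    (e : generalizedFittingSubgroup X ≃* alternatingGroup α) : generalizedFittingSubgroup X = ⊤ ∧
      (Nat.card α = 6 ∨ Nat.card α = 9 ∨ ∃ a, 2 ≤ a ∧ Nat.card α = 3 ^ a + 1) := by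
  haveI := Fact.mk Nat.prime_three
  haveI : Nontrivial α := Finite.one_lt_card_iff_nontrivial.1 (by omega)
  have key : ∀ S : Sylow 3 X, ∃ M, M ≠ ⊤ ∧ ∀ W, W ≠ ⊤ → (S : Subgroup X) ≤ W → W ≤ M := fun S => by
    obtain ⟨M, h1, h2⟩ := (hX S).2
    refine ⟨M, h1.1.1, fun W h3 h4 => ?_⟩
    obtain ⟨N, h6, h7⟩ := (eq_top_or_exists_le_coatom W).resolve_left h3
    exact h2 N ⟨h6, h4.trans h7⟩ ▸ h7
  have h0 : generalizedFittingSubgroup X = ⊤ := by
    by_contra h0
    obtain ⟨P⟩ : Nonempty (Sylow 3 (generalizedFittingSubgroup X)) := inferInstance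
    obtain ⟨S, hS⟩ := P.exists_comap_subtype_eq
    obtain ⟨M, h1, h2⟩ := key S
    have h3 : (S : Subgroup X) ≤ generalizedFittingSubgroup X := fun s hs => by
      have ho : Odd (orderOf (MulAut.congr e (MulAut.conjNormal s))) := by
        obtain ⟨k, hk⟩ := S.2 ⟨s, hs⟩
        refine Odd.of_dvd_nat (Odd.pow (n := k) (by decide : Odd 3)) (orderOf_dvd_of_pow_eq_one ?_)
        rw [← map_pow, ← map_pow, show s ^ 3 ^ k = 1 from congrArg Subtype.val hk, map_one, map_one]
      obtain ⟨σ, hσ⟩ := mem_range_conjNormal_of_odd h5 ho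
      rw [← hσ, orderOf_injective _ (conjNormal_injective (by omega))] at ho
      have h4 : σ ∈ alternatingGroup α := mem_of_sq_mem ho (by simp [mem_alternatingGroup])
      refine (mul_mem_cancel_left (inv_mem (e.symm ⟨σ, h4⟩).2)).1
        (centralizer_genFitting_le fun x hx => ?_)
      have := congrArg (fun φ => (e.symm (φ (e ⟨x, hx⟩)) : X)) hσ
      simp only [MulAut.congr_apply, MulEquiv.trans_apply, MulEquiv.symm_apply_apply,
        MulAut.conjNormal_apply] at this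
      rw [show MulAut.conjNormal σ (e ⟨x, hx⟩) = ⟨σ, h4⟩ * e ⟨x, hx⟩ * ⟨σ, h4⟩⁻¹ from rfl, map_mul,
        map_mul, map_inv, MulEquiv.symm_apply_apply, Subgroup.coe_mul, Subgroup.coe_mul,
        Subgroup.coe_inv, mul_inv_eq_iff_eq_mul] at this
      rw [mul_assoc, eq_inv_mul_iff_mul_eq, ← mul_assoc, ← mul_assoc, this]
      group
    refine h1 (top_le_iff.1 (P.normalizer_sup_eq_top.ge.trans (sup_le (h2 _ (fun k => ?_) ?_)
      (h2 _ h0 h3))))
    · refine (hX S).1 ?_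
      rwa [normalizer_eq_top_iff, ← hS, map_comap_eq, range_subtype, inf_eq_right.2 h3] at k
    · rw [← hS, map_comap_eq, range_subtype, inf_eq_right.2 h3]; exact le_normalizer
  refine ⟨h0, ?_⟩
  let φ : X →* Perm α := (alternatingGroup α).subtype.comp
    ((topEquiv.symm.trans (MulEquiv.subgroupCongr h0.symm)).trans e).toMonoidHom
  have hi : Function.Injective φ := (subtype_injective _).comp (MulEquiv.injective _)
  have hr : φ.range = alternatingGroup α := by
    rw [MonoidHom.range_comp, MonoidHom.range_eq_top.2 (MulEquiv.surjective _), ← MonoidHom.range_eq_map,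
      range_subtype]
  obtain ⟨S⟩ : Nonempty (Sylow 3 X) := inferInstance
  obtain ⟨M, h1, h2⟩ := key S
  refine three_minimal_aux (T := S.map φ) (M := M.map φ) h5 (S.2.map φ) ?_
    (map_mono (h2 _ (fun k => (hX S).1 (k ▸ inferInstance)) le_rfl)) (fun k => h1 ?_)
    fun W h3 h4 g g1 g2 => ?_
  · rw [Full, ← hr, MonoidHom.range_eq_map, relIndex_map_map_of_injective _ _ hi, relIndex_top_right]
    exact S.not_dvd_index
  · rw [← hr, MonoidHom.range_eq_map, map_le_map_iff_of_injective hi] at k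
    exact top_le_iff.1 k
  · obtain ⟨g, rfl⟩ := hr.ge g1
    refine ⟨g, h2 (W.comap φ) (fun k => h4 ?_) (map_le_iff_le_comap.1 h3) g2, rfl⟩
    rw [← hr, MonoidHom.range_eq_map, map_le_iff_le_comap, k]

end Cfsg.Lib.Alt
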